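import Mathlib

/-!
# Isomorphisms from actions on a small set

`hom_of_label`: a group acting on a set `Ω` and preserving the partial labelling `l : Ω → Option Y` has an induced
homomorphism to `Equiv.Perm Y`; `hom_of_label_gen` checks it on generators of a finite group.
`equiv_of_perm` / `index_two_of_perm`: isomorphisms between groups with the same image in `Equiv.Perm Y`.
-/

set_option autoImplicit false

namespace Cfsg.Agent.Lib.Compute.BlockIso

/-- A group preserving a labelling acts on the labels. -/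
theorem hom_of_label {A Ω Y : Type*} [Group A] (f : A →* Equiv.Perm Ω) (l : Ω → Option Y)
    (hsurj : ∀ y, ∃ i, l i = some y)
    (h : ∀ a y, ∃ y', ∀ i, l i = some y → l (f a i) = some y') :
    ∃ ψ : A →* Equiv.Perm Y, ∀ a i y, l i = some y → l (f a i) = some (ψ a y) := by
  classical
  choose g hg using h
  have huniq : ∀ a y y', (∀ i, l i = some y → l (f a i) = some y') → g a y = y' := by
    intro a y y' hy'
    obtain ⟨i, hi⟩ := hsurj y
    have h1 := hg a y i hi
    rw [hy' i hi] at h1
    exact (Option.some.inj h1).symm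
  have hone : ∀ y, g 1 y = y := fun y => huniq 1 y y (fun i hi => by simpa using hi)
  have hmul : ∀ a b y, g (a * b) y = g a (g b y) := fun a b y =>
    huniq (a * b) y _ (fun i hi => by
      rw [map_mul, Equiv.Perm.mul_apply]
      exact hg a _ _ (hg b y i hi))
  let toP : A → Equiv.Perm Y := fun a =>
    { toFun := g a
      invFun := g a⁻¹
      left_inv := fun y => by rw [← hmul, inv_mul_cancel, hone]
      right_inv := fun y => by rw [← hmul, mul_inv_cancel, hone] }
  refine ⟨MonoidHom.mk' toP (fun a b => Equiv.ext fun y => hmul a b y), ?_⟩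
  intro a i y hi
  exact hg a y i hi

/-- The check on generators of a finite group. -/
theorem hom_of_label_gen {A Ω Y : Type*} [Group A] [Finite A] (f : A →* Equiv.Perm Ω) (l : Ω → Option Y)
    (hsurj : ∀ y, ∃ i, l i = some y) (S : Set A) (hS : Subgroup.closure S = ⊤)
    (h : ∀ a ∈ S, ∀ y, ∃ y', ∀ i, l i = some y → l (f a i) = some y') :
    ∃ ψ : A →* Equiv.Perm Y, ∀ a i y, l i = some y → l (f a i) = some (ψ a y) := by
  refine hom_of_label f l hsurj ?_
  have hcl : ∀ a, ∀ y, ∃ y', ∀ i, l i = some y → l (f a i) = some y' := by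
    intro a
    have ha : a ∈ Subgroup.closure S := by rw [hS]; trivial
    -- in a finite group, the closure is the monoid closure
    have hone : ∀ y, ∃ y', ∀ i, l i = some y → l (f (1 : A) i) = some y' :=
      fun y => ⟨y, fun i hi => by simpa using hi⟩
    have hmul : ∀ x z : A, (∀ y, ∃ y', ∀ i, l i = some y → l (f x i) = some y') →
        (∀ y, ∃ y', ∀ i, l i = some y → l (f z i) = some y') →
        ∀ y, ∃ y', ∀ i, l i = some y → l (f (x * z) i) = some y' := by
      intro x z hx hz y
      obtain ⟨y1, h1⟩ := hz y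
      obtain ⟨y2, h2⟩ := hx y1
      exact ⟨y2, fun i hi => by
        rw [map_mul, Equiv.Perm.mul_apply]
        exact h2 _ (h1 i hi)⟩
    have hpow : ∀ x : A, (∀ y, ∃ y', ∀ i, l i = some y → l (f x i) = some y') → ∀ n : ℕ,
        ∀ y, ∃ y', ∀ i, l i = some y → l (f (x ^ n) i) = some y' := by
      intro x hx n
      induction n with
      | zero => simpa using hone
      | succ n ih => rw [pow_succ]; exact hmul _ _ ih hx
    induction ha using Subgroup.closure_induction with
    | mem x hx => exact h x hx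
    | one => exact hone
    | mul x z _ _ hx hz => exact hmul x z hx hz
    | inv x _ hx =>
      have : x⁻¹ = x ^ (orderOf x - 1) := by
        rw [eq_comm, ← mul_eq_one_iff_eq_inv, ← pow_succ, Nat.sub_add_cancel (orderOf_pos x),
          pow_orderOf_eq_one]
      rw [this]
      exact hpow x hx _
  exact hcl

/-- The homomorphism on the labels of a subgroup generated by a set, with image generated by a set. -/
theorem range_of_label {P Ω Y : Type*} [Group P] [Finite P] (φ : P →* Equiv.Perm Ω) (l : Ω → Option Y)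
    (hsurj : ∀ y, ∃ i, l i = some y) (S : Set P) (T : Set (Equiv.Perm Y))
    (h1 : ∀ a ∈ S, ∃ p ∈ T, ∀ i y, l i = some y → l (φ a i) = some (p y))
    (h2 : ∀ p ∈ T, ∃ a ∈ S, ∀ i y, l i = some y → l (φ a i) = some (p y)) :
    ∃ ψ : Subgroup.closure S →* Equiv.Perm Y, ψ.range = Subgroup.closure T := by
  let S' : Set (Subgroup.closure S) := (↑) ⁻¹' S
  have hS' : Subgroup.closure S' = ⊤ := Subgroup.closure_closure_coe_preimage
  obtain ⟨ψ, hψ⟩ := hom_of_label_gen (φ.comp (Subgroup.closure S).subtype) l hsurj S' hS' (by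
    intro a ha y
    obtain ⟨p, -, hp⟩ := h1 a.1 ha
    exact ⟨p y, fun i hi => hp i y hi⟩)
  have huniq : ∀ (a : Subgroup.closure S) (p : Equiv.Perm Y),
      (∀ i y, l i = some y → l (φ a.1 i) = some (p y)) → ψ a = p := by
    intro a p hp
    ext y
    obtain ⟨i, hi⟩ := hsurj y
    have h3 := hψ a i y hi
    have h4 := hp i y hi
    have h5 : φ a.1 i = (φ.comp (Subgroup.closure S).subtype) a i := rfl
    rw [h5, h3] at h4
    rw [Option.some.inj h4]
  refine ⟨ψ, ?_⟩
  rw [MonoidHom.range_eq_map, ← hS', MonoidHom.map_closure]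
  congr 1
  ext p
  constructor
  · rintro ⟨a, ha, rfl⟩
    obtain ⟨p, hp, hp2⟩ := h1 a.1 ha
    rw [huniq a p hp2]
    exact hp
  · intro hp
    obtain ⟨a, ha, ha2⟩ := h2 p hp
    exact ⟨⟨a, Subgroup.subset_closure ha⟩, ha, huniq _ p ha2⟩

/-- If `ρ : B → Perm Y` has image containing `Z` and `|B| = |Z|`, then `B ≃* Z`. -/
theorem equiv_of_range {B Y : Type*} [Group B] [Finite B] [Finite Y] (ρ : B →* Equiv.Perm Y)
    (Z : Subgroup (Equiv.Perm Y)) (hZ : Z ≤ ρ.range) (hc : Nat.card B = Nat.card Z) :
    Nonempty (B ≃* Z) := by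
  have hle : Nat.card ρ.range ≤ Nat.card B := by
    have := Nat.card_le_card_of_surjective (ρ.rangeRestrict) ρ.rangeRestrict_surjective
    exact this
  have hZ' : Nat.card Z ≤ Nat.card ρ.range := Subgroup.card_le_of_le hZ
  have heq : Z = ρ.range := Subgroup.eq_of_le_of_card_ge hZ (by omega)
  have hinj : Function.Injective ρ.rangeRestrict := by
    have hbij := Function.Surjective.bijective_of_nat_card_le ρ.rangeRestrict_surjective (by omega)
    exact hbij.1
  have e : B ≃* ρ.range := MulEquiv.ofBijective ρ.rangeRestrict ⟨hinj, ρ.rangeRestrict_surjective⟩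
  subst heq
  exact ⟨e⟩

/-- The index two situation. -/
theorem index_two_of_perm {A B Y : Type*} [Group A] [Group B] [Finite A] [Finite B] [Finite Y]
    (ψ : A →* Equiv.Perm Y) (ρ : B →* Equiv.Perm Y) (Z Z' : Subgroup (Equiv.Perm Y))
    (hZZ' : Z ≤ Z') (hψ : ψ.range = Z') (hA : Nat.card A = Nat.card Z') (hZ2 : Nat.card Z' = 2 * Nat.card Z)
    (hZρ : Z ≤ ρ.range) (hB : Nat.card B = Nat.card Z) :
    ∃ N : Subgroup A, N.Normal ∧ N.index = 2 ∧ Nonempty (N ≃* B) := by
  obtain ⟨eB⟩ := equiv_of_range ρ Z hZρ hB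
  have hψinj : Function.Injective ψ := by
    have hsurj : Function.Surjective ψ.rangeRestrict := ψ.rangeRestrict_surjective
    have hbij := hsurj.bijective_of_nat_card_le (by rw [hψ]; exact hA.le)
    intro x y hxy
    apply hbij.1
    exact Subtype.ext hxy
  let N : Subgroup A := Z.comap ψ
  have hmap : N.map ψ = Z := by
    apply Subgroup.map_comap_eq_self
    rw [hψ]
    exact hZZ'
  have hN : Nat.card N = Nat.card Z := by
    rw [← hmap]
    exact (Nat.card_congr (N.equivMapOfInjective ψ hψinj).toEquiv)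
  have hpos : 0 < Nat.card Z := Nat.card_pos
  have hidx : N.index = 2 := by
    have h1 := N.card_mul_index
    rw [hN, hA, hZ2] at h1
    have : Nat.card Z * N.index = Nat.card Z * 2 := by rw [h1]; ring
    exact Nat.eq_of_mul_eq_mul_left hpos this
  refine ⟨N, Subgroup.normal_of_index_eq_two hidx, hidx, ⟨?_⟩⟩
  refine (N.equivMapOfInjective ψ hψinj).trans ?_
  rw [hmap]
  exact eB.symm

end Cfsg.Agent.Lib.Compute.BlockIso
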