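import Mathlib

/-!
# Generic lemmas on subgroups, conjugacy and faithful coset actions

* `equiv_alternating_of_faithful`: a faithful coset action of degree `m` of a group of order `m!/2` identifies it
  with `A_m`.
* `two_trans_of_double_coset`: `G = H ∪ HgH` gives 2-transitivity on `G ⧸ H`.
* `card_two_classes`: the number of subgroups isomorphic to a fixed group when there are two classes with
  self-normalizing representatives.
* `a5_le`: a subgroup isomorphic to `A₅` whose intersection with `H` has elements of orders 2, 3, 5 lies in `H`.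
* `exists_conj_of_order`: elements of order `p` are conjugate into a common cyclic group when `p ∥ |G|`.
-/

set_option autoImplicit false

namespace Cfsg.Agent.Lib.Compute.ConjCount

open scoped Pointwise

section Faithful

variable {G : Type*} [Group G]

/-- An element acting trivially on the cosets of `K` lies in all conjugates of `K`. -/
theorem conj_mem_of_toPerm_eq_one (K : Subgroup G) (x : G)
    (hx : MulAction.toPermHom G (G ⧸ K) x = 1) (g : G) : g⁻¹ * x * g ∈ K := by
  have h1 : x • ((g : G) : G ⧸ K) = ((g : G) : G ⧸ K) := by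
    have := congrArg (fun σ : Equiv.Perm (G ⧸ K) => σ ((g : G) : G ⧸ K)) hx
    simpa using this
  have h2 : ((x * g : G) : G ⧸ K) = ((g : G) : G ⧸ K) := by
    simpa [MulAction.Quotient.smul_coe] using h1
  have h3 := (QuotientGroup.eq (s := K)).mp h2.symm
  simpa [mul_assoc] using h3

/-- A group of order `m!/2` with a faithful action on the `m` cosets of `K` is `A_m`. -/
theorem equiv_alternating_of_faithful [Finite G] (K : Subgroup G) (m : ℕ) (hK : K.index = m)
    (hc : 2 * Nat.card G = m.factorial) (hf : ∀ x : G, (∀ g : G, g⁻¹ * x * g ∈ K) → x = 1) :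
    Nonempty (G ≃* alternatingGroup (Fin m)) := by
  classical
  have hcardQ : Nat.card (G ⧸ K) = m := hK
  let : Fintype (G ⧸ K) := Fintype.ofFinite _
  have he : (G ⧸ K) ≃ Fin m := by
    refine Fintype.equivFinOfCardEq ?_
    rw [← Nat.card_eq_fintype_card, hcardQ]
  let φ : G →* Equiv.Perm (G ⧸ K) := MulAction.toPermHom G (G ⧸ K)
  have hφ : Function.Injective φ := by
    rw [← MonoidHom.ker_eq_bot_iff, eq_bot_iff]
    intro x hx
    exact hf x (conj_mem_of_toPerm_eq_one K x hx)
  have hcard : Nat.card φ.range = Nat.card G :=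
    (Nat.card_congr (MonoidHom.ofInjective hφ).toEquiv).symm
  have hidx : φ.range.index = 2 := by
    have h1 := Subgroup.index_mul_card φ.range
    have h2 : Nat.card (Equiv.Perm (G ⧸ K)) = m.factorial := by
      rw [Nat.card_perm, hcardQ]
    rw [h2, hcard, ← hc] at h1
    exact Nat.eq_of_mul_eq_mul_right Nat.card_pos h1
  have hR : φ.range = alternatingGroup (G ⧸ K) :=
    Equiv.Perm.eq_alternatingGroup_of_index_eq_two hidx
  exact ⟨(MonoidHom.ofInjective hφ).trans
    ((MulEquiv.subgroupCongr hR).trans (Equiv.altCongrHom he))⟩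

/-- `G = H ∪ HgH` makes the action on `G ⧸ H` 2-transitive. -/
theorem two_trans_of_double_coset (H : Subgroup G) (g : G)
    (hg : ∀ x, x ∉ H → ∃ a ∈ H, ∃ b ∈ H, x = a * g * b) :
    MulAction.IsMultiplyPretransitive G (G ⧸ H) 2 := by
  rw [MulAction.is_two_pretransitive_iff]
  intro a b c d hab hcd
  obtain ⟨α, rfl⟩ := QuotientGroup.mk_surjective a
  obtain ⟨β, rfl⟩ := QuotientGroup.mk_surjective b
  obtain ⟨γ, rfl⟩ := QuotientGroup.mk_surjective c
  obtain ⟨δ, rfl⟩ := QuotientGroup.mk_surjective d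
  have h1 : α⁻¹ * β ∉ H := fun h => hab ((QuotientGroup.eq (s := H)).mpr h)
  have h2 : γ⁻¹ * δ ∉ H := fun h => hcd ((QuotientGroup.eq (s := H)).mpr h)
  obtain ⟨a1, ha1, b1, hb1, e1⟩ := hg _ h1
  obtain ⟨a2, ha2, b2, hb2, e2⟩ := hg _ h2
  refine ⟨γ * a2 * a1⁻¹ * α⁻¹, ?_, ?_⟩
  · rw [MulAction.Quotient.smul_coe, QuotientGroup.eq]
    have : ((γ * a2 * a1⁻¹ * α⁻¹) • α)⁻¹ * γ = a1 * a2⁻¹ := by
      simp only [smul_eq_mul]
      group
    rw [this]
    exact H.mul_mem ha1 (H.inv_mem ha2)
  · rw [MulAction.Quotient.smul_coe, QuotientGroup.eq]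
    have hβ : β = α * (a1 * g * b1) := by rw [← e1]; group
    have hδ : δ = γ * (a2 * g * b2) := by rw [← e2]; group
    have : ((γ * a2 * a1⁻¹ * α⁻¹) • β)⁻¹ * δ = b1⁻¹ * b2 := by
      simp only [smul_eq_mul]
      rw [hβ, hδ]
      group
    rw [this]
    exact H.mul_mem (H.inv_mem hb1) hb2

end Faithful

section Conj

variable {G : Type*} [Group G]

theorem mem_conj_smul {g x : G} {H : Subgroup G} : x ∈ MulAut.conj g • H ↔ g⁻¹ * x * g ∈ H := by
  rw [Subgroup.mem_pointwise_smul_iff_inv_smul_mem]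
  simp [MulAut.smul_def, MulAut.inv_def, mul_assoc]

theorem conj_mul_smul (g h : G) (H : Subgroup G) :
    MulAut.conj (g * h) • H = MulAut.conj g • (MulAut.conj h • H) := by
  rw [map_mul, mul_smul]

theorem conj_one_smul (H : Subgroup G) : MulAut.conj (1 : G) • H = H := by
  rw [map_one, one_smul]

theorem conj_inv_smul_smul (g : G) (H : Subgroup G) :
    MulAut.conj g⁻¹ • (MulAut.conj g • H) = H := by
  rw [map_inv, inv_smul_smul]

theorem conj_smul_inv_smul (g : G) (H : Subgroup G) :
    MulAut.conj g • (MulAut.conj g⁻¹ • H) = H := by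
  rw [map_inv, smul_inv_smul]

theorem conj_smul_eq_of_mem {H : Subgroup G} {h : G} (hh : h ∈ H) : MulAut.conj h • H = H := by
  ext x
  rw [mem_conj_smul]
  constructor
  · intro hx
    have : x = h * (h⁻¹ * x * h) * h⁻¹ := by group
    rw [this]
    exact H.mul_mem (H.mul_mem hh hx) (H.inv_mem hh)
  · intro hx
    exact H.mul_mem (H.mul_mem (H.inv_mem hh) hx) hh

/-- The number of subgroups isomorphic to `A` when they form two classes with self-normalizing representatives. -/
theorem card_two_classes [Finite G] {A : Type*} [Group A] (H K : Subgroup G)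
    (hH : Nonempty (H ≃* A)) (hK : Nonempty (K ≃* A))
    (hn : ∀ g : G, MulAut.conj g • H ≠ K)
    (hcov : ∀ L : Subgroup G, Nonempty (L ≃* A) →
      ∃ g : G, MulAut.conj g • L = H ∨ MulAut.conj g • L = K)
    (hNH : ∀ g : G, MulAut.conj g • H = H → g ∈ H) (hNK : ∀ g : G, MulAut.conj g • K = K → g ∈ K) :
    Nat.card {L : Subgroup G // Nonempty (L ≃* A)} = H.index + K.index := by
  have hconj : ∀ (g : G) (L : Subgroup G), Nonempty (L ≃* A) →
      Nonempty ((MulAut.conj g • L : Subgroup G) ≃* A) := by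
    rintro g L ⟨e⟩
    exact ⟨(Subgroup.equivSMul (MulAut.conj g) L).symm.trans e⟩
  let f : (G ⧸ H) ⊕ (G ⧸ K) → {L : Subgroup G // Nonempty (L ≃* A)} := fun q =>
    match q with
    | .inl q => ⟨MulAut.conj q.out • H, hconj _ _ hH⟩
    | .inr q => ⟨MulAut.conj q.out • K, hconj _ _ hK⟩
  have hinj : ∀ (H : Subgroup G), (∀ g : G, MulAut.conj g • H = H → g ∈ H) → ∀ q q' : G ⧸ H,
      MulAut.conj q.out • H = MulAut.conj q'.out • H → q = q' := by
    intro H hN q q' h
    have h1 : MulAut.conj (q.out⁻¹ * q'.out) • H = H := by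
      rw [conj_mul_smul, ← h, conj_inv_smul_smul]
    have h2 := hN _ h1
    rw [← QuotientGroup.out_eq' q, ← QuotientGroup.out_eq' q']
    exact (QuotientGroup.eq (s := H)).mpr h2
  have hsurj : ∀ (H : Subgroup G) (g : G), ∃ q : G ⧸ H, MulAut.conj q.out • H = MulAut.conj g • H := by
    intro H g
    refine ⟨(g : G ⧸ H), ?_⟩
    obtain ⟨h, hh⟩ := QuotientGroup.mk_out_eq_mul H g
    rw [hh, conj_mul_smul, conj_smul_eq_of_mem h.2]
  have hf : Function.Bijective f := by
    constructor
    · rintro (q | q) (q' | q') h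
      · exact congrArg Sum.inl (hinj H hNH q q' (congrArg Subtype.val h))
      · exfalso
        have h1 : MulAut.conj q.out • H = MulAut.conj q'.out • K := congrArg Subtype.val h
        apply hn (q'.out⁻¹ * q.out)
        rw [conj_mul_smul, h1, conj_inv_smul_smul]
      · exfalso
        have h1 : MulAut.conj q.out • K = MulAut.conj q'.out • H := congrArg Subtype.val h
        apply hn (q.out⁻¹ * q'.out)
        rw [conj_mul_smul, ← h1, conj_inv_smul_smul]
      · exact congrArg Sum.inr (hinj K hNK q q' (congrArg Subtype.val h))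
    · rintro ⟨L, hL⟩
      obtain ⟨g, hg | hg⟩ := hcov L hL
      · obtain ⟨q, hq⟩ := hsurj H g⁻¹
        refine ⟨.inl q, Subtype.ext ?_⟩
        change MulAut.conj q.out • H = L
        rw [hq, ← hg, conj_inv_smul_smul]
      · obtain ⟨q, hq⟩ := hsurj K g⁻¹
        refine ⟨.inr q, Subtype.ext ?_⟩
        change MulAut.conj q.out • K = L
        rw [hq, ← hg, conj_inv_smul_smul]
  rw [← Nat.card_congr (Equiv.ofBijective f hf), Nat.card_sum]
  rfl

end Conj

section A5

variable {G : Type*} [Group G]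

/-- A subgroup isomorphic to `A₅` meeting `H` in elements of orders 2, 3 and 5 lies in `H`. -/
theorem a5_le [Finite G] (L H : Subgroup G) (e : L ≃* alternatingGroup (Fin 5)) (y t u : G)
    (hyL : y ∈ L) (htL : t ∈ L) (huL : u ∈ L) (hyH : y ∈ H) (htH : t ∈ H) (huH : u ∈ H)
    (hy : orderOf y = 5) (ht : orderOf t = 2) (hu : orderOf u = 3) : L ≤ H := by
  have hcardL : Nat.card L = 60 := by
    rw [Nat.card_congr e.toEquiv, Nat.card_eq_fintype_card]
    have h2 := two_mul_card_alternatingGroup (α := Fin 5)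
    have h3 : Fintype.card (Equiv.Perm (Fin 5)) = 120 := by
      rw [Fintype.card_perm, Fintype.card_fin]
      decide
    omega
  let M : Subgroup L := H.subgroupOf L
  have hd : ∀ x : G, x ∈ L → x ∈ H → orderOf x ∣ Nat.card M := by
    intro x hxL hxH
    have hxM : (⟨x, hxL⟩ : L) ∈ M := Subgroup.mem_subgroupOf.mpr hxH
    have h1 := orderOf_dvd_natCard (⟨⟨x, hxL⟩, hxM⟩ : M)
    have h2 : orderOf (⟨⟨x, hxL⟩, hxM⟩ : M) = orderOf x := by
      rw [Subgroup.orderOf_mk, Subgroup.orderOf_mk]
    rwa [h2] at h1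
  have h5 := hd y hyL hyH
  have h2 := hd t htL htH
  have h3 := hd u huL huH
  rw [hy] at h5
  rw [ht] at h2
  rw [hu] at h3
  have h30 : 30 ∣ Nat.card M := by
    have h6 : 6 ∣ Nat.card M := Nat.Coprime.mul_dvd_of_dvd_of_dvd (by norm_num) h2 h3
    exact Nat.Coprime.mul_dvd_of_dvd_of_dvd (by norm_num) h5 h6
  have hm := Subgroup.index_mul_card M
  rw [hcardL] at hm
  obtain ⟨c, hc⟩ := h30
  have hidx : M.index ∣ 2 := by
    rw [hc] at hm
    have hc0 : 0 < c := by
      rcases Nat.eq_zero_or_pos c with h | h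
      · subst h; simp at hm
      · exact h
    have h4 : M.index * c * 30 = 2 * 30 := by
      calc M.index * c * 30 = M.index * (30 * c) := by ring
        _ = 60 := hm
        _ = 2 * 30 := by norm_num
    have h6 := Nat.eq_of_mul_eq_mul_right (by norm_num) h4
    exact ⟨c, h6.symm⟩
  have hsimple : IsSimpleGroup L := e.isSimpleGroup
  have htop : M = ⊤ := by
    rcases (Nat.dvd_prime Nat.prime_two).mp hidx with h | h
    · exact Subgroup.index_eq_one.mp h
    · have hnorm : M.Normal := Subgroup.normal_of_index_eq_two h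
      rcases hnorm.eq_bot_or_eq_top with hb | ht'
      · exfalso
        rw [hb, Subgroup.card_bot] at hc
        omega
      · exact ht'
  exact Subgroup.subgroupOf_eq_top.mp htop

/-- For `p ∥ |G|`, elements of order `p` generate conjugate subgroups. -/
theorem exists_conj_of_order [Finite G] (p n : ℕ) [Fact p.Prime] (hn : Nat.card G = p * n) (hp : ¬ p ∣ n)
    (y z : G) (hy : orderOf y = p) (hz : orderOf z = p) (L : Subgroup G) (hzL : z ∈ L) :
    ∃ g : G, y ∈ MulAut.conj g • L := by
  have hpp : p.Prime := Fact.out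
  have hcard : ∀ x : G, orderOf x = p → ∀ P : Sylow p G, (Subgroup.zpowers x : Subgroup G) ≤ P →
      (Subgroup.zpowers x : Subgroup G) = P := by
    intro x hx P hP
    have hcP : Nat.card P = p := by
      have h1 := P.card_eq_multiplicity
      have hn0 : n ≠ 0 := by
        rintro rfl
        exact hp (dvd_zero _)
      have h2 : (Nat.card G).factorization p = 1 := by
        rw [hn, Nat.factorization_mul hpp.ne_zero hn0, Finsupp.add_apply, hpp.factorization_self,
          Nat.factorization_eq_zero_of_not_dvd hp]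
      rw [h2, pow_one] at h1
      exact h1
    apply Subgroup.eq_of_le_of_card_ge hP
    rw [hcP, Nat.card_zpowers, hx]
  obtain ⟨P, hP⟩ := IsPGroup.exists_le_sylow (p := p) (P := Subgroup.zpowers z)
    (by
      rw [IsPGroup.iff_card (p := p)]
      exact ⟨1, by rw [Nat.card_zpowers, hz, pow_one]⟩)
  obtain ⟨Q, hQ⟩ := IsPGroup.exists_le_sylow (p := p) (P := Subgroup.zpowers y)
    (by
      rw [IsPGroup.iff_card (p := p)]
      exact ⟨1, by rw [Nat.card_zpowers, hy, pow_one]⟩)
  have e1 := hcard _ hz P hP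
  have e2 := hcard _ hy Q hQ
  obtain ⟨t, ht⟩ := MulAction.exists_smul_eq G P Q
  refine ⟨t, ?_⟩
  have hmem : y ∈ MulAut.conj t • (P : Subgroup G) := by
    have : y ∈ ((t • P : Sylow p G) : Subgroup G) := by
      rw [ht, ← e2]; exact Subgroup.mem_zpowers _
    exact this
  rw [mem_conj_smul] at hmem ⊢
  rw [← e1] at hmem
  exact (Subgroup.zpowers_le.mpr hzL) hmem

theorem card_alt5 : Nat.card (alternatingGroup (Fin 5)) = 60 := by
  rw [Nat.card_eq_fintype_card]
  have h2 := two_mul_card_alternatingGroup (α := Fin 5)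
  have h3 : Fintype.card (Equiv.Perm (Fin 5)) = 120 := by
    rw [Fintype.card_perm, Fintype.card_fin]
    decide
  omega

theorem a5_fact : ∀ y : Equiv.Perm (Fin 5), y ^ 5 = 1 → y ≠ 1 →
    ∃ t : Equiv.Perm (Fin 5), t ^ 2 = 1 ∧ t ≠ 1 ∧ (y * t) ^ 3 = 1 ∧ y * t ≠ 1 := by
  decide +kernel

private theorem sign_of_odd_pow {x : Equiv.Perm (Fin 5)} {k : ℕ} (hk : Odd k) (h : x ^ k = 1) :
    Equiv.Perm.sign x = 1 := by
  have h1 : (Equiv.Perm.sign x) ^ k = 1 := by rw [← map_pow, h, map_one]
  rcases Int.units_eq_one_or (Equiv.Perm.sign x) with h2 | h2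
  · exact h2
  · rw [h2, hk.neg_one_pow] at h1
    exact absurd h1 (by decide)

/-- In a copy of `A₅`, an element of order 5 is the first of a `(5, 2, 3)`-triple. -/
theorem a5_exists (L : Subgroup G) (e : L ≃* alternatingGroup (Fin 5)) (y : G) (hyL : y ∈ L)
    (hy : orderOf y = 5) :
    ∃ t ∈ L, t ^ 2 = 1 ∧ t ≠ 1 ∧ (y * t) ^ 3 = 1 ∧ y * t ≠ 1 := by
  let y' := e ⟨y, hyL⟩
  have hy' : orderOf y' = 5 := by
    rw [MulEquiv.orderOf_eq, Subgroup.orderOf_mk, hy]
  have hy1 : y'.1 ^ 5 = 1 := by
    have h1 : y' ^ 5 = 1 := by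
      have := pow_orderOf_eq_one y'
      rwa [hy'] at this
    exact congrArg Subtype.val h1
  have hy2 : y'.1 ≠ 1 := by
    intro h
    have h1 : y' = 1 := Subtype.ext h
    rw [h1, orderOf_one] at hy'
    omega
  obtain ⟨t0, h1, h2, h3, h4⟩ := a5_fact y'.1 hy1 hy2
  have hsy : Equiv.Perm.sign y'.1 = 1 := y'.2
  have hs : Equiv.Perm.sign (y'.1 * t0) = 1 := sign_of_odd_pow (by decide) h3
  have ht0 : t0 ∈ alternatingGroup (Fin 5) := by
    rw [Equiv.Perm.mem_alternatingGroup]
    rwa [map_mul, hsy, one_mul] at hs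
  let t' : alternatingGroup (Fin 5) := ⟨t0, ht0⟩
  have hyt : e.symm y' = ⟨y, hyL⟩ := e.symm_apply_apply _
  refine ⟨(e.symm t').1, (e.symm t').2, ?_, ?_, ?_, ?_⟩
  · have h5 : (e.symm t') ^ 2 = 1 := by
      rw [← map_pow]
      have h6 : t' ^ 2 = 1 := Subtype.ext h1
      rw [h6, map_one]
    exact congrArg Subtype.val h5
  · intro h5
    apply h2
    have h6 : e.symm t' = 1 := Subtype.ext h5
    have h7 : t' = 1 := by simpa using h6
    exact congrArg Subtype.val h7
  · have h5 : (e.symm y' * e.symm t') ^ 3 = 1 := by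
      rw [← map_mul, ← map_pow]
      have h6 : (y' * t') ^ 3 = 1 := Subtype.ext h3
      rw [h6, map_one]
    rw [hyt] at h5
    exact congrArg Subtype.val h5
  · intro h5
    apply h4
    have h6 : (⟨y, hyL⟩ : L) * e.symm t' = 1 := Subtype.ext h5
    rw [← hyt, ← map_mul] at h6
    have h7 : y' * t' = 1 := by
      apply e.symm.injective
      rw [map_one]
      exact h6
    exact congrArg Subtype.val h7

end A5

section Transport

variable {G G' : Type*} [Group G] [Group G']

theorem conj_map (e : G ≃* G') (g : G) (H : Subgroup G) :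
    MulAut.conj (e g) • H.map e.toMonoidHom = (MulAut.conj g • H).map e.toMonoidHom := by
  ext x
  rw [mem_conj_smul, Subgroup.mem_map_equiv, Subgroup.mem_map_equiv, mem_conj_smul]
  simp [map_mul]

/-- The conjugacy data of two classes of subgroups isomorphic to `A`. -/
structure TwoClasses (G A : Type*) [Group G] [Group A] (H K : Subgroup G) : Prop where
  hH : Nonempty (H ≃* A)
  hK : Nonempty (K ≃* A)
  hn : ∀ g : G, MulAut.conj g • H ≠ K
  hcov : ∀ L : Subgroup G, Nonempty (L ≃* A) →
    ∃ g : G, MulAut.conj g • L = H ∨ MulAut.conj g • L = K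
  hNH : ∀ g : G, MulAut.conj g • H = H → g ∈ H
  hNK : ∀ g : G, MulAut.conj g • K = K → g ∈ K

/-- The data transports along an isomorphism. -/
theorem TwoClasses.map {A : Type*} [Group A] {H K : Subgroup G} (h : TwoClasses G A H K) (e : G ≃* G') :
    TwoClasses G' A (H.map e.toMonoidHom) (K.map e.toMonoidHom) := by
  have hinj : Function.Injective (Subgroup.map e.toMonoidHom) :=
    Subgroup.map_injective e.injective
  have hN : ∀ (H : Subgroup G), (∀ g : G, MulAut.conj g • H = H → g ∈ H) →
      ∀ g : G', MulAut.conj g • H.map e.toMonoidHom = H.map e.toMonoidHom → g ∈ H.map e.toMonoidHom := by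
    intro H hH g hg
    obtain ⟨g, rfl⟩ := e.surjective g
    rw [conj_map] at hg
    exact ⟨g, hH g (hinj hg), rfl⟩
  refine ⟨?_, ?_, ?_, ?_, hN H h.hNH, hN K h.hNK⟩
  · obtain ⟨f⟩ := h.hH
    exact ⟨(e.subgroupMap H).symm.trans f⟩
  · obtain ⟨f⟩ := h.hK
    exact ⟨(e.subgroupMap K).symm.trans f⟩
  · intro g hg
    obtain ⟨g, rfl⟩ := e.surjective g
    rw [conj_map] at hg
    exact h.hn g (hinj hg)
  · intro L' hL'
    obtain ⟨f⟩ := hL'
    have hL : L' = (L'.map e.symm.toMonoidHom).map e.toMonoidHom := by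
      ext x
      rw [Subgroup.mem_map_equiv, Subgroup.mem_map_equiv]
      simp
    obtain ⟨g, hg⟩ := h.hcov (L'.map e.symm.toMonoidHom)
      ⟨(e.symm.subgroupMap L').symm.trans f⟩
    refine ⟨e g, ?_⟩
    rw [hL, conj_map]
    rcases hg with hg | hg
    · exact Or.inl (congrArg _ hg)
    · exact Or.inr (congrArg _ hg)

end Transport

end Cfsg.Agent.Lib.Compute.ConjCount
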