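import Cfsg.Agent.Lib.Compute.GFModel
import Cfsg.Agent.Lib.Compute.ToddCoxeterCore

/-!
# Vectors over `GF4` packed in natural numbers

Coordinate `k` of the code `n` occupies the bits `2k` and `2k + 1`. A matrix is given by a table `T`:
`T (4 * j + c)` is the code of `c` times the column `j`, so that a matrix-vector product is an exclusive or of `d`
entries of the table, which the kernel computes fast.
-/

set_option autoImplicit false

namespace Cfsg.Agent.Lib.Compute.GF4Vec

open Cfsg.Agent.Lib.Compute.GFModel Cfsg.Agent.Lib.Compute.ToddCoxeterCore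

/-- A bit as an element of `ZMod 2`. -/
def bitZ (n k : ℕ) : ZMod 2 := if n.testBit k then 1 else 0

/-- The coordinate `k` of a code. -/
def decE (n k : ℕ) : GF4 := ⟨bitZ n (2 * k), bitZ n (2 * k + 1)⟩

theorem bitZ_xor (a b k : ℕ) : bitZ (a ^^^ b) k = bitZ a k + bitZ b k := by
  simp only [bitZ, Nat.testBit_xor]
  cases a.testBit k <;> cases b.testBit k <;> decide

theorem decE_xor (a b k : ℕ) : decE (a ^^^ b) k = decE a k + decE b k := by
  apply QuadraticAlgebra.ext
  · exact bitZ_xor a b _
  · exact bitZ_xor a b _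

theorem decE_zero (k : ℕ) : decE 0 k = 0 := by
  apply QuadraticAlgebra.ext <;> simp [decE, bitZ]

/-- The two bits of a coordinate. -/
def crd (v k : ℕ) : ℕ := Nat.land (Nat.shiftRight v (Nat.mul 2 k)) 3

theorem crd_lt (v k : ℕ) : crd v k < 4 := by
  have h : crd v k = (v >>> (2 * k)) &&& 3 := rfl
  rw [h]
  exact Nat.and_lt_two_pow (n := 2) _ (by norm_num)

theorem decE_crd (v k : ℕ) : decE (crd v k) 0 = decE v k := by
  have h : crd v k = (v >>> (2 * k)) &&& 3 := rfl
  apply QuadraticAlgebra.ext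
  · show bitZ (crd v k) (2 * 0) = bitZ v (2 * k)
    rw [h]
    simp only [bitZ, Nat.testBit_and, Nat.testBit_shiftRight]
    simp
  · show bitZ (crd v k) (2 * 0 + 1) = bitZ v (2 * k + 1)
    rw [h]
    have h3 : Nat.testBit 3 1 = true := by decide
    simp only [bitZ, Nat.testBit_and, Nat.testBit_shiftRight]
    simp [h3]

/-- The exclusive or of the table entries of the first `n` coordinates. -/
def mvA (T : ℕ → ℕ) (v : ℕ) : ℕ → ℕ
  | 0 => 0
  | n + 1 => Nat.xor (mvA T v n) (T (Nat.add (Nat.mul 4 n) (crd v n)))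

/-- The hypothesis on a table. -/
def TOK (d : ℕ) (T : ℕ → ℕ) : Prop :=
  ∀ j, j < d → ∀ c, c < 4 → ∀ i, i < d → decE (T (4 * j + c)) i = decE c 0 * decE (T (4 * j + 1)) i

theorem decE_mvA {d : ℕ} {T : ℕ → ℕ} (hT : TOK d T) (v i : ℕ) (hi : i < d) (n : ℕ) (hn : n ≤ d) :
    decE (mvA T v n) i = ∑ j ∈ Finset.range n, decE (T (4 * j + 1)) i * decE v j := by
  induction n with
  | zero => simp [mvA, decE_zero]
  | succ n ih =>
    rw [Finset.sum_range_succ, ← ih (by omega), mvA]
    have h : Nat.xor (mvA T v n) (T (Nat.add (Nat.mul 4 n) (crd v n))) =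
      (mvA T v n) ^^^ (T (4 * n + crd v n)) := rfl
    rw [h, decE_xor, hT n (by omega) _ (crd_lt v n) i hi, decE_crd, mul_comm]

section Mat

variable {ι : Type*} [Fintype ι] [DecidableEq ι] {d : ℕ} (e : ι ≃ Fin d)

/-- The vector of a code. -/
def decV (n : ℕ) : ι → GF4 := fun i => decE n (e i)

/-- The matrix of a table. -/
def matT (T : ℕ → ℕ) : Matrix ι ι GF4 := fun i j => decE (T (4 * (e j) + 1)) (e i)

theorem matT_mulVec {T : ℕ → ℕ} (hT : TOK d T) (v : ℕ) :
    Matrix.mulVec (matT e T) (decV e v) = decV e (mvA T v d) := by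
  funext i
  show ∑ j, matT e T i j * decV e v j = decE (mvA T v d) (e i)
  rw [decE_mvA hT v _ (e i).2 d le_rfl, ← Fin.sum_univ_eq_sum_range
    (fun j => decE (T (4 * j + 1)) (e i) * decE v j) d]
  exact Equiv.sum_comp e (fun j : Fin d => decE (T (4 * (j : ℕ) + 1)) (e i) * decE v j)

/-- The matrices of a family of tables along a word: the first letter acts first. -/
def wv (T : ℕ → ℕ → ℕ) (d : ℕ) : List ℕ → ℕ → ℕ
  | [], v => v
  | x :: u, v => wv T d u (mvA (T x) v d)

theorem decE_two_pow (k i : ℕ) : decE (2 ^ (2 * k)) i = if i = k then 1 else 0 := by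
  by_cases h : i = k
  · subst h
    rw [if_pos rfl]
    apply QuadraticAlgebra.ext
    · simp [decE, bitZ]
      rfl
    · simp [decE, bitZ]
      rfl
  · rw [if_neg h]
    apply QuadraticAlgebra.ext
    · simp only [decE, bitZ, Nat.testBit_two_pow]
      have : ¬ (2 * k = 2 * i) := by omega
      simp [this]
    · simp only [decE, bitZ, Nat.testBit_two_pow]
      have : ¬ (2 * k = 2 * i + 1) := by omega
      simp [this]

theorem decV_basis (j : ι) : decV e (2 ^ (2 * (e j : ℕ))) = Pi.single j 1 := by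
  funext i
  show decE _ _ = _
  rw [decE_two_pow, Pi.single_apply]
  by_cases h : i = j
  · subst h; simp
  · rw [if_neg h, if_neg]
    intro h2
    exact h (e.injective (Fin.ext h2))

/-- Two matrices agreeing on the vectors of the basis are equal. -/
theorem mat_ext {M N : Matrix ι ι GF4}
    (h : ∀ k : Fin d, Matrix.mulVec M (decV e (2 ^ (2 * (k : ℕ)))) =
      Matrix.mulVec N (decV e (2 ^ (2 * (k : ℕ))))) : M = N := by
  apply Matrix.ext
  intro i j
  have h1 := h (e j)
  rw [decV_basis] at h1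
  rw [Matrix.mulVec_single_one, Matrix.mulVec_single_one] at h1
  exact congrFun h1 i

end Mat

/-! ### Words of matrices -/

section Words

open Matrix

variable {ι : Type*} [Fintype ι] [DecidableEq ι] {d : ℕ} (e : ι ≃ Fin d)

/-- The action of the general linear group on vectors. -/
def glPerm : GL ι GF4 →* Equiv.Perm (ι → GF4) where
  toFun g :=
    { toFun := fun v => Matrix.mulVec g.1 v
      invFun := fun v => Matrix.mulVec (g⁻¹).1 v
      left_inv := fun v => by
        show Matrix.mulVec (g⁻¹).1 (Matrix.mulVec g.1 v) = v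
        rw [Matrix.mulVec_mulVec]
        have : (g⁻¹).1 * g.1 = 1 := congrArg Units.val (inv_mul_cancel g)
        rw [this, Matrix.one_mulVec]
      right_inv := fun v => by
        show Matrix.mulVec g.1 (Matrix.mulVec (g⁻¹).1 v) = v
        rw [Matrix.mulVec_mulVec]
        have : g.1 * (g⁻¹).1 = 1 := congrArg Units.val (mul_inv_cancel g)
        rw [this, Matrix.one_mulVec] }
  map_one' := Equiv.ext fun v => by
    show Matrix.mulVec (1 : GL ι GF4).1 v = v
    exact Matrix.one_mulVec v
  map_mul' g h := Equiv.ext fun v => by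
    show Matrix.mulVec (g * h).1 v = Matrix.mulVec g.1 (Matrix.mulVec h.1 v)
    rw [Matrix.mulVec_mulVec]
    rfl

theorem glPerm_apply (g : GL ι GF4) (v : ι → GF4) : glPerm g v = Matrix.mulVec g.1 v := rfl

/-- The matrix with columns given by a table on the basis. -/
theorem matT_mulVec_basis (P : ℕ → ℕ) (k : Fin d) :
    Matrix.mulVec (matT e P) (decV e (2 ^ (2 * (k : ℕ)))) = decV e (P (4 * k + 1)) := by
  obtain ⟨j, rfl⟩ := e.surjective k
  rw [decV_basis, Matrix.mulVec_single_one]
  rfl

variable {m : ℕ} {T : ℕ → ℕ → ℕ} {el : ℕ → GL ι GF4}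

theorem word_mulVec (hT : ∀ j, j < m → TOK d (T j)) (hel : ∀ j, j < m → (el j).1 = matT e (T j))
    (u : List ℕ) (hu : ∀ x ∈ u, x < m) (v : ℕ) :
    Matrix.mulVec (wordEl el u).1 (decV e v) = decV e (wv T d u v) := by
  induction u generalizing v with
  | nil =>
    show Matrix.mulVec (1 : GL ι GF4).1 _ = _
    exact Matrix.one_mulVec _
  | cons x u ih =>
    rw [wordEl_cons]
    show Matrix.mulVec ((wordEl el u).1 * (el x).1) _ = _
    rw [← Matrix.mulVec_mulVec, hel x (hu x (by simp)), matT_mulVec e (hT x (hu x (by simp))),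
      ih (fun y hy => hu y (by simp [hy]))]
    rfl

/-- A word equal to a matrix of a table, checked on the basis. -/
theorem word_eq (hT : ∀ j, j < m → TOK d (T j)) (hel : ∀ j, j < m → (el j).1 = matT e (T j))
    (u : List ℕ) (hu : ∀ x ∈ u, x < m) (P : ℕ → ℕ)
    (h : ∀ k, k < d → wv T d u (2 ^ (2 * k)) = P (4 * k + 1)) :
    (wordEl el u).1 = matT e P := by
  apply mat_ext e
  intro k
  rw [word_mulVec e hT hel u hu, matT_mulVec_basis, h k k.2]

/-- A word which is the identity, checked on the basis. -/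
theorem word_eq_one (hT : ∀ j, j < m → TOK d (T j)) (hel : ∀ j, j < m → (el j).1 = matT e (T j))
    (u : List ℕ) (hu : ∀ x ∈ u, x < m)
    (h : ∀ k, k < d → wv T d u (2 ^ (2 * k)) = 2 ^ (2 * k)) :
    wordEl el u = 1 := by
  apply Units.ext
  apply mat_ext e
  intro k
  rw [word_mulVec e hT hel u hu, h k k.2]
  exact (Matrix.one_mulVec _).symm

theorem wordEl_mem {G : Type*} [Group G] (K : Subgroup G) {f : ℕ → G} (hf : ∀ x, x < m → f x ∈ K)
    (u : List ℕ) (hu : ∀ x ∈ u, x < m) : wordEl f u ∈ K := by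
  induction u with
  | nil => exact K.one_mem
  | cons x u ih =>
    rw [wordEl_cons]
    exact K.mul_mem (ih fun y hy => hu y (by simp [hy])) (hf x (hu x (by simp)))

/-- A matrix of an involutive table as a unit. -/
def unitOf (T : ℕ → ℕ) (hT : TOK d T)
    (h : ∀ k, k < d → mvA T (mvA T (2 ^ (2 * k)) d) d = 2 ^ (2 * k)) : GL ι GF4 :=
  have hm : matT e T * matT e T = 1 := by
    apply mat_ext e
    intro k
    rw [← Matrix.mulVec_mulVec, matT_mulVec e hT, matT_mulVec e hT, h k k.2]
    exact (Matrix.one_mulVec _).symm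
  ⟨matT e T, matT e T, hm, hm⟩

theorem unitOf_val (T : ℕ → ℕ) (hT : TOK d T)
    (h : ∀ k, k < d → mvA T (mvA T (2 ^ (2 * k)) d) d = 2 ^ (2 * k)) :
    (unitOf e T hT h).1 = matT e T := rfl

end Words

/-! ### Injectivity of the codes -/

theorem bitZ_inj {a b k : ℕ} (h : bitZ a k = bitZ b k) : a.testBit k = b.testBit k := by
  unfold bitZ at h
  cases ha : a.testBit k <;> cases hb : b.testBit k <;> simp [ha, hb] at h ⊢

theorem decV_inj {ι : Type*} {d : ℕ} (e : ι ≃ Fin d) {a b : ℕ} (ha : a < 2 ^ (2 * d)) (hb : b < 2 ^ (2 * d))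
    (h : decV e a = decV e b) : a = b := by
  have h1 : ∀ k, k < d → decE a k = decE b k := by
    intro k hk
    obtain ⟨j, hj⟩ := e.surjective ⟨k, hk⟩
    have := congrFun h j
    simp only [decV, hj] at this
    exact this
  apply Nat.eq_of_testBit_eq
  intro i
  by_cases hi : i < 2 * d
  · have hk : i / 2 < d := by omega
    have h2 := h1 _ hk
    have h3 := congrArg QuadraticAlgebra.re h2
    have h4 := congrArg QuadraticAlgebra.im h2
    have h5 : a.testBit (2 * (i / 2)) = b.testBit (2 * (i / 2)) := bitZ_inj h3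
    have h6 : a.testBit (2 * (i / 2) + 1) = b.testBit (2 * (i / 2) + 1) := bitZ_inj h4
    rcases Nat.even_or_odd' i with ⟨c, hc | hc⟩
    · have : 2 * (i / 2) = i := by omega
      rwa [this] at h5
    · have : 2 * (i / 2) + 1 = i := by omega
      rwa [this] at h6
  · have hi' : 2 ^ (2 * d) ≤ 2 ^ i := Nat.pow_le_pow_right (by norm_num) (by omega)
    rw [Nat.testBit_lt_two_pow (by omega), Nat.testBit_lt_two_pow (by omega)]


end Cfsg.Agent.Lib.Compute.GF4Vec
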