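/-
Killing a possible kernel of order three of a surjection onto a group of known order, when an element
inverting the kernel is forced by a relator to centralise it.
-/
import Mathlib

set_option autoImplicit false

namespace Cfsg.Agent.Lib.Compute.Kill3

universe u v w

/-- The sign of the action on a normal subgroup of order three. -/
theorem sign_rel {P : Type u} [Group P] (c : P) (hc3 : c ^ 3 = 1) (hc1 : c ≠ 1)
    (hdich : ∀ g : P, g * c * g⁻¹ = c ∨ g * c * g⁻¹ = c⁻¹) (x z u : P)
    (hrel : z * ((u⁻¹ * z * u) * x) ^ 3 = 1) : x * c * x⁻¹ = c := by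
  classical
  have hne : c⁻¹ ≠ c := by
    intro h
    have h1 : c ^ 2 = 1 := by
      rw [pow_two]
      nth_rewrite 1 [← h]
      exact inv_mul_cancel c
    have h2 : c = 1 := by
      have : c ^ 3 = c ^ 2 * c := pow_succ c 2
      rw [hc3, h1, one_mul] at this
      exact this.symm
    exact hc1 h2
  let s : P → ℤˣ := fun g => if g * c * g⁻¹ = c then 1 else -1
  have hs1 : ∀ g, g * c * g⁻¹ = c → s g = 1 := fun g h => if_pos h
  have hs2 : ∀ g, g * c * g⁻¹ = c⁻¹ → s g = -1 := fun g h => if_neg (by rw [h]; exact hne)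
  have hconj : ∀ g h : P, (g * h) * c * (g * h)⁻¹ = g * (h * c * h⁻¹) * g⁻¹ := by
    intro g h; group
  have hconjinv : ∀ g : P, g * c⁻¹ * g⁻¹ = (g * c * g⁻¹)⁻¹ := by
    intro g; group
  have hmul : ∀ g h, s (g * h) = s g * s h := by
    intro g h
    rcases hdich g with h1 | h1 <;> rcases hdich h with h2 | h2
    · rw [hs1 g h1, hs1 h h2, hs1 (g * h) (by rw [hconj, h2, h1])]; rfl
    · rw [hs1 g h1, hs2 h h2, hs2 (g * h) (by rw [hconj, h2, hconjinv, h1])]; rfl
    · rw [hs2 g h1, hs1 h h2, hs2 (g * h) (by rw [hconj, h2, h1])]; rfl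
    · rw [hs2 g h1, hs2 h h2, hs1 (g * h) (by rw [hconj, h2, hconjinv, h1, inv_inv])]; rfl
  have hone : s 1 = 1 := hs1 1 (by simp)
  have hinv : ∀ g, s g⁻¹ = s g := by
    intro g
    have h1 := hmul g⁻¹ g
    rw [inv_mul_cancel, hone] at h1
    rcases Int.units_eq_one_or (s g) with h2 | h2 <;> rcases Int.units_eq_one_or (s g⁻¹) with h3 | h3 <;>
      rw [h2, h3] at h1 ⊢ <;> first | rfl | (exact absurd h1 (by decide))
  have hr := congrArg s hrel
  rw [hone] at hr
  simp only [pow_succ, pow_zero, one_mul, hmul, hinv] at hr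
  have hx : s x = 1 := by
    rcases Int.units_eq_one_or (s x) with h2 | h2
    · exact h2
    · exfalso
      rcases Int.units_eq_one_or (s z) with h3 | h3 <;> rcases Int.units_eq_one_or (s u) with h4 | h4 <;>
        rw [h2, h3, h4] at hr <;> exact absurd hr (by decide)
  rcases hdich x with h1 | h1
  · exact h1
  · rw [hs2 x h1] at hx
    exact absurd hx (by decide)

/-- The main statement. -/
theorem kill3 {U : Type u} {P : Type v} {X : Type w} [Group U] [Group P] [Group X] [Finite U] [Finite X]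
    (ψ : U →* P) (φ : P →* X) {k m n : ℕ} (hindex : ψ.range.index = k) (hk : k ≠ 0) (hU : Nat.card U = m)
    (hrange : n ≤ Nat.card φ.range) (hn : 0 < n) (hkm : k * m = 3 * n)
    (c x : U) (hc1 : c ≠ 1) (hc3 : c ^ 3 = 1) (hinv : x * c * x⁻¹ = c⁻¹)
    (hcker : φ (ψ c) = 1)
    (z u : P) (hrel : z * ((u⁻¹ * z * u) * ψ x) ^ 3 = 1) :
    Function.Injective φ ∧ Nat.card P = n ∧ ψ c = 1 := by
  classical
  -- finiteness and the basic counts
  have h1 : Finite ψ.range := Finite.of_surjective _ ψ.rangeRestrict_surjective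
  have h2 : Finite (P ⧸ ψ.range) := Nat.finite_of_card_ne_zero (by rw [← Subgroup.index, hindex]; exact hk)
  have h3 : Finite P := Finite.of_equiv _ (Subgroup.groupEquivQuotientProdSubgroup (s := ψ.range)).symm
  have hP : Nat.card P = Nat.card ψ.range * k := by
    rw [← hindex]; exact (Subgroup.card_mul_index ψ.range).symm
  have hψ : Nat.card ψ.ker * Nat.card ψ.range = m := by
    rw [← hU]
    have := Subgroup.card_eq_card_quotient_mul_card_subgroup ψ.ker
    rw [Nat.card_congr (QuotientGroup.quotientKerEquivRange ψ).toEquiv] at this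
    rw [this, mul_comm]
  have hφ : Nat.card φ.ker * Nat.card φ.range = Nat.card P := by
    have := Subgroup.card_eq_card_quotient_mul_card_subgroup φ.ker
    rw [Nat.card_congr (QuotientGroup.quotientKerEquivRange φ).toEquiv] at this
    rw [this, mul_comm]
  have hcount : Nat.card P * Nat.card ψ.ker = 3 * n := by
    rw [hP, ← hkm, ← hψ]; ring
  have hψpos : 0 < Nat.card ψ.ker := Nat.card_pos
  have hφpos : 0 < Nat.card φ.ker := Nat.card_pos
  have hmain : Function.Injective φ := by
    by_contra hni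
    have hkerne : φ.ker ≠ ⊥ := fun h => hni ((MonoidHom.ker_eq_bot_iff φ).1 h)
    have hker2 : 2 ≤ Nat.card φ.ker := by
      by_contra h5
      have h6 : Nat.card φ.ker = 1 := by omega
      exact hkerne (Subgroup.card_eq_one.1 h6)
    -- the kernel of `ψ` is trivial
    have hker3 : Nat.card φ.ker * Nat.card ψ.ker ≤ 3 := by
      have h6 : Nat.card φ.ker * Nat.card ψ.ker * n ≤ 3 * n := by
        calc Nat.card φ.ker * Nat.card ψ.ker * n = Nat.card ψ.ker * (Nat.card φ.ker * n) := by ring
          _ ≤ Nat.card ψ.ker * (Nat.card φ.ker * Nat.card φ.range) :=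
              Nat.mul_le_mul_left _ (Nat.mul_le_mul_left _ hrange)
          _ = 3 * n := by rw [hφ, mul_comm, hcount]
      exact Nat.le_of_mul_le_mul_right h6 hn
    have hψ1 : Nat.card ψ.ker = 1 := by
      have : Nat.card ψ.ker ≤ 1 := by nlinarith
      omega
    have hψinj : Function.Injective ψ :=
      (MonoidHom.ker_eq_bot_iff ψ).1 (Subgroup.card_eq_one.1 hψ1)
    have hφ3 : Nat.card φ.ker ≤ 3 := by rw [hψ1, mul_one] at hker3; exact hker3
    set cb := ψ c with hcb
    have hcb1 : cb ≠ 1 := fun h => hc1 (hψinj (by rw [map_one]; exact h))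
    have hcb3 : cb ^ 3 = 1 := by rw [hcb, ← map_pow, hc3, map_one]
    have hmem : cb ∈ φ.ker := hcker
    -- the kernel is generated by `cb`
    have hord : orderOf cb = 3 := orderOf_eq_prime hcb3 hcb1
    have hzp : Subgroup.zpowers cb ≤ φ.ker := Subgroup.zpowers_le.2 hmem
    have hcz : Nat.card (Subgroup.zpowers cb) = 3 := by rw [Nat.card_zpowers, hord]
    have heq : Subgroup.zpowers cb = φ.ker := by
      apply Subgroup.eq_of_le_of_card_ge hzp
      rw [hcz]; exact hφ3
    -- the dichotomy
    have hdich : ∀ g : P, g * cb * g⁻¹ = cb ∨ g * cb * g⁻¹ = cb⁻¹ := by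
      intro g
      have h5 : g * cb * g⁻¹ ∈ φ.ker := (MonoidHom.normal_ker φ).conj_mem _ hmem _
      rw [← heq] at h5
      -- elements of the cyclic group of order three
      obtain ⟨t, ht⟩ := Subgroup.mem_zpowers_iff.1 h5
      have h6 : g * cb * g⁻¹ ≠ 1 := by
        intro h7
        apply hcb1
        have : cb = g⁻¹ * (g * cb * g⁻¹) * g := by group
        rw [this, h7]; group
      have h7 : cb ^ t = cb ^ (t % 3) := by
        have h8 := zpow_mod_orderOf cb t
        rw [hord] at h8
        exact h8.symm.trans (by norm_cast)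
      have h9 : 0 ≤ t % 3 := Int.emod_nonneg _ (by norm_num)
      have h10 : t % 3 < 3 := Int.emod_lt_of_pos _ (by norm_num)
      rw [h7] at ht
      have hc2 : cb⁻¹ = cb ^ (2 : ℤ) := by
        rw [inv_eq_iff_mul_eq_one, zpow_two, ← pow_three]
        exact hcb3
      interval_cases h11 : t % 3
      · exact absurd (by rw [← ht]; simp) h6
      · left; rw [← ht]; simp
      · right; rw [← ht, hc2]
    have hxc := sign_rel cb hcb3 hcb1 hdich (ψ x) z u hrel
    have hxi : ψ x * cb * (ψ x)⁻¹ = cb⁻¹ := by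
      rw [hcb, ← map_inv, ← map_mul, ← map_mul, hinv, map_inv]
    rw [hxc] at hxi
    -- `cb = cb⁻¹` and `cb ^ 3 = 1` give `cb = 1`
    apply hcb1
    have h5 : cb * cb = 1 := by
      nth_rewrite 1 [hxi]
      exact inv_mul_cancel cb
    have h6 : cb ^ 3 = cb * cb * cb := by rw [pow_succ, pow_two]
    rw [hcb3, h5, one_mul] at h6
    exact h6.symm
  have hcb : ψ c = 1 := hmain (by rw [hcker, map_one])
  refine ⟨hmain, ?_, hcb⟩
  -- the order
  have hφ1 : Nat.card φ.ker = 1 := Subgroup.card_eq_one.2 ((MonoidHom.ker_eq_bot_iff φ).2 hmain)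
  rw [hφ1, one_mul] at hφ
  have hkerψ : 3 ≤ Nat.card ψ.ker := by
    have hord : orderOf c = 3 := orderOf_eq_prime hc3 hc1
    have hzp : Subgroup.zpowers c ≤ ψ.ker := Subgroup.zpowers_le.2 hcb
    have hcz : Nat.card (Subgroup.zpowers c) = 3 := by rw [Nat.card_zpowers, hord]
    rw [← hcz]
    exact Subgroup.card_le_of_le hzp
  have hle : Nat.card P ≤ n := by
    have h6 : Nat.card P * 3 ≤ 3 * n := by
      calc Nat.card P * 3 ≤ Nat.card P * Nat.card ψ.ker := Nat.mul_le_mul_left _ hkerψ
        _ = 3 * n := hcount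
    omega
  have hge : n ≤ Nat.card P := hφ ▸ hrange
  omega

end Cfsg.Agent.Lib.Compute.Kill3
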