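/-
The double cover of the automorphism group of the Higman-Sims group on x, y, z, as it sits in the presented
Harada-Norton group: the order of the presented group, by a coset enumeration of a triple cover of a subgroup and a sign
argument on its kernel.
-/
import Cfsg.Agent.Lib.Compute.Kill3
import Cfsg.Agent.Lib.Compute.DCoset
import Cfsg.Agent.Lib.Compute.TC.HNU1.Final
import Cfsg.Agent.Lib.Compute.TC.HNU3.Final
import Cfsg.Agent.Lib.Compute.TC.HNUC.Chain
import Cfsg.Agent.Lib.Compute.TC.HNPC.Chain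

set_option autoImplicit false
set_option maxRecDepth 100000

namespace Cfsg.Agent.Lib.Compute.HNBound

open Cfsg.Agent.Lib.Compute.ToddCoxeterCore Cfsg.Agent.Lib.Compute.ToddCoxeterPresented
  Cfsg.Agent.Lib.Compute.TCFast Cfsg.Agent.Lib.Compute.TCChain
open Cfsg.Agent.Lib.Compute.TC

/-- A word in applying order, as an expression. -/
def wPE : List ℕ → PE
  | [] => .one
  | x :: u => .mul (wPE u) (.lt x)

theorem wPE_el {Γ : Type*} [Group Γ] (f : ℕ → Γ) (u : List ℕ) : (wPE u).el f = wordEl f u := by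
  induction u with
  | nil => rfl
  | cons x u ih => simp [wPE, PE.el, ih]

/-! ### The cyclic group -/

theorem upY : Finite (PresentedGroup HNU3.RR) ∧ Nat.card (PresentedGroup HNU3.RR) ≤ 6 := by
  have h := card_of_index rfl HNU3.index
  exact ⟨Nat.finite_of_card_ne_zero (by omega), h.le⟩

/-! ### The triple cover -/

/-- the generator `y` -/
def gY (_ : Fin 1) : Fin 2 := 1

theorem relY : ∀ r ∈ HNU3.D.rs, FreeGroup.map gY r ∈ HNU2.D.rs := by decide +kernel

theorem upU : Finite (PresentedGroup HNU2.RR) ∧ Nat.card (PresentedGroup HNU2.RR) ≤ 252000 * 6 := by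
  refine card_le_presented gY (fun r hr => relY r hr) ?_ HNU2.index (by norm_num) upY
  intro x
  simp [HNU2.D, gY]

theorem injU : Function.Injective (phiG HNU2.hR HNU2.small HNU2.big HNU2.hgens) ∧
    Nat.card (PresentedGroup HNU2.RR) = 1512000 := by
  haveI := upU.1
  exact phi_inj HNU2.hR HNU2.small HNU2.big HNU2.hgens (n := 1512000) (by simpa using upU.2)
    HNUC.next0 HNUC.ls HNUC.fix0 HNUC.chainOK (le_of_eq HNUC.prodEq.symm)

theorem leU : Nat.card (PresentedGroup HNU2.RR) ≤ HNU2.cfg.N * (HNUC.ls.map (·.n)).prod :=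
  le_of_eq (injU.2.trans HNUC.prodEq.symm)

/-- the letters of the word of the kernel of the triple cover -/
def cw : List ℕ := [3, 3, 0, 2, 0, 2, 0, 3, 3, 0, 2, 2, 1, 3, 1, 3, 1, 2, 2, 1]

theorem cwU : toLetters HNU2.D.lets HNRel.cU = cw := by decide +kernel

theorem cwP : toLetters HNP1.D.lets HNRel.cP = cw := by decide +kernel

/-- the element of the kernel of the triple cover -/
noncomputable def cU : PresentedGroup HNU2.RR := PresentedGroup.mk HNU2.RR HNRel.cU

/-- the generator `x` of the triple cover -/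
noncomputable def xU : PresentedGroup HNU2.RR := PresentedGroup.mk HNU2.RR (FreeGroup.of (0 : Fin 2))

theorem cU_el : (wPE cw).el (elG HNU2.D HNU2.RR) = cU := by
  rw [wPE_el, ← cwU]
  exact elG_toLetters HNU2.hR HNU2.small HNU2.hgens _

theorem xU_el : (wPE [0]).el (elG HNU2.D HNU2.RR) = xU := by
  have h : toLetters HNU2.D.lets (FreeGroup.of (0 : Fin 2)) = [0] := by decide +kernel
  rw [wPE_el, ← h]
  exact elG_toLetters HNU2.hR HNU2.small HNU2.hgens _

theorem eqU (e1 e2 : PE) (h : eqOn (ev0 HNU2.cfg) e1 e2 (0 :: HNUC.ls.map (·.b)) = true) :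
    e1.el (elG HNU2.D HNU2.RR) = e2.el (elG HNU2.D HNU2.RR) := by
  haveI := upU.1
  exact el_eq_of_base HNU2.hR HNU2.small HNU2.big HNU2.hgens injU.1 HNUC.next0 HNUC.ls HNUC.fix0
    HNUC.chainOK leU e1 e2 h

theorem cU_pow : cU ^ 3 = 1 := by
  have h := eqU (.mul (wPE cw) (.mul (wPE cw) (wPE cw))) .one (by decide +kernel)
  simp only [PE.el, cU_el] at h
  rw [pow_succ, pow_two, mul_assoc]
  exact h

theorem xU_inv : xU * cU * xU⁻¹ = cU⁻¹ := by
  have h := eqU (.mul (.mul (wPE [0]) (wPE cw)) (.inv (wPE [0]))) (.inv (wPE cw)) (by decide +kernel)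
  simp only [PE.el, cU_el, xU_el] at h
  exact h

theorem cU_ne : cU ≠ 1 := by
  intro h1
  have hev := ev0_ok HNU2.hR HNU2.small HNU2.big HNU2.hgens
  have h2 := (PE.ev_spec hev (wPE cw) ⟨0, HNU2.small.hN⟩).1
  rw [← PE.el_map, cU_el, h1, map_one] at h2
  have h3 : PE.ev (ev0 HNU2.cfg) (wPE cw) true 0 ≠ 0 := by decide +kernel
  exact h3 h2

/-! ### The map to the double cover -/

/-- the generators of the triple cover in the double cover -/
def gU (i : Fin 2) : Fin 3 := Fin.castSucc i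

theorem relU : ∀ r ∈ HNU2.D.rs, FreeGroup.map gU r ∈ HNP1.D.rs := by decide +kernel

/-- The map from the triple cover. -/
noncomputable def psi : PresentedGroup HNU2.RR →* PresentedGroup HNP1.RR :=
  PresentedGroup.toGroup (f := fun b => PresentedGroup.of (gU b)) (rels := HNU2.RR) (by
    intro r hr
    have h1 : FreeGroup.lift (fun b => PresentedGroup.of (rels := HNP1.RR) (gU b)) =
        (PresentedGroup.mk HNP1.RR).comp (FreeGroup.map gU) := by
      ext b
      simp [PresentedGroup.of]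
    rw [h1]
    exact PresentedGroup.one_of_mem (relU r hr))

theorem psi_mk (w : FreeGroup (Fin 2)) :
    psi (PresentedGroup.mk HNU2.RR w) = PresentedGroup.mk HNP1.RR (FreeGroup.map gU w) := by
  have h1 : FreeGroup.lift (fun b => PresentedGroup.of (rels := HNP1.RR) (gU b)) =
      (PresentedGroup.mk HNP1.RR).comp (FreeGroup.map gU) := by
    ext b
    simp [PresentedGroup.of]
  have h2 : psi (PresentedGroup.mk HNU2.RR w) = FreeGroup.lift (fun b => PresentedGroup.of (rels := HNP1.RR) (gU b)) w := rfl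
  rw [h2, h1]
  rfl

theorem psi_range : psi.range = HOf HNU1.RR HNU1.D.Hs := by
  rw [MonoidHom.range_eq_map, ← PresentedGroup.closure_range_of HNU2.RR, MonoidHom.map_closure, HOf,
    MonoidHom.map_closure]
  congr 1
  ext y
  simp only [Set.mem_image, Set.mem_range, Set.mem_setOf_eq]
  constructor
  · rintro ⟨_, ⟨b, rfl⟩, rfl⟩
    fin_cases b
    · exact ⟨FreeGroup.of 0, by simp [HNU1.D], by rw [PresentedGroup.of, psi_mk]; rfl⟩
    · exact ⟨FreeGroup.of 1, by simp [HNU1.D], by rw [PresentedGroup.of, psi_mk]; rfl⟩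
  · rintro ⟨w, hw, rfl⟩
    simp only [HNU1.D, List.mem_cons, List.not_mem_nil, or_false] at hw
    rcases hw with rfl | rfl
    · exact ⟨PresentedGroup.of 0, ⟨0, rfl⟩, by rw [PresentedGroup.of, psi_mk]; rfl⟩
    · exact ⟨PresentedGroup.of 1, ⟨1, rfl⟩, by rw [PresentedGroup.of, psi_mk]; rfl⟩

/-- The action of the double cover on 1408 points. -/
noncomputable def phiH : PresentedGroup HNP1.RR →* Equiv.Perm (Fin HNP1.cfg.N) :=
  phiG HNP1.hR HNP1.small HNP1.big HNP1.hgens

theorem c_word : FreeGroup.map gU HNRel.cU = HNRel.cP := by decide +kernel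

theorem phiH_c : phiH (psi cU) = 1 := by
  have h1 : psi cU = PresentedGroup.mk HNP1.RR HNRel.cP := by
    rw [cU, psi_mk, c_word]
  rw [h1]
  ext i
  have h2 := lift_val HNP1.small (tok HNP1.small HNP1.big) HNP1.hgens HNRel.cP i
  have h3 : allFrom (fun j => Nat.beq (Cfg.walkEnd HNP1.cfg cw j) j) HNP1.cfg.N 0 = true := by decide +kernel
  rw [cwP] at h2
  have h4 := beq_iff.1 (allFrom_spec h3 i (Nat.zero_le _) (by have := i.2; omega))
  show ((phiG HNP1.hR HNP1.small HNP1.big HNP1.hgens (PresentedGroup.mk HNP1.RR HNRel.cP)) i : ℕ) = _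
  rw [phiG_mk, h2, h4]
  rfl

/-- the element `z` -/
noncomputable def zP : PresentedGroup HNP1.RR := PresentedGroup.mk HNP1.RR (FreeGroup.of (2 : Fin 3))
/-- the element `y³xyxy` -/
noncomputable def uP : PresentedGroup HNP1.RR := PresentedGroup.mk HNP1.RR
  ((FreeGroup.of (1 : Fin 3)) ^ 3 * FreeGroup.of 0 * FreeGroup.of 1 * FreeGroup.of 0 * FreeGroup.of 1)

theorem rel10 : zP * ((uP⁻¹ * zP * uP) * psi xU) ^ 3 = 1 := by
  have h1 : (FreeGroup.of (2 : Fin 3)) * (((((FreeGroup.of (1 : Fin 3) ^ 3) * FreeGroup.of 0 * FreeGroup.of 1 * FreeGroup.of 0 * FreeGroup.of 1)⁻¹ *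
      FreeGroup.of 2 * ((FreeGroup.of 1 ^ 3) * FreeGroup.of 0 * FreeGroup.of 1 * FreeGroup.of 0 * FreeGroup.of 1)) * FreeGroup.of 0) ^ 3) ∈ HNP1.RR := by
    show _ ∈ HNRel.rsP
    decide +kernel
  have h2 := PresentedGroup.one_of_mem h1
  have h3 : psi xU = PresentedGroup.mk HNP1.RR (FreeGroup.of 0) := by
    rw [xU, psi_mk]
    rfl
  rw [h3, zP, uP]
  simpa only [map_mul, map_pow, map_inv] using h2

theorem main : Function.Injective phiH ∧ Nat.card (PresentedGroup HNP1.RR) = 177408000 ∧ psi cU = 1 := by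
  haveI := upU.1
  have hr : 177408000 ≤ Nat.card phiH.range := by
    have h := order_lower HNP1.hR HNP1.small HNP1.big HNP1.hgens HNPC.next0 HNPC.ls HNPC.fix0 HNPC.chainOK
    rwa [HNPC.prodEq] at h
  have hindex : psi.range.index = 352 := by
    rw [psi_range]
    exact HNU1.index
  exact Kill3.kill3 psi phiH hindex (by norm_num) injU.2 hr (by norm_num) (by norm_num)
    cU xU cU_ne cU_pow xU_inv phiH_c zP uP rel10

theorem finP : Finite (PresentedGroup HNP1.RR) :=
  Nat.finite_of_card_ne_zero (by rw [main.2.1]; norm_num)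

theorem leP : Nat.card (PresentedGroup HNP1.RR) ≤ HNP1.cfg.N * (HNPC.ls.map (·.n)).prod :=
  le_of_eq (main.2.1.trans HNPC.prodEq.symm)

/-- Equations in the double cover from the base. -/
theorem eqP (e1 e2 : PE) (h : eqOn (ev0 HNP1.cfg) e1 e2 (0 :: HNPC.ls.map (·.b)) = true) :
    e1.el (elG HNP1.D HNP1.RR) = e2.el (elG HNP1.D HNP1.RR) := by
  haveI := finP
  exact el_eq_of_base HNP1.hR HNP1.small HNP1.big HNP1.hgens main.1 HNPC.next0 HNPC.ls HNPC.fix0
    HNPC.chainOK leP e1 e2 h

end Cfsg.Agent.Lib.Compute.HNBound
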