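/-
The index of the double cover of the automorphism group of the Higman-Sims group in the presented Harada-Norton group,
bounded from above by a double coset enumeration.
-/
import Cfsg.Agent.Lib.Compute.HNBound
import Cfsg.Agent.Lib.Compute.TC.HNDC.Data
import Cfsg.Agent.Lib.Compute.TCChain3

set_option autoImplicit false
set_option maxRecDepth 100000

namespace Cfsg.Agent.Lib.Compute.HNUp

open Cfsg.Agent.Lib.Compute.ToddCoxeterCore Cfsg.Agent.Lib.Compute.ToddCoxeterPresented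
  Cfsg.Agent.Lib.Compute.TCFast Cfsg.Agent.Lib.Compute.TCChain Cfsg.Agent.Lib.Compute.DCoset
  Cfsg.Agent.Lib.Compute.HNBound
open Cfsg.Agent.Lib.Compute.TC
open Cfsg.Spor.HN

/-- the relators of the group -/
abbrev RG : Set (FreeGroup Gen) := Cfsg.Spor.coxRelators edges ∪ {r | r ∈ extra}

/-- the group -/
abbrev GG : Type := PresentedGroup RG

/-- the double cover -/
abbrev PP : Type := PresentedGroup HNP1.RR

/-- the generators of the subgroup -/
def HsG : List (FreeGroup Gen) := [x, y, z]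

/-- the subgroup -/
abbrev BB : Subgroup GG := HOf RG HsG

/-- the generators of the double cover in the group -/
def gmap (i : Fin 3) : Gen := List.getD [Gen.x, Gen.y, Gen.z] i Gen.x

theorem relP : ∀ r ∈ HNRel.rsP, FreeGroup.map gmap r ∈ extra := by decide +kernel

theorem lift_eq : FreeGroup.lift (fun b => PresentedGroup.of (rels := RG) (gmap b)) =
    (PresentedGroup.mk RG).comp (FreeGroup.map gmap) := by
  ext b
  simp [PresentedGroup.of]

/-- The map from the double cover. -/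
noncomputable def eG : PP →* GG :=
  PresentedGroup.toGroup (f := fun b => PresentedGroup.of (gmap b)) (rels := HNP1.RR) (by
    intro r hr
    rw [lift_eq]
    exact PresentedGroup.one_of_mem (Or.inr (relP r hr)))

theorem eG_mk (w : FreeGroup (Fin 3)) :
    eG (PresentedGroup.mk HNP1.RR w) = PresentedGroup.mk RG (FreeGroup.map gmap w) := by
  have h2 : eG (PresentedGroup.mk HNP1.RR w) =
      FreeGroup.lift (fun b => PresentedGroup.of (rels := RG) (gmap b)) w := rfl
  rw [h2, lift_eq]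
  rfl

theorem eG_range : eG.range = BB := by
  rw [MonoidHom.range_eq_map, ← PresentedGroup.closure_range_of HNP1.RR, MonoidHom.map_closure, BB, HOf,
    MonoidHom.map_closure]
  congr 1
  ext u
  simp only [Set.mem_image, Set.mem_range, Set.mem_setOf_eq]
  constructor
  · rintro ⟨_, ⟨b, rfl⟩, rfl⟩
    fin_cases b
    · exact ⟨x, by simp [HsG], by rw [PresentedGroup.of, eG_mk]; rfl⟩
    · exact ⟨y, by simp [HsG], by rw [PresentedGroup.of, eG_mk]; rfl⟩
    · exact ⟨z, by simp [HsG], by rw [PresentedGroup.of, eG_mk]; rfl⟩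
  · rintro ⟨w, hw, rfl⟩
    simp only [HsG, List.mem_cons, List.not_mem_nil, or_false] at hw
    rcases hw with rfl | rfl | rfl
    · exact ⟨PresentedGroup.of 0, ⟨0, rfl⟩, by rw [PresentedGroup.of, eG_mk]; rfl⟩
    · exact ⟨PresentedGroup.of 1, ⟨1, rfl⟩, by rw [PresentedGroup.of, eG_mk]; rfl⟩
    · exact ⟨PresentedGroup.of 2, ⟨2, rfl⟩, by rw [PresentedGroup.of, eG_mk]; rfl⟩

/-! ### Relations in the group -/

/-- the generator `x` -/
noncomputable abbrev xG : GG := PresentedGroup.mk RG x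
/-- the generator `y` -/
noncomputable abbrev yG : GG := PresentedGroup.mk RG y
/-- the generator `z` -/
noncomputable abbrev zG : GG := PresentedGroup.mk RG z
/-- the generator `t` -/
noncomputable abbrev tG : GG := PresentedGroup.mk RG t

theorem r_t5 : tG ^ 5 = 1 := by
  have h : t ^ 5 ∈ RG := Or.inr (by show _ ∈ extra; decide +kernel)
  have := PresentedGroup.one_of_mem h
  simpa only [map_pow] using this

theorem r_tx : (xG⁻¹ * tG * xG) * tG ^ 2 = 1 := by
  have h : (x⁻¹ * t * x) * (t ^ 2) ∈ RG := Or.inr (by show _ ∈ extra; decide +kernel)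
  have := PresentedGroup.one_of_mem h
  simpa only [map_mul, map_pow, map_inv] using this

theorem r_ty : tG⁻¹ * yG⁻¹ * tG * yG = 1 := by
  have h : t⁻¹ * y⁻¹ * t * y ∈ RG := Or.inr (by show _ ∈ extra; decide +kernel)
  have := PresentedGroup.one_of_mem h
  simpa only [map_mul, map_inv] using this

theorem r_zt : (zG * tG) ^ 3 = 1 := by
  have h : (z * t) ^ 3 ∈ RG := Or.inr (by show _ ∈ extra; decide +kernel)
  have := PresentedGroup.one_of_mem h
  simpa only [map_mul, map_pow] using this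

theorem r_z2 : zG ^ 2 = 1 := by
  have h : z ^ 2 ∈ RG := Or.inr (by show _ ∈ extra; decide +kernel)
  have := PresentedGroup.one_of_mem h
  simpa only [map_pow] using this

theorem zG_inv : zG⁻¹ = zG := by
  rw [inv_eq_iff_mul_eq_one, ← pow_two, r_z2]

theorem conj_x : xG⁻¹ * tG * xG = (tG ^ 2)⁻¹ :=
  eq_inv_of_mul_eq_one_left r_tx

theorem comm_y : yG * tG * yG⁻¹ = tG := by
  have h := r_ty
  have h1 : tG⁻¹ * (yG⁻¹ * tG * yG) = 1 := by rw [← h]; group
  have h2 : yG⁻¹ * tG * yG = tG := by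
    rw [← mul_right_inj tG⁻¹, h1]; simp
  calc yG * tG * yG⁻¹ = yG * (yG⁻¹ * tG * yG) * yG⁻¹ := by rw [h2]
    _ = tG := by group

theorem conj_x2 : xG⁻¹ * tG ^ 2 * xG = tG := by
  have h1 : xG⁻¹ * tG ^ 2 * xG = (xG⁻¹ * tG * xG) ^ 2 := by
    rw [pow_two, pow_two]; group
  rw [h1, conj_x, inv_pow, ← pow_mul]
  have h2 : tG ^ 5 = 1 := r_t5
  have h3 : (tG ^ (2 * 2))⁻¹ = tG := by
    rw [inv_eq_iff_mul_eq_one, ← pow_succ]
    exact h2
  exact h3

theorem conj_x' : xG * tG * xG⁻¹ = tG ^ 2 := by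
  nth_rewrite 1 [← conj_x2]
  group

theorem conj_xx : (xG * xG) * tG * (xG * xG)⁻¹ = tG⁻¹ := by
  have h1 : (xG * xG) * tG * (xG * xG)⁻¹ = xG * (xG * tG * xG⁻¹) * xG⁻¹ := by group
  rw [h1, conj_x']
  have h2 : xG * tG ^ 2 * xG⁻¹ = (xG * tG * xG⁻¹) ^ 2 := by
    rw [pow_two, pow_two]; group
  rw [h2, conj_x', ← pow_mul]
  rw [eq_inv_iff_mul_eq_one, ← pow_succ]
  exact r_t5

/-! ### The action on the letters -/

/-- The action of the double cover on the letters. -/
noncomputable def phiD : PP →* Equiv.Perm (Fin HNDC.d.n) := HNBound.phiH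

/-- the tabulated elements -/
noncomputable def valP (j : ℕ) : PP := (HNDC.pes.getD j .one).el (elG HNP1.D HNP1.RR)

theorem hS1 : allFrom (fun j => allFrom (fun a => Nat.beq (HNDC.S j a)
    (PE.ev (ev0 HNP1.cfg) (HNDC.pes.getD j .one) true a)) (nat_lit 1408) (nat_lit 0)) HNDC.M (nat_lit 0) = true := by
  decide +kernel

theorem pes_len : HNDC.pes.length = HNDC.M := by decide +kernel

theorem hS (j a : ℕ) (ha : a < HNDC.d.n) : HNDC.S j a = phiD (valP j) ⟨a, ha⟩ := by
  have hev := ev0_ok HNP1.hR HNP1.small HNP1.big HNP1.hgens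
  have hn : HNDC.d.n = 1408 := rfl
  have ha' : a < HNP1.cfg.N := ha
  show HNDC.S j a = ((phiG HNP1.hR HNP1.small HNP1.big HNP1.hgens (valP j)) ⟨a, ha'⟩ : Fin HNP1.cfg.N).1
  by_cases hj : j < HNDC.M
  · have h1 := allFrom_spec (allFrom_spec hS1 j (Nat.zero_le _) (by simpa using hj)) a (Nat.zero_le _)
      (by simpa [hn] using ha)
    rw [beq_iff.1 h1, (PE.ev_spec hev (HNDC.pes.getD j .one) ⟨a, ha'⟩).1, ← PE.el_map]
    rfl
  · have h1 : blt j HNDC.M = false := by
      cases h : blt j HNDC.M with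
      | false => rfl
      | true => exact absurd (blt_iff.1 h) hj
    have h2 : HNDC.pes.getD j .one = .one := by
      rw [List.getD_eq_default]
      rw [pes_len]
      omega
    have h3 : valP j = 1 := by
      unfold valP
      rw [h2]
      rfl
    rw [h3, map_one]
    show Bool.rec (motive := fun _ => ℕ) a _ (blt j HNDC.M) = a
    rw [h1]

theorem hn0 : 0 < HNDC.d.n := by decide +kernel

theorem one_smul_iff' {G : Type*} [Group G] (H : Subgroup G) (g : G) :
    g • ((1 : G) : G ⧸ H) = ((1 : G) : G ⧸ H) ↔ g ∈ H := by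
  rw [MulAction.Quotient.smul_coe, smul_eq_mul, mul_one, QuotientGroup.eq, mul_one, inv_mem_iff]

/-- the stabiliser of the letter `t` centralises `t` -/
theorem hst (h : PP) (hh : phiD h ⟨0, hn0⟩ = ⟨0, hn0⟩) : eG h * tG * (eG h)⁻¹ = tG := by
  obtain ⟨E, hE1, hE2⟩ := exists_equiv HNP1.hR HNP1.small HNP1.big HNP1.hgens
  have hmem : h ∈ HOf HNP1.RR HNP1.D.Hs := by
    rw [← one_smul_iff']
    apply E.injective
    obtain ⟨w, rfl⟩ := PresentedGroup.mk_surjective HNP1.RR h
    apply Fin.ext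
    rw [hE1, hE2]
    have h1 := lift_val HNP1.small (tok HNP1.small HNP1.big) HNP1.hgens w ⟨0, HNP1.small.hN⟩
    have h2 : ((phiG HNP1.hR HNP1.small HNP1.big HNP1.hgens (PresentedGroup.mk HNP1.RR w)) ⟨0, HNP1.small.hN⟩ : Fin HNP1.cfg.N).1 = 0 :=
      congrArg Fin.val hh
    rw [phiG_mk, h1] at h2
    exact h2
  let K : Subgroup PP := (Subgroup.centralizer {tG}).comap eG
  have hK : HOf HNP1.RR HNP1.D.Hs ≤ K := by
    rw [Subgroup.map_le_iff_le_comap, Subgroup.closure_le]
    intro w hw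
    have hw' : w ∈ HNP1.D.Hs := hw
    simp only [HNP1.D, List.mem_cons, List.not_mem_nil, or_false] at hw'
    simp only [Subgroup.coe_comap, Set.mem_preimage, SetLike.mem_coe, K, Subgroup.mem_centralizer_singleton_iff]
    rcases hw' with rfl | rfl
    · rw [eG_mk]
      have h1 : PresentedGroup.mk RG (FreeGroup.map gmap (FreeGroup.of (1 : Fin 3))) = yG := rfl
      rw [h1]
      have h2 := comm_y
      calc yG * tG = (yG * tG * yG⁻¹) * yG := by group
        _ = tG * yG := by rw [h2]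
    · rw [eG_mk]
      have h1 : PresentedGroup.mk RG (FreeGroup.map gmap ((FreeGroup.of (0 : Fin 3))⁻¹ * FreeGroup.of 1 * FreeGroup.of 0)) =
          xG⁻¹ * yG * xG := by
        simp only [map_mul, map_inv, FreeGroup.map.of]
        rfl
      rw [h1]
      have h2 : (xG⁻¹ * yG * xG) * tG * (xG⁻¹ * yG * xG)⁻¹ = tG := by
        calc (xG⁻¹ * yG * xG) * tG * (xG⁻¹ * yG * xG)⁻¹
            = xG⁻¹ * (yG * (xG * tG * xG⁻¹) * yG⁻¹) * xG := by group
          _ = xG⁻¹ * (yG * tG * yG⁻¹) ^ 2 * xG := by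
              rw [conj_x']; congr 2; rw [pow_two, pow_two]; group
          _ = tG := by rw [comm_y, conj_x2]
      calc (xG⁻¹ * yG * xG) * tG = ((xG⁻¹ * yG * xG) * tG * (xG⁻¹ * yG * xG)⁻¹) * (xG⁻¹ * yG * xG) := by group
        _ = tG * (xG⁻¹ * yG * xG) := by rw [h2]
  have := hK hmem
  simp only [K, Subgroup.mem_comap, Subgroup.mem_centralizer_singleton_iff] at this
  rw [this]
  group

theorem htr (c : Fin HNDC.d.n) : ∃ h : PP, phiD h ⟨0, hn0⟩ = c := by
  obtain ⟨g, hg⟩ := phi_trans HNP1.hR HNP1.small HNP1.big HNP1.hgens c.1 c.2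
  exact ⟨g, hg⟩

theorem letters : ∃ xx : ℕ → GG, (∀ (h : PP) (c : ℕ) (hc : c < HNDC.d.n), eG h * xx c * (eG h)⁻¹ = xx (phiD h ⟨c, hc⟩)) ∧
    (∀ h : PP, xx (phiD h ⟨0, hn0⟩) = eG h * tG * (eG h)⁻¹) :=
  letters_exist hn0 eG phiD tG htr hst

/-! ### The elements of the double cover in the tables -/

theorem letP0 : valP 0 = PresentedGroup.mk HNP1.RR (FreeGroup.of 0) := by
  have h := elG_letterOf HNP1.hR HNP1.small HNP1.hgens ((0 : Fin 3), true)
  have h1 : letterOf HNP1.D.lets ((0 : Fin 3), true) = 0 := by decide +kernel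
  rw [h1] at h
  exact h

theorem letP1 : valP 1 = (PresentedGroup.mk HNP1.RR (FreeGroup.of 0))⁻¹ := by
  have h := elG_letterOf HNP1.hR HNP1.small HNP1.hgens ((0 : Fin 3), false)
  have h1 : letterOf HNP1.D.lets ((0 : Fin 3), false) = 1 := by decide +kernel
  rw [h1] at h
  have h2 : eltF ((0 : Fin 3), false) = (FreeGroup.of 0)⁻¹ := rfl
  rw [h2, map_inv] at h
  exact h

theorem letP4 : valP 4 = PresentedGroup.mk HNP1.RR (FreeGroup.of 2) := by
  have h := elG_letterOf HNP1.hR HNP1.small HNP1.hgens ((2 : Fin 3), true)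
  have h1 : letterOf HNP1.D.lets ((2 : Fin 3), true) = 4 := by decide +kernel
  rw [h1] at h
  exact h

/-- the square of `x` in the double cover -/
noncomputable def x2P : PP := PresentedGroup.mk HNP1.RR (FreeGroup.of 0) * PresentedGroup.mk HNP1.RR (FreeGroup.of 0)

theorem val5 : valP 5 = x2P := by
  have h : valP 5 = (PE.mul (.lt 0) (.lt 0)).el (elG HNP1.D HNP1.RR) := rfl
  rw [h]
  show valP 0 * valP 0 = x2P
  rw [letP0]
  rfl

theorem x2_comm (j : ℕ) (h1 : eqOn (ev0 HNP1.cfg) (.mul (.mul (.lt 0) (.lt 0)) (.lt j)) (.mul (.lt j) (.mul (.lt 0) (.lt 0)))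
    (0 :: HNPC.ls.map (·.b)) = true) :
    x2P * elG HNP1.D HNP1.RR j = elG HNP1.D HNP1.RR j * x2P := by
  have h := eqP _ _ h1
  have h0 : elG HNP1.D HNP1.RR 0 = PresentedGroup.mk HNP1.RR (FreeGroup.of 0) := letP0
  simp only [PE.el, h0] at h
  exact h

theorem x2_central (h : PP) : x2P * h = h * x2P := by
  have h1 : h ∈ (⊤ : Subgroup PP) := trivial
  rw [← PresentedGroup.closure_range_of HNP1.RR] at h1
  have : h ∈ Subgroup.centralizer {x2P} := by
    refine (Subgroup.closure_le _).2 ?_ h1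
    rintro _ ⟨b, rfl⟩
    simp only [SetLike.mem_coe, Subgroup.mem_centralizer_singleton_iff]
    fin_cases b
    · have h2 := x2_comm 0 (by decide +kernel)
      have h0 : elG HNP1.D HNP1.RR 0 = PresentedGroup.mk HNP1.RR (FreeGroup.of 0) := letP0
      rw [h0] at h2
      exact h2.symm
    · have h2 := x2_comm 2 (by decide +kernel)
      have h0 : elG HNP1.D HNP1.RR 2 = PresentedGroup.mk HNP1.RR (FreeGroup.of 1) := by
        have h := elG_letterOf HNP1.hR HNP1.small HNP1.hgens ((1 : Fin 3), true)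
        have h1 : letterOf HNP1.D.lets ((1 : Fin 3), true) = 2 := by decide +kernel
        rw [h1] at h
        exact h
      rw [h0] at h2
      exact h2.symm
    · have h2 := x2_comm 4 (by decide +kernel)
      have h0 : elG HNP1.D HNP1.RR 4 = PresentedGroup.mk HNP1.RR (FreeGroup.of 2) := letP4
      rw [h0] at h2
      exact h2.symm
  exact (Subgroup.mem_centralizer_singleton_iff.1 this).symm

/-! ### The enumeration -/

/-- the letters -/
noncomputable def xx : ℕ → GG := Classical.choose letters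

theorem xx1 (h : PP) (c : ℕ) (hc : c < HNDC.d.n) : eG h * xx c * (eG h)⁻¹ = xx (phiD h ⟨c, hc⟩) :=
  (Classical.choose_spec letters).1 h c hc

theorem xx2 (h : PP) : xx (phiD h ⟨0, hn0⟩) = eG h * tG * (eG h)⁻¹ :=
  (Classical.choose_spec letters).2 h

theorem eG_x2 : eG x2P = xG * xG := by
  rw [x2P, map_mul, eG_mk]
  rfl

theorem hinvS (c : ℕ) (hc : c < HNDC.d.n) : HNDC.d.invl c = phiD (valP 5) ⟨c, hc⟩ := hS 5 c hc

theorem hinv (c : ℕ) (hc : c < HNDC.d.n) : xx (HNDC.d.invl c) = (xx c)⁻¹ := by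
  rw [hinvS c hc, ← xx1, val5]
  obtain ⟨h, hh⟩ := htr ⟨c, hc⟩
  have h2 : xx c = eG h * tG * (eG h)⁻¹ := by
    rw [← xx2, hh]
  rw [h2]
  have h3 : eG x2P * eG h = eG h * eG x2P := by
    rw [← map_mul, ← map_mul, x2_central]
  calc eG x2P * (eG h * tG * (eG h)⁻¹) * (eG x2P)⁻¹
      = (eG x2P * eG h) * tG * (eG x2P * eG h)⁻¹ := by group
    _ = eG h * (eG x2P * tG * (eG x2P)⁻¹) * (eG h)⁻¹ := by rw [h3]; group
    _ = eG h * tG⁻¹ * (eG h)⁻¹ := by rw [eG_x2, conj_xx]
    _ = _ := by group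

theorem hinvlt (c : ℕ) (hc : c < HNDC.d.n) : HNDC.d.invl c < HNDC.d.n := by
  rw [hinvS c hc]
  exact Fin.is_lt _

theorem base_eq : 0 :: HNPC.ls.map (·.b) = HNDC.d.base := by decide +kernel

theorem hrig (h : PP) (hf : ∀ b (hb : b < HNDC.d.m), b ∈ HNDC.d.base → phiD h ⟨b, hb⟩ = ⟨b, hb⟩) : h = 1 := by
  haveI := HNBound.finP
  refine TCChain3.rigid_of_base HNP1.hR HNP1.small HNP1.big HNP1.hgens HNBound.main.1 HNPC.next0 HNPC.ls
    HNPC.fix0 HNPC.chainOK HNBound.leP h ?_
  intro p hp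
  rw [base_eq] at hp
  exact hf p.1 p.2 hp

theorem hbase : ∀ b ∈ HNDC.d.base, b < HNDC.d.m := by decide +kernel

/-- the first coset -/
noncomputable abbrev p0 : GG ⧸ BB := ((1 : GG) : GG ⧸ BB)

theorem h0 (h : PP) : eG h • p0 = p0 :=
  (one_smul_iff' BB (eG h)).2 (by rw [← eG_range]; exact ⟨h, rfl⟩)

theorem x0 : xx 0 = tG := by
  have h := xx2 1
  rw [map_one, map_one] at h
  simpa using h

theorem S40 : HNDC.S 4 0 = 3 := by decide +kernel
theorem S10 : HNDC.S 1 0 = 2 := by decide +kernel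

theorem x3 : xx 3 = zG * tG * zG⁻¹ := by
  have h1 := hS 4 0 hn0
  rw [S40] at h1
  rw [h1, xx2, letP4, eG_mk]
  rfl

theorem x2 : xx 2 = (tG ^ 2)⁻¹ := by
  have h1 := hS 1 0 hn0
  rw [S10] at h1
  have h2 : xx 2 = xx (phiD (valP 1) ⟨0, hn0⟩) := congrArg xx h1
  rw [h2, xx2, letP1, map_inv, inv_inv, eG_mk, ← conj_x]
  rfl

theorem ap3 (a b c : ℕ) (q : GG ⧸ BB) : apLs xx [a, b, c] q = (xx c * xx b * xx a) • q := by
  simp only [apLs, List.foldl_cons, List.foldl_nil, mul_smul]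

theorem eqZ1 : (zG * tG * zG) * tG * (zG * tG * zG) = zG := by
  have h := r_zt
  have h2 : zG * tG * zG * tG * zG * tG = 1 := by
    rw [← h, pow_succ, pow_two]
    group
  calc (zG * tG * zG) * tG * (zG * tG * zG) = (zG * tG * zG * tG * zG * tG) * zG := by group
    _ = zG := by rw [h2, one_mul]

theorem eqZ2 : tG * (zG * tG * zG) * tG = zG := by
  have h2 : zG * (tG * (zG * tG * zG) * tG) = 1 := by
    rw [← r_zt, pow_succ, pow_two]
    group
  calc tG * (zG * tG * zG) * tG = zG⁻¹ * (zG * (tG * (zG * tG * zG) * tG)) := by group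
    _ = zG := by rw [h2, mul_one, zG_inv]

theorem tcube : (tG ^ 2)⁻¹ * tG * tG = 1 := by
  rw [pow_two]
  group

theorem hrel (ρ : ℕ) (q : GG ⧸ BB) : apLs xx (HNDC.d.rels ρ).1 q = eG (vl valP (HNDC.d.rels ρ).2) • q := by
  have hz : eG (valP 4) = zG := by
    rw [letP4, eG_mk]
    rfl
  have hx3 : xx 3 = zG * tG * zG := by rw [x3, zG_inv]
  match ρ with
  | 0 =>
    show apLs xx [3, 0, 3] q = eG (vl valP [4]) • q
    rw [ap3, x0, hx3, vl_cons, vl_nil, mul_one, hz, eqZ1]
  | 1 =>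
    show apLs xx [0, 3, 0] q = eG (vl valP [4]) • q
    rw [ap3, x0, hx3, vl_cons, vl_nil, mul_one, hz, eqZ2]
  | 2 =>
    show apLs xx [2, 0, 0] q = eG (vl valP []) • q
    rw [ap3, x0, x2, vl_nil, map_one, one_smul]
    have h : tG * tG * (tG ^ 2)⁻¹ = 1 := by rw [pow_two]; group
    rw [h, one_smul]
  | 3 =>
    show apLs xx [0, 2, 0] q = eG (vl valP []) • q
    rw [ap3, x0, x2, vl_nil, map_one, one_smul]
    have h : tG * (tG ^ 2)⁻¹ * tG = 1 := by rw [pow_two]; group
    rw [h, one_smul]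
  | 4 =>
    show apLs xx [0, 0, 2] q = eG (vl valP []) • q
    rw [ap3, x0, x2, vl_nil, map_one, one_smul]
    rw [tcube, one_smul]
  | n + 5 =>
    have h : HNDC.d.rels (n + 5) = ([], []) := by
      show HNDC.relsL.getD (n + 5) ([], []) = ([], [])
      rw [List.getD_eq_default]
      have : HNDC.relsL.length = 5 := rfl
      omega
    rw [h]
    simp [apLs, vl]

theorem ok : Ok HNDC.d eG phiD phiD xx p0 valP where
  hS := fun l a b ha h => la_of_table HNDC.d phiD valP hS l a b ha h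
  hR := hS
  hx := xx1
  hinv := hinv
  hinvlt := hinvlt
  hrig := hrig
  hbase := hbase
  h0 := h0
  hrel := hrel

theorem hgen : Subgroup.closure (Set.range eG ∪ xx '' {c | c < HNDC.d.n}) = ⊤ := by
  rw [eq_top_iff, ← PresentedGroup.closure_range_of RG, Subgroup.closure_le]
  rintro _ ⟨b, rfl⟩
  apply Subgroup.subset_closure
  cases b with
  | x => exact Or.inl ⟨PresentedGroup.of 0, by rw [PresentedGroup.of, eG_mk]; rfl⟩
  | y => exact Or.inl ⟨PresentedGroup.of 1, by rw [PresentedGroup.of, eG_mk]; rfl⟩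
  | z => exact Or.inl ⟨PresentedGroup.of 2, by rw [PresentedGroup.of, eG_mk]; rfl⟩
  | t => exact Or.inr ⟨0, hn0, x0⟩

theorem htrans (q : GG ⧸ BB) : ∃ g : GG, q = g • p0 := by
  obtain ⟨g, rfl⟩ := QuotientGroup.mk_surjective q
  exact ⟨g, by rw [MulAction.Quotient.smul_coe, smul_eq_mul, mul_one]⟩

theorem hN : ∀ f, f < HNDC.NF → HNDC.d.chk f = true := fun f hf =>
  allFrom_spec HNDC.chkAll f (Nat.zero_le _) (by simpa using hf)

theorem card_le : Finite (GG ⧸ BB) ∧ Nat.card (GG ⧸ BB) ≤ 1539000 := by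
  haveI := HNBound.finP
  have h := ok.card_le hN (Lv := HNDC.Lv) (Tr := HNDC.Tr) (fuel := HNDC.fuel)
    (fun r hr c hc => allFrom_spec (List.all_eq_true.1 HNDC.covAll r hr) c (Nat.zero_le _) (by simpa using hc))
    (by decide +kernel) (by decide +kernel) hgen htrans (kg := HNDC.kg) (kls := HNDC.kls)
    (fun r hr => List.all_eq_true.1 HNDC.keAll r hr)
    (fun r hr => List.all_eq_true.1 HNDC.chAll r hr)
    (fun r hr => Nat.le_of_ble_eq_true (List.all_eq_true.1 HNDC.posAll r hr))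
  refine ⟨h.1, le_trans h.2 (le_of_eq ?_)⟩
  rw [HNBound.main.2.1]
  exact HNDC.sumEq

end Cfsg.Agent.Lib.Compute.HNUp
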