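/-
The action of a presented group given by a table alone, the table being a family of permutation networks: the relators are
checked on the bit planes of the identity, all points at once, and no bound for the index comes with it. The bound has to
come from elsewhere.
-/
import Cfsg.Agent.Lib.Compute.DCoset
import Cfsg.Agent.Lib.Compute.BitNet

set_option autoImplicit false

namespace Cfsg.Agent.Lib.Compute.PNet

open Cfsg.Agent.Lib.Compute.ToddCoxeterCore Cfsg.Agent.Lib.Compute.ToddCoxeterPresented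
  Cfsg.Agent.Lib.Compute.TCFast Cfsg.Agent.Lib.Compute.TCChain

universe u

variable {α : Type u} [DecidableEq α] {D : Data α} {c : Cfg}

/-- The checks of a table. -/
structure PBig (D : Data α) (c : Cfg) : Prop where
  hw0 : ∀ w ∈ D.hw, c.walk maxS w 0 (Nat.beq 0) = true
  hfin : ∀ i, i < c.N → c.chkFin (List.range c.L) i = true
  htrans : ∀ S : Set ℕ, 0 ∈ S → (∀ i ∈ S, ∀ x, x < c.L → c.T x i ∈ S) → ∀ i, i < c.N → i ∈ S
  hrel : ∀ i, i < c.N → c.chkRel D.rels i = true

section Perm

variable (hs : Small D c) (hb : PBig D c)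

include hs hb

theorem tokP : TOK c :=
  ⟨fun _ hx => inv_lt hs hx, fun _ hx => inv_inv_eq hs hx,
    fun _ _ hi hx => T_spec hb.hfin hi hx⟩

variable (hT : TOK c) (hgens : ∀ a, (a, true) ∈ D.lets)

include hgens

theorem lift_relP {r : FreeGroup α} (hr : r ∈ D.rs) : FreeGroup.lift (genPerm D hT) r = 1 := by
  rw [← wordPerm_toLetters hs hT hgens]
  have hlt : ∀ x ∈ toLetters D.lets r, x < c.L := by
    intro x hx
    rw [hs.hL]
    exact toLetters_lt _ hgens r x hx
  have key : ∀ a ∈ D.rels, (∀ x ∈ a, x < c.L) → wordEl (permOf hT) a = 1 := by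
    intro a ha hlta
    ext i
    rw [wordPerm_val hT a hlta]
    have h1 := chkRel_spec_read (hb.hrel i i.2) a ha
    exact (beq_iff.1 h1).symm
  rcases hs.hrels2 r hr with h | h
  · exact key _ h hlt
  · apply wordEl_of_rot (k := 1)
    apply key _ h
    intro x hx
    simp only [rot, List.mem_append] at hx
    rcases hx with hx | hx
    · exact hlt x (List.mem_of_mem_drop hx)
    · exact hlt x (List.mem_of_mem_take hx)

end Perm

section Main

variable {R : Set (FreeGroup α)} (hR : ∀ r, r ∈ R ↔ r ∈ D.rs) (hs : Small D c) (hb : PBig D c)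
  (hgens : ∀ a, (a, true) ∈ D.lets)

/-- The map to the permutations of the labels. -/
noncomputable def phiP : PresentedGroup R →* Equiv.Perm (Fin c.N) :=
  PresentedGroup.toGroup (f := genPerm D (tokP hs hb)) (rels := R)
    (fun _ hr => lift_relP hs hb _ hgens ((hR _).1 hr))

theorem phiP_mk (r : FreeGroup α) : phiP hR hs hb hgens (PresentedGroup.mk R r) =
    FreeGroup.lift (genPerm D (tokP hs hb)) r := rfl

include hR hs hb hgens

theorem phiP_fix {g : PresentedGroup R} (hg : g ∈ HOf R D.Hs) :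
    phiP hR hs hb hgens g ⟨0, hs.hN⟩ = ⟨0, hs.hN⟩ := by
  let K : Subgroup (PresentedGroup R) :=
    (MulAction.stabilizer (Equiv.Perm (Fin c.N)) (⟨0, hs.hN⟩ : Fin c.N)).comap (phiP hR hs hb hgens)
  have hK : HOf R D.Hs ≤ K := by
    rw [Subgroup.map_le_iff_le_comap, Subgroup.closure_le]
    intro h hh
    simp only [Subgroup.coe_comap, Set.mem_preimage, K, SetLike.mem_coe, MulAction.mem_stabilizer_iff]
    apply Fin.ext
    rw [Equiv.Perm.smul_def, phiP_mk, lift_val hs (tokP hs hb) hgens]
    have hw : toLetters D.lets h ∈ D.hw := by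
      rw [hs.hhw]; exact List.mem_map_of_mem hh
    exact (beq_iff.1 (Cfg.walk_read (hb.hw0 _ hw))).symm
  have := hK hg
  simpa [K, MulAction.mem_stabilizer_iff] using this

theorem phi_elP {x : ℕ} (hx : x < c.L) : phiP hR hs hb hgens (elG D R x) = permOf (tokP hs hb) x := by
  have hx' : x < D.lets.length := hs.hL ▸ hx
  have h1 : elG D R x = PresentedGroup.mk R (eltF D.lets[x]) := dif_pos hx'
  rw [h1, phiP_mk, ← perm_letterOf hs (tokP hs hb) hgens, letterOf_getElem hs.hnd hx']

theorem phiP_trans (i : ℕ) (hi : i < c.N) :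
    ∃ g, (phiP hR hs hb hgens g ⟨0, hs.hN⟩ : Fin c.N) = ⟨i, hi⟩ := by
  have h := hb.htrans {j | ∃ (hj : j < c.N) (g : PresentedGroup R), phiP hR hs hb hgens g ⟨0, hs.hN⟩ = ⟨j, hj⟩}
    ⟨hs.hN, 1, rfl⟩ (by
      rintro j ⟨hj, g, hg⟩ x hx
      refine ⟨((tokP hs hb).2.2 j x hj hx).1, elG D R x * g, ?_⟩
      rw [map_mul, Equiv.Perm.coe_mul, Function.comp_apply, hg, phi_elP hR hs hb hgens hx]
      apply Fin.ext
      exact permOf_val (tokP hs hb) hx _) i hi
  obtain ⟨_, g, hg⟩ := h
  exact ⟨g, hg⟩

/-- The bound for the index from below. -/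
theorem index_ge (hH : (HOf R D.Hs).index ≠ 0) : c.N ≤ (HOf R D.Hs).index := by
  classical
  haveI : Finite (PresentedGroup R ⧸ HOf R D.Hs) := Nat.finite_of_card_ne_zero hH
  let beta : (PresentedGroup R ⧸ HOf R D.Hs) → Fin c.N := fun q =>
    Quotient.liftOn' q (fun g => phiP hR hs hb hgens g ⟨0, hs.hN⟩) (by
      intro a b hab
      have hab' : a⁻¹ * b ∈ HOf R D.Hs := QuotientGroup.leftRel_apply.1 hab
      have := phiP_fix hR hs hb hgens hab'
      rw [map_mul, map_inv, Equiv.Perm.coe_mul, Function.comp_apply, Equiv.Perm.inv_eq_iff_eq] at this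
      exact this.symm)
  have hbeta : ∀ g : PresentedGroup R, beta (g : PresentedGroup R ⧸ HOf R D.Hs) =
      phiP hR hs hb hgens g ⟨0, hs.hN⟩ := fun g => rfl
  have hbsurj : Function.Surjective beta := by
    rintro ⟨i, hi⟩
    obtain ⟨g, hg⟩ := phiP_trans hR hs hb hgens i hi
    exact ⟨(g : PresentedGroup R ⧸ HOf R D.Hs), by rw [hbeta, hg]⟩
  have := Nat.card_le_card_of_surjective _ hbsurj
  rw [Nat.card_fin] at this
  exact this

/-- The cosets are the labels, once the index is bounded. -/
theorem exists_equivP (hidx : (HOf R D.Hs).index ≤ c.N) (hH : (HOf R D.Hs).index ≠ 0) :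
    ∃ e : (PresentedGroup R ⧸ HOf R D.Hs) ≃ Fin c.N,
    (∀ (w : FreeGroup α) q, ((e (PresentedGroup.mk R w • q) : Fin c.N) : ℕ) =
      c.walkEnd (toLetters D.lets w) (e q)) ∧
    (∀ (g : PresentedGroup R) q, e (g • q) = phiP hR hs hb hgens g (e q)) ∧
    ((e ((1 : PresentedGroup R) : PresentedGroup R ⧸ HOf R D.Hs) : Fin c.N) : ℕ) = 0 := by
  classical
  haveI : Finite (PresentedGroup R ⧸ HOf R D.Hs) := Nat.finite_of_card_ne_zero hH
  let beta : (PresentedGroup R ⧸ HOf R D.Hs) → Fin c.N := fun q =>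
    Quotient.liftOn' q (fun g => phiP hR hs hb hgens g ⟨0, hs.hN⟩) (by
      intro a b hab
      have hab' : a⁻¹ * b ∈ HOf R D.Hs := QuotientGroup.leftRel_apply.1 hab
      have := phiP_fix hR hs hb hgens hab'
      rw [map_mul, map_inv, Equiv.Perm.coe_mul, Function.comp_apply, Equiv.Perm.inv_eq_iff_eq] at this
      exact this.symm)
  have hbeta : ∀ g : PresentedGroup R, beta (g : PresentedGroup R ⧸ HOf R D.Hs) =
      phiP hR hs hb hgens g ⟨0, hs.hN⟩ := fun g => rfl
  have hbsurj : Function.Surjective beta := by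
    rintro ⟨i, hi⟩
    obtain ⟨g, hg⟩ := phiP_trans hR hs hb hgens i hi
    exact ⟨(g : PresentedGroup R ⧸ HOf R D.Hs), by rw [hbeta, hg]⟩
  have hcard : Nat.card (PresentedGroup R ⧸ HOf R D.Hs) ≤ Nat.card (Fin c.N) := by
    rw [Nat.card_fin]; exact hidx
  have hbij : Function.Bijective beta :=
    hbsurj.bijective_of_nat_card_le hcard
  refine ⟨Equiv.ofBijective beta hbij, ?_, ?_, ?_⟩
  · intro w q
    induction q using QuotientGroup.induction_on with
    | H g =>
      simp only [Equiv.ofBijective_apply]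
      rw [MulAction.Quotient.smul_coe, hbeta, hbeta, smul_eq_mul, map_mul, Equiv.Perm.coe_mul,
        Function.comp_apply, phiP_mk, lift_val hs (tokP hs hb) hgens]
  · intro g q
    induction q using QuotientGroup.induction_on with
    | H g' =>
      simp only [Equiv.ofBijective_apply]
      rw [MulAction.Quotient.smul_coe, hbeta, hbeta, smul_eq_mul, map_mul, Equiv.Perm.coe_mul,
        Function.comp_apply]
  · simp only [Equiv.ofBijective_apply]
    rw [hbeta, map_one]
    rfl

omit hR hs hb hgens in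
theorem T_inv_valP (hs : Small D c) (hb : PBig D c) {x : ℕ} (hx : x < c.L) (i : Fin c.N) :
    c.T (c.inv x) i = ((permOf (tokP hs hb) x)⁻¹ i : Fin c.N) := by
  rw [← permOf_inv (tokP hs hb) hx, permOf_val (tokP hs hb) (inv_lt hs hx)]

theorem ev0_okP : EvOK (fun j => phiP hR hs hb hgens (elG D R j)) (ev0 c) := by
  intro j i
  unfold ev0
  by_cases hj : j < c.L
  · have h1 : blt j c.L = true := blt_iff.2 hj
    simp only [h1]
    rw [phi_elP hR hs hb hgens hj]
    exact ⟨(permOf_val (tokP hs hb) hj i).symm, T_inv_valP hs hb hj i⟩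
  · have h1 : blt j c.L = false := by
      cases h : blt j c.L with
      | false => rfl
      | true => exact absurd (blt_iff.1 h) hj
    simp only [h1]
    have h2 : elG D R j = 1 := elX_ge _ _ (by have := hs.hL; omega)
    simp [h2]

end Main

/-! ### The table of a family of networks -/

open Cfsg.Agent.Lib.Compute.BitNet

/-- A big number cut into small ones, to read its bits at the cost of the small ones. -/
inductive MT where
  | leaf (c : ℕ)
  | node (w : ℕ) (l r : MT)

/-- The number. -/
noncomputable def MT.val (t : MT) : ℕ :=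
  MT.rec (motive := fun _ => ℕ) (fun c => c) (fun w _ _ ihl ihr => Nat.lor ihl (Nat.shiftLeft ihr w)) t

/-- The left parts are short. -/
noncomputable def MT.ok (t : MT) : Bool :=
  MT.rec (motive := fun _ => Bool) (fun _ => true)
    (fun w l _ ihl ihr =>
      Bool.rec (motive := fun _ => Bool) false
        (Bool.rec (motive := fun _ => Bool) false ihr ihl) (Nat.beq (Nat.shiftRight (MT.val l) w) 0)) t

/-- Read a bit. -/
noncomputable def MT.rd (t : MT) : ℕ → Bool :=
  MT.rec (motive := fun _ => ℕ → Bool)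
    (fun c i => Nat.beq (Nat.land (Nat.shiftRight c i) 1) 1)
    (fun w _ _ ihl ihr i => Bool.rec (motive := fun _ => Bool) (ihr (Nat.sub i w)) (ihl i) (Nat.ble (Nat.succ i) w)) t

theorem testBit_iff (m i : ℕ) : Nat.beq (Nat.land (Nat.shiftRight m i) 1) 1 = m.testBit i := by
  have h1 : Nat.land (Nat.shiftRight m i) 1 = (m >>> i) % 2 := by
    show (m >>> i) &&& 1 = _
    exact Nat.and_one_is_mod _
  rw [h1, Nat.testBit, Nat.shiftRight_eq_div_pow]
  rcases Nat.mod_two_eq_zero_or_one (m / 2 ^ i) with h | h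
  · rw [h, Nat.one_and_eq_mod_two, h]
    rfl
  · rw [h, Nat.one_and_eq_mod_two, h]
    rfl

theorem MT.rd_eq : ∀ (t : MT), t.ok = true → ∀ i, t.rd i = t.val.testBit i
  | .leaf c, _, i => testBit_iff c i
  | .node w l r, h, i => by
    have h' : Bool.rec (motive := fun _ => Bool) false
        (Bool.rec (motive := fun _ => Bool) false r.ok l.ok) (Nat.beq (Nat.shiftRight l.val w) 0) = true := h
    cases h1 : Nat.beq (Nat.shiftRight l.val w) 0 with
    | false => rw [h1] at h'; cases h'
    | true =>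
      rw [h1] at h'
      have h1' : l.val >>> w = 0 := Nat.eq_of_beq_eq_true h1
      cases h2 : l.ok with
      | false => rw [h2] at h'; cases h'
      | true =>
        rw [h2] at h'
        have e1 : (MT.node w l r).val = l.val ||| (r.val <<< w) := rfl
        have e2 : (MT.node w l r).rd i = Bool.rec (motive := fun _ => Bool) (r.rd (Nat.sub i w)) (l.rd i)
          (Nat.ble (Nat.succ i) w) := rfl
        rw [e1, e2, Nat.testBit_or, Nat.testBit_shiftLeft]
        by_cases hi : i < w
        · have h3 : Nat.ble (Nat.succ i) w = true := Nat.ble_eq_true_of_le hi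
          rw [h3]
          show l.rd i = _
          rw [MT.rd_eq l h2 i]
          have h4 : decide (i ≥ w) = false := by simpa using hi
          simp [h4]
        · have h3 : Nat.ble (Nat.succ i) w = false := by
            cases h : Nat.ble (Nat.succ i) w with
            | false => rfl
            | true => exact absurd (Nat.le_of_ble_eq_true h) hi
          rw [h3]
          show r.rd (Nat.sub i w) = _
          rw [MT.rd_eq r h' _]
          have h4 : l.val.testBit i = false := by
            have h5 : (l.val >>> w).testBit (i - w) = l.val.testBit (w + (i - w)) := Nat.testBit_shiftRight _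
            rw [h1'] at h5
            have h6 : w + (i - w) = i := by omega
            rw [h6] at h5
            simpa using h5.symm
          have h7 : decide (i ≥ w) = true := by simpa using (by omega : w ≤ i)
          rw [h4, h7]
          rfl

/-- The position read by a layer, for the kernel. -/
noncomputable def sigT (t : MT) (s i : ℕ) : ℕ :=
  Bool.rec (motive := fun _ => ℕ)
    (Bool.rec (motive := fun _ => ℕ) i
      (Bool.rec (motive := fun _ => ℕ) i (Nat.sub i s) (t.rd (Nat.sub i s)))
      (Nat.ble s i))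
    (Nat.add i s)
    (t.rd i)

/-- The position read by a network, for the kernel. -/
noncomputable def posT (L : List (MT × ℕ)) : ℕ → ℕ :=
  List.rec (motive := fun _ => ℕ → ℕ) (fun i => i) (fun l _ ih i => frc (ih i) (sigT l.1 l.2)) L

/-- The network on numbers. -/
noncomputable def netV (L : List (MT × ℕ)) : List (ℕ × ℕ) := L.map (fun l => (l.1.val, l.2))

theorem sigT_eq {t : MT} (h : t.ok = true) (s i : ℕ) : sigT t s i = sig t.val s i := by
  unfold sigT sig
  rw [MT.rd_eq t h, MT.rd_eq t h]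
  cases h1 : t.val.testBit i with
  | true => rfl
  | false =>
    by_cases h2 : s ≤ i
    · have h3 : Nat.ble s i = true := Nat.ble_eq_true_of_le h2
      rw [h3]
      have e : Nat.sub i s = i - s := rfl
      rw [e]
      cases h4 : t.val.testBit (i - s) with
      | true => simp [h2]
      | false => simp
    · have h3 : Nat.ble s i = false := by
        cases h : Nat.ble s i with
        | false => rfl
        | true => exact absurd (Nat.le_of_ble_eq_true h) h2
      rw [h3]
      simp [h2]

theorem posT_eq : ∀ (L : List (MT × ℕ)), (∀ l ∈ L, l.1.ok = true) → ∀ i, posT L i = posN (netV L) i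
  | [], _, _ => rfl
  | l :: L, h, i => by
    show frc (posT L i) (sigT l.1 l.2) = sig l.1.val l.2 (posN (netV L) i)
    rw [frc_eq, posT_eq L (fun x hx => h x (by simp [hx])) i, sigT_eq (h l (by simp))]

theorem posW_append (N : ℕ → List (ℕ × ℕ)) (u v : List ℕ) (i : ℕ) : posW N (u ++ v) i = posW N u (posW N v i) := by
  induction u with
  | nil => rfl
  | cons x u ih =>
    show posN (N x) (posW N (u ++ v) i) = posN (N x) (posW N u (posW N v i))
    rw [ih]

/-- One round of the closure of a bitset under a list of letters. -/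
noncomputable def roundN (N : ℕ → List (ℕ × ℕ)) (X : List ℕ) : ℕ → ℕ :=
  List.rec (motive := fun _ => ℕ → ℕ) (fun S => S) (fun x _ ih S => frc (Nat.lor S (netA (N x) S)) ih) X

/-- Rounds of the closure of a bitset under a list of letters. -/
noncomputable def roundsN (N : ℕ → List (ℕ × ℕ)) (X : List ℕ) (n : ℕ) : ℕ → ℕ :=
  Nat.rec (motive := fun _ => ℕ → ℕ) (fun S => S) (fun _ ih S => frc (roundN N X S) ih) n

/-- A table given by a family of networks. -/
structure NetOK (c : Cfg) (N : ℕ → List (ℕ × ℕ)) (k : ℕ) : Prop where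
  hE : ∀ j, c.E j = posN (N (Nat.mod j c.Lp)) (Nat.div j c.Lp)
  hM : c.M = c.N * c.Lp
  hLp : c.Lp = c.L + 1
  hNm : c.N ≤ maxS
  hk : c.N ≤ 2 ^ k
  hv : ∀ x, validN (N x) = true
  hb : ∀ x, x < c.L → netA (N x) (fullS c.N) = fullS c.N
  hinv : ∀ x, x < c.L → c.inv x < c.L
  hi : ∀ x, x < c.L → ∀ b, b < k → chkP N c.N k [c.inv x, x] [] b = true

section Net

variable {c : Cfg} {N : ℕ → List (ℕ × ℕ)} {k : ℕ} (hn : NetOK c N k)

include hn

theorem pos_lt {x i : ℕ} (hx : x < c.L) (hi : i < c.N) : posN (N x) i < c.N := by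
  have h1 := testBit_netA (hn.hv x) (fullS c.N) i
  rw [hn.hb x hx, testBit_fullS, testBit_fullS] at h1
  have h2 : decide (i < c.N) = true := by simpa using hi
  rw [h2] at h1
  exact of_decide_eq_true h1.symm

theorem posW_lt {u : List ℕ} (hu : ∀ x ∈ u, x < c.L) {i : ℕ} (hi : i < c.N) : posW N u i < c.N := by
  induction u with
  | nil => exact hi
  | cons x u ih =>
    exact pos_lt hn (hu x (by simp)) (ih (fun y hy => hu y (by simp [hy])))

theorem ent_val {x i : ℕ} (hx : x < c.L) (hi : i < c.N) : c.ent (i * c.Lp + x) = posN (N x) i := by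
  have hLp := hn.hLp
  have hlt : i * c.Lp + x < c.M := by
    rw [hn.hM]
    have : (i + 1) * c.Lp ≤ c.N * c.Lp := Nat.mul_le_mul_right _ hi
    have e : (i + 1) * c.Lp = i * c.Lp + c.Lp := by ring
    omega
  have h1 : Nat.ble (Nat.succ (i * c.Lp + x)) c.M = true := Nat.ble_eq_true_of_le hlt
  have h2 : c.ent (i * c.Lp + x) = c.E (i * c.Lp + x) := by
    unfold Cfg.ent
    rw [h1]
  have hLp0 : 0 < c.Lp := by omega
  have hxLp : x < c.Lp := by omega
  have h3 : Nat.mod (i * c.Lp + x) c.Lp = x := by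
    show (i * c.Lp + x) % c.Lp = x
    rw [Nat.mul_comm, Nat.mul_add_mod, Nat.mod_eq_of_lt hxLp]
  have h4 : Nat.div (i * c.Lp + x) c.Lp = i := by
    show (i * c.Lp + x) / c.Lp = i
    rw [Nat.mul_comm, Nat.mul_add_div hLp0, Nat.div_eq_of_lt hxLp, Nat.add_zero]
  rw [h2, hn.hE, h3, h4]

omit hn in
theorem two24 : maxS < 2 ^ 24 := by decide

omit hn in
theorem tgtF_small {e : ℕ} (h : e < 2 ^ 24) : tgtF e = e := by
  show e &&& 0xFFFFFF = e
  have h1 : (0xFFFFFF : ℕ) = 2 ^ 24 - 1 := by norm_num
  rw [h1, Nat.and_two_pow_sub_one_eq_mod, Nat.mod_eq_of_lt h]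

omit hn in
theorem stpF_small {e : ℕ} (h : e < 2 ^ 24) : stpF e = 0 := by
  show (e >>> 24) &&& 0xFFFFFF = 0
  have h1 : e >>> 24 = 0 := by
    rw [Nat.shiftRight_eq_div_pow]
    exact Nat.div_eq_of_lt h
  rw [h1]
  rfl

theorem T_val {x i : ℕ} (hx : x < c.L) (hi : i < c.N) : c.T x i = posN (N x) i := by
  have h1 := pos_lt hn hx hi
  have h2 : posN (N x) i < 2 ^ 24 := lt_trans (lt_of_lt_of_le h1 hn.hNm) two24
  unfold Cfg.T
  rw [ent_val hn hx hi, tgtF_small h2]
  unfold Cfg.res
  have h3 : Nat.ble c.N (posN (N x) i) = false := by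
    cases h : Nat.ble c.N (posN (N x) i) with
    | false => rfl
    | true => exact absurd (Nat.le_of_ble_eq_true h) (by omega)
  rw [h3]

theorem rdK_val {x i : ℕ} (hx : x < c.L) (hi : i < c.N) (f : ℕ → Bool) : c.rdK maxS i x f = f (c.T x i) := by
  have h1 := pos_lt hn hx hi
  have h2 : posN (N x) i < 2 ^ 24 := lt_trans (lt_of_lt_of_le h1 hn.hNm) two24
  have hT : c.T x i = c.res maxS (tgtF (posN (N x) i)) := by
    unfold Cfg.T
    rw [ent_val hn hx hi]
  rw [hT]
  unfold Cfg.rdK
  rw [frc_eq]
  unfold Cfg.rdA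
  have e : Nat.add (Nat.mul i c.Lp) x = i * c.Lp + x := rfl
  have h3 : Nat.ble (Nat.succ 0) maxS = true := by decide
  rw [e, ent_val hn hx hi, stpF_small h2, h3]

theorem T_lt {x i : ℕ} (hx : x < c.L) (hi : i < c.N) : c.T x i < c.N := by
  rw [T_val hn hx hi]
  exact pos_lt hn hx hi

theorem walk_val {u : List ℕ} (hu : ∀ x ∈ u, x < c.L) {i : ℕ} (hi : i < c.N) (f : ℕ → Bool) :
    c.walk maxS u i f = f (c.walkEnd u i) := by
  induction u generalizing i with
  | nil => rfl
  | cons x u ih =>
    have e : c.walk maxS (x :: u) i f = c.rdK maxS i x (fun j => c.walk maxS u j f) := rfl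
    rw [e, rdK_val hn (hu x (by simp)) hi]
    exact ih (fun y hy => hu y (by simp [hy])) (T_lt hn (hu x (by simp)) hi)

theorem walkEnd_val {u : List ℕ} (hu : ∀ x ∈ u, x < c.L) {i : ℕ} (hi : i < c.N) :
    c.walkEnd u i = posW N u.reverse i := by
  induction u generalizing i with
  | nil => rfl
  | cons x u ih =>
    have e : c.walkEnd (x :: u) i = c.walkEnd u (c.T x i) := rfl
    rw [e, ih (fun y hy => hu y (by simp [hy])) (T_lt hn (hu x (by simp)) hi), List.reverse_cons, posW_append,
      T_val hn (hu x (by simp)) hi]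
    rfl

theorem eq_of_planes {i j : ℕ} (hi : i < c.N) (hj : j < c.N) (h : ∀ b, b < k → i.testBit b = j.testBit b) : i = j := by
  have hk := hn.hk
  apply Nat.eq_of_testBit_eq
  intro b
  by_cases hb : b < k
  · exact h b hb
  · have hb' : k ≤ b := by omega
    have h2 : 2 ^ k ≤ 2 ^ b := Nat.pow_le_pow_right (by norm_num) hb'
    rw [Nat.testBit_eq_false_of_lt (lt_of_lt_of_le (lt_of_lt_of_le hi hk) h2),
      Nat.testBit_eq_false_of_lt (lt_of_lt_of_le (lt_of_lt_of_le hj hk) h2)]

/-- The pointwise meaning of the check of a word identity. -/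
theorem posW_eq {u u' : List ℕ} (hu : ∀ x ∈ u, x < c.L) (hu' : ∀ x ∈ u', x < c.L)
    (h : ∀ b, b < k → chkP N c.N k u u' b = true) {i : ℕ} (hi : i < c.N) : posW N u i = posW N u' i := by
  apply eq_of_planes hn (posW_lt hn hu hi) (posW_lt hn hu' hi)
  intro b hb
  have h1 := Nat.eq_of_beq_eq_true (h b hb)
  have h2 := testBit_wordA hn.hv u (idT c.N k b) i
  have h3 := testBit_wordA hn.hv u' (idT c.N k b) i
  rw [h1, h3, testBit_idT hn.hk b _ (posW_lt hn hu' hi), testBit_idT hn.hk b _ (posW_lt hn hu hi)] at h2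
  exact h2.symm

theorem T_inv {x i : ℕ} (hx : x < c.L) (hi : i < c.N) : c.T (c.inv x) (c.T x i) = i := by
  have h1 := posW_eq hn (u := [c.inv x, x]) (u' := [])
    (by
      intro y hy
      simp only [List.mem_cons, List.not_mem_nil, or_false] at hy
      rcases hy with rfl | rfl
      · exact hn.hinv x hx
      · exact hx)
    (by simp) (hn.hi x hx) hi
  have h2 := T_lt hn hx hi
  rw [T_val hn (hn.hinv x hx) h2, T_val hn hx hi]
  exact h1

omit hn in
theorem allL_of {f : ℕ → Bool} : ∀ {l : List ℕ}, (∀ y ∈ l, f y = true) → Cfg.allL f l = true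
  | [], _ => rfl
  | y :: l, h => by
    show Bool.rec (motive := fun _ => Bool) false (Cfg.allL f l) (f y) = true
    rw [h y (by simp)]
    exact allL_of (fun z hz => h z (by simp [hz]))

theorem chkFin_net {i : ℕ} (hi : i < c.N) : c.chkFin (List.range c.L) i = true := by
  unfold Cfg.chkFin
  apply allL_of
  intro x hx'
  have hx : x < c.L := List.mem_range.1 hx'
  rw [rdK_val hn hx hi]
  show Bool.rec (motive := fun _ => Bool) false (c.rdK maxS (c.T x i) (c.inv x) (Nat.beq i)) (blt (c.T x i) c.N) = true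
  rw [blt_iff.2 (T_lt hn hx hi)]
  show c.rdK maxS (c.T x i) (c.inv x) (Nat.beq i) = true
  rw [rdK_val hn (hn.hinv x hx) (T_lt hn hx hi), T_inv hn hx hi]
  exact beq_iff.2 rfl

theorem chkRel_net {rels : List (List ℕ)} (hr : ∀ a ∈ rels, ∀ x ∈ a, x < c.L)
    (hp : ∀ a ∈ rels, ∀ b, b < k → chkP N c.N k a.reverse [] b = true) {i : ℕ} (hi : i < c.N) :
    c.chkRel rels i = true := by
  induction rels with
  | nil => rfl
  | cons a rels ih =>
    show Bool.rec (motive := fun _ => Bool) false (c.chkRel rels i) (c.walk maxS a i (Nat.beq i)) = true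
    have h1 : c.walk maxS a i (Nat.beq i) = true := by
      rw [walk_val hn (hr a (by simp)) hi, walkEnd_val hn (hr a (by simp)) hi]
      have h2 := posW_eq hn (u := a.reverse) (u' := [])
        (fun x hx => hr a (by simp) x (List.mem_reverse.1 hx)) (by simp) (hp a (by simp)) hi
      rw [h2]
      exact beq_iff.2 rfl
    rw [h1]
    exact ih (fun b hb => hr b (by simp [hb])) (fun b hb => hp b (by simp [hb]))

theorem round_inv {S : Set ℕ} (hS : ∀ i ∈ S, ∀ x, x < c.L → c.T x i ∈ S) {X : List ℕ} (hX : ∀ x ∈ X, x < c.L) :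
    ∀ {P : ℕ}, (∀ i, i < c.N → P.testBit i = true → i ∈ S) → ∀ i, i < c.N → (roundN N X P).testBit i = true → i ∈ S := by
  induction X with
  | nil => intro P h; exact h
  | cons x X ih =>
    intro P h
    have hx : x < c.L := hX x (by simp)
    have e : roundN N (x :: X) P = roundN N X (P ||| netA (N x) P) := by
      show frc (Nat.lor P (netA (N x) P)) (roundN N X) = _
      rw [frc_eq]
      rfl
    rw [e]
    apply ih (fun y hy => hX y (by simp [hy]))
    intro i hi h1
    rw [Nat.testBit_or] at h1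
    rcases (by simpa using h1 : P.testBit i = true ∨ (netA (N x) P).testBit i = true) with h2 | h2
    · exact h i hi h2
    · rw [testBit_netA (hn.hv x)] at h2
      have h3 := h _ (pos_lt hn hx hi) h2
      rw [← T_val hn hx hi] at h3
      have h4 := hS _ h3 (c.inv x) (hn.hinv x hx)
      rwa [T_inv hn hx hi] at h4

theorem rounds_inv {S : Set ℕ} (hS : ∀ i ∈ S, ∀ x, x < c.L → c.T x i ∈ S) {X : List ℕ} (hX : ∀ x ∈ X, x < c.L) (n : ℕ) :
    ∀ {P : ℕ}, (∀ i, i < c.N → P.testBit i = true → i ∈ S) → ∀ i, i < c.N → (roundsN N X n P).testBit i = true → i ∈ S := by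
  induction n with
  | zero => intro P h; exact h
  | succ n ih =>
    intro P h
    have e : roundsN N X (n + 1) P = roundsN N X n (roundN N X P) := by
      show frc (roundN N X P) (roundsN N X n) = _
      rw [frc_eq]
    rw [e]
    exact ih (round_inv hn hS hX h)

theorem trans_net {X : List ℕ} (hX : ∀ x ∈ X, x < c.L) {n : ℕ} (hf : roundsN N X n 1 = fullS c.N)
    (S : Set ℕ) (h0 : 0 ∈ S) (hS : ∀ i ∈ S, ∀ x, x < c.L → c.T x i ∈ S) (i : ℕ) (hi : i < c.N) : i ∈ S := by
  apply rounds_inv hn hS hX n (P := 1) _ i hi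
  · rw [hf, testBit_fullS]
    simpa using hi
  · intro j _ hj
    have h1 : (1 : ℕ) = 2 ^ 0 := rfl
    rw [h1, Nat.testBit_two_pow] at hj
    have h2 : 0 = j := of_decide_eq_true hj
    rw [← h2]
    exact h0

end Net

universe v

/-- The checks of a table of networks. -/
theorem big_of_net {α : Type v} [DecidableEq α] {D : Data α} {c : Cfg} {N : ℕ → List (ℕ × ℕ)} {k : ℕ} (hn : NetOK c N k)
    (hw0 : ∀ w ∈ D.hw, c.walk maxS w 0 (Nat.beq 0) = true)
    (hr : ∀ a ∈ D.rels, ∀ x ∈ a, x < c.L)
    (hp : ∀ a ∈ D.rels, ∀ b, b < k → chkP N c.N k a.reverse [] b = true)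
    {X : List ℕ} (hX : ∀ x ∈ X, x < c.L) {n : ℕ} (hf : roundsN N X n 1 = fullS c.N) : PBig D c where
  hw0 := hw0
  hfin := fun _ hi => chkFin_net hn hi
  htrans := trans_net hn hX hf
  hrel := fun _ hi => chkRel_net hn hr hp hi

end Cfsg.Agent.Lib.Compute.PNet
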