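/-
The presented Harada-Norton group: the index of the double cover, the order, and the simplicity.
-/
import Cfsg.Agent.Lib.Compute.HNUp
import Cfsg.Agent.Lib.Compute.PNet
import Cfsg.Agent.Lib.Compute.TC.HNTT.Final
import Cfsg.Agent.Lib.Compute.TC.HNF.Data

set_option autoImplicit false
set_option maxRecDepth 100000

namespace Cfsg.Agent.Lib.Compute.HNTop

open Cfsg.Agent.Lib.Compute.ToddCoxeterCore Cfsg.Agent.Lib.Compute.ToddCoxeterPresented
  Cfsg.Agent.Lib.Compute.TCFast Cfsg.Agent.Lib.Compute.TCChain Cfsg.Agent.Lib.Compute.DCoset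
  Cfsg.Agent.Lib.Compute.HNBound Cfsg.Agent.Lib.Compute.HNUp Cfsg.Agent.Lib.Compute.PNet
open Cfsg.Agent.Lib.Compute.TC
open Cfsg.Spor.HN

theorem Nval : HNTT.cfg.N = 1539000 := by decide +kernel

theorem indexNe : BB.index ≠ 0 := by
  haveI := card_le.1
  exact Nat.card_pos.ne'

theorem indexLe : BB.index ≤ HNTT.cfg.N := by
  rw [Nval]
  exact card_le.2

/-- The index of the double cover. -/
theorem index_eq : BB.index = 1539000 := by
  refine le_antisymm card_le.2 ?_
  have h := index_ge (R := HNTT.RR) (D := HNTT.D) (c := HNTT.cfg) HNTT.hR HNTT.small HNTT.big HNTT.hgens indexNe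
  rw [Nval] at h
  exact h

/-- The action on the table. -/
noncomputable def rho : GG →* Equiv.Perm (Fin HNTT.cfg.N) := phiP HNTT.hR HNTT.small HNTT.big HNTT.hgens

theorem Fbound (c : ℕ) (hc : c < 1408) : HNF.F c < HNTT.cfg.N :=
  blt_iff.1 (allFrom_spec HNF.Flt c (Nat.zero_le _) (by simpa using hc))

/-- The point of a letter. -/
noncomputable def Fp (c : Fin HNDC.d.n) : Fin HNTT.cfg.N := ⟨HNF.F c, Fbound c c.2⟩

theorem F_inj {c e : ℕ} (hc : c < 1408) (he : e < 1408) (h : HNF.F c = HNF.F e) : c = e := by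
  by_contra hne
  wlog hlt : c < e generalizing c e
  · exact this he hc h.symm (Ne.symm hne) (by omega)
  have h1 := allFrom_spec HNF.Finj c (Nat.zero_le _) (by simpa using hc)
  have h2 := allFrom_spec h1 e hlt (by
    show e < Nat.succ c + Nat.sub 1407 c
    have : Nat.sub 1407 c = 1407 - c := rfl
    omega)
  rw [h, beq_iff.2 rfl] at h2
  cases h2

theorem Fp_inj : Function.Injective Fp := by
  intro c e h
  have h1 : HNF.F c = HNF.F e := congrArg Fin.val h
  exact Fin.ext (F_inj c.2 e.2 h1)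

theorem rho_el (j : ℕ) (hj : j < HNTT.cfg.L) (p : Fin HNTT.cfg.N) :
    (rho (elG HNTT.D HNTT.RR j) p : ℕ) = HNTT.cfg.T j p := by
  have h1 := ev0_okP HNTT.hR HNTT.small HNTT.big HNTT.hgens j p
  rw [show rho (elG HNTT.D HNTT.RR j) p = phiP HNTT.hR HNTT.small HNTT.big HNTT.hgens (elG HNTT.D HNTT.RR j) p from rfl,
    ← h1.1]
  unfold ev0
  simp [blt_iff.2 hj]

/-- The three generators of the double cover. -/
theorem gen_step (b : Fin 3) (j j' : ℕ) (hj : valP j = PresentedGroup.mk HNP1.RR (FreeGroup.of b))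
    (hj' : elG HNTT.D HNTT.RR j' = PresentedGroup.of (gmap b)) (hjL : j' < HNTT.cfg.L)
    (hchk : ∀ c, c < 1408 → HNF.F (HNDC.S j c) = HNTT.cfg.T j' (HNF.F c)) (c : Fin HNDC.d.n) :
    rho (eG (PresentedGroup.mk HNP1.RR (FreeGroup.of b))) (Fp c) =
      Fp (phiD (PresentedGroup.mk HNP1.RR (FreeGroup.of b)) c) := by
  apply Fin.ext
  have h1 : eG (PresentedGroup.mk HNP1.RR (FreeGroup.of b)) = elG HNTT.D HNTT.RR j' := by
    rw [eG_mk, hj', PresentedGroup.of]
    simp
  rw [h1, rho_el j' hjL]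
  show HNTT.cfg.T j' (HNF.F c) = HNF.F _
  rw [← hchk c c.2, ← hj]
  congr 1
  have h2 := hS j c c.2
  exact h2

theorem gens_ok (b : Fin 3) (c : Fin HNDC.d.n) :
    rho (eG (PresentedGroup.of b)) (Fp c) = Fp (phiD (PresentedGroup.of b) c) := by
  have hc := fun c (hc : c < 1408) => allFrom_spec HNF.Fchk c (Nat.zero_le _) (by simpa using hc)
  have hc0 := fun c hc' => by
    have h := hc c hc'
    simp only [Bool.and_eq_true] at h
    exact beq_iff.1 h.1
  have hc2 := fun c hc' => by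
    have h := hc c hc'
    simp only [Bool.and_eq_true] at h
    exact beq_iff.1 h.2.1
  have hc4 := fun c hc' => by
    have h := hc c hc'
    simp only [Bool.and_eq_true] at h
    exact beq_iff.1 h.2.2
  have hT : ∀ (p : Gen × Bool) (j : ℕ), letterOf HNTT.D.lets p = j → elG HNTT.D HNTT.RR j =
      PresentedGroup.mk HNTT.RR (eltF p) := by
    intro p j hj
    rw [← hj]
    exact elG_letterOf HNTT.hR HNTT.small HNTT.hgens p
  fin_cases b
  · exact gen_step 0 0 0 letP0 (hT (Gen.x, true) 0 (by decide +kernel)) (by decide +kernel) hc0 c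
  · have hv : valP 2 = PresentedGroup.mk HNP1.RR (FreeGroup.of 1) := by
      have h := elG_letterOf HNP1.hR HNP1.small HNP1.hgens ((1 : Fin 3), true)
      have h1 : letterOf HNP1.D.lets ((1 : Fin 3), true) = 2 := by decide +kernel
      rw [h1] at h
      exact h
    exact gen_step 1 2 2 hv (hT (Gen.y, true) 2 (by decide +kernel)) (by decide +kernel) hc2 c
  · exact gen_step 2 4 4 letP4 (hT (Gen.z, true) 4 (by decide +kernel)) (by decide +kernel) hc4 c

/-- The points of the letters follow the letters. -/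
theorem equivar (h : PP) : ∀ c : Fin HNDC.d.n, rho (eG h) (Fp c) = Fp (phiD h c) := by
  have h1 : h ∈ (⊤ : Subgroup PP) := trivial
  rw [← PresentedGroup.closure_range_of HNP1.RR] at h1
  induction h1 using Subgroup.closure_induction with
  | mem x hx =>
    obtain ⟨b, rfl⟩ := hx
    exact gens_ok b
  | one =>
    intro c
    simp
  | mul a b _ _ ha hb =>
    intro c
    rw [map_mul, map_mul, map_mul, Equiv.Perm.mul_apply, hb, ha, Equiv.Perm.mul_apply]
  | inv a _ ha =>
    intro c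
    rw [map_inv, map_inv, map_inv, Equiv.Perm.inv_eq_iff_eq, ha]
    simp

theorem eG_inj : Function.Injective eG := by
  rw [injective_iff_map_eq_one]
  intro h hh
  apply hrig
  intro b hb _
  apply Fp_inj
  rw [← equivar, hh, map_one]
  rfl

theorem cardBB : Nat.card BB = 177408000 := by
  rw [← eG_range, ← main.2.1]
  exact (Nat.card_congr (MonoidHom.ofInjective eG_inj).toEquiv).symm

/-- The order of the group. -/
theorem card_G : Nat.card GG = 273030912000000 := by
  rw [← Subgroup.card_mul_index BB, cardBB, index_eq]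

theorem finG : Finite GG := Nat.finite_of_card_ne_zero (by rw [card_G]; norm_num)

theorem equiv_ex : ∃ E : (GG ⧸ BB) ≃ Fin HNTT.cfg.N,
    (∀ (g : GG) q, E (g • q) = rho g (E q)) ∧ ((E ((1 : GG) : GG ⧸ BB) : Fin HNTT.cfg.N) : ℕ) = 0 := by
  obtain ⟨E, -, h2, h3⟩ := exists_equivP HNTT.hR HNTT.small HNTT.big HNTT.hgens indexLe indexNe
  exact ⟨E, h2, h3⟩

/-- An element of the group fixing the base points is trivial. -/
theorem rigidG (g : GG) (hf : ∀ (p : ℕ) (hp : p < HNTT.cfg.N), p ∈ HNF.base → rho g ⟨p, hp⟩ = ⟨p, hp⟩) : g = 1 := by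
  obtain ⟨E, hE, hE0⟩ := equiv_ex
  have hN0 : 0 < HNTT.cfg.N := by rw [Nval]; norm_num
  have hb0 : (0 : ℕ) ∈ HNF.base := by rw [HNF.baseEq]; simp
  have hmem : g ∈ BB := by
    rw [← one_smul_iff']
    apply E.injective
    rw [hE]
    have h1 : E ((1 : GG) : GG ⧸ BB) = ⟨0, hN0⟩ := Fin.ext hE0
    rw [h1]
    exact hf 0 hN0 hb0
  rw [← eG_range] at hmem
  obtain ⟨h, rfl⟩ := hmem
  have h1 : h = 1 := by
    apply hrig
    intro b hb hm
    apply Fp_inj
    rw [← equivar]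
    apply hf
    rw [HNF.baseEq]
    have hm' : b ∈ [0, 1169, 447, 892] := hm
    simp only [List.mem_cons, List.not_mem_nil, or_false] at hm'
    rcases hm' with rfl | rfl | rfl | rfl <;> simp [Fp]
  rw [h1, map_one]

/-- Equations in the group from the base. -/
theorem el_eq (e1 e2 : PE) (h : eqOn (ev0 HNTT.cfg) e1 e2 HNF.base = true) :
    e1.el (elG HNTT.D HNTT.RR) = e2.el (elG HNTT.D HNTT.RR) := by
  have hev := ev0_okP HNTT.hR HNTT.small HNTT.big HNTT.hgens
  have h1 := rigidG ((e2.el (elG HNTT.D HNTT.RR))⁻¹ * e1.el (elG HNTT.D HNTT.RR)) (by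
    intro p hp hm
    have h2 := eqOn_spec h p hm
    have h3 := (PE.ev_spec hev e1 ⟨p, hp⟩).1
    have h4 := (PE.ev_spec hev e2 ⟨p, hp⟩).1
    rw [← PE.el_map] at h3 h4
    have h5 : rho (e1.el (elG HNTT.D HNTT.RR)) ⟨p, hp⟩ = rho (e2.el (elG HNTT.D HNTT.RR)) ⟨p, hp⟩ := by
      apply Fin.ext
      show ((phiP HNTT.hR HNTT.small HNTT.big HNTT.hgens (e1.el (elG HNTT.D HNTT.RR))) ⟨p, hp⟩ : Fin HNTT.cfg.N).1 =
        ((phiP HNTT.hR HNTT.small HNTT.big HNTT.hgens (e2.el (elG HNTT.D HNTT.RR))) ⟨p, hp⟩ : Fin HNTT.cfg.N).1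
      rw [← h3, ← h4]
      exact h2
    rw [map_mul, map_inv, Equiv.Perm.mul_apply, h5]
    simp)
  exact (inv_mul_eq_one.1 h1).symm

theorem hcore (g : GG) (hg : ∀ x : GG ⧸ BB, g • x = x) : g = 1 := by
  obtain ⟨E, hE, -⟩ := equiv_ex
  apply rigidG
  intro p hp _
  have h1 := hE g (E.symm ⟨p, hp⟩)
  rw [hg, Equiv.apply_symm_apply] at h1
  exact h1.symm

/-! ### The normal closure -/

section Kill

variable {Q : Type*} [Group Q]

theorem kill (X Y Z T : Q) (hz : Z = 1) (r1 : Y ^ 6 = 1) (r2 : (X * Y) ^ 8 = 1)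
    (r3 : (X⁻¹ * Y ^ 2 * X * Y ^ 3) ^ 3 = 1) (r4 : (Z * X) ^ 2 = 1)
    (r5 : Z * ((((Y ^ 3 * X * Y * X * Y)⁻¹ * Z * (Y ^ 3 * X * Y * X * Y)) * X) ^ 3) = 1)
    (r6 : T ^ 5 = 1) (r7 : (Z * T) ^ 3 = 1) : X = 1 ∧ Y = 1 ∧ T = 1 := by
  subst hz
  have hT : T = 1 := by
    simp only [one_mul] at r7
    have h : T = T ^ 6 * (T ^ 5)⁻¹ := by group
    rw [h, r6, show T ^ 6 = (T ^ 3) ^ 2 by rw [← pow_mul], r7]
    simp
  have hX : X = 1 := by
    simp only [one_mul] at r4
    simp only [mul_one, inv_mul_cancel, one_mul] at r5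
    have h : X = X ^ 3 * (X ^ 2)⁻¹ := by group
    rw [h, r4, r5]
    simp
  subst hX
  have hY : Y = 1 := by
    simp only [one_mul, inv_one, mul_one] at r2 r3
    have h2 : Y ^ 2 = 1 := by
      have h : Y ^ 2 = Y ^ 8 * (Y ^ 6)⁻¹ := by group
      rw [h, r1, r2]
      simp
    rw [h2] at r3
    simp only [one_mul] at r3
    have h3 : (Y ^ 3) ^ 3 = Y * (Y ^ 2) ^ 4 := by
      rw [← pow_mul, ← pow_mul, ← pow_succ']
    rw [h3, h2] at r3
    simpa using r3
  exact ⟨rfl, hY, hT⟩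

end Kill

theorem r_y6 : yG ^ 6 = 1 := by
  have h : y ^ 6 ∈ RG := Or.inr (by show _ ∈ extra; decide +kernel)
  have := PresentedGroup.one_of_mem h
  simpa only [map_pow] using this

theorem r_xy8 : (xG * yG) ^ 8 = 1 := by
  have h : (x * y) ^ 8 ∈ RG := Or.inr (by show _ ∈ extra; decide +kernel)
  have := PresentedGroup.one_of_mem h
  simpa only [map_mul, map_pow] using this

theorem r_3 : (xG⁻¹ * yG ^ 2 * xG * yG ^ 3) ^ 3 = 1 := by
  have h : ((x⁻¹) * (y ^ 2) * x * (y ^ 3)) ^ 3 ∈ RG := Or.inr (by show _ ∈ extra; decide +kernel)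
  have := PresentedGroup.one_of_mem h
  simpa only [map_mul, map_pow, map_inv] using this

theorem r_zx : (zG * xG) ^ 2 = 1 := by
  have h : (z * x) ^ 2 ∈ RG := Or.inr (by show _ ∈ extra; decide +kernel)
  have := PresentedGroup.one_of_mem h
  simpa only [map_mul, map_pow] using this

theorem r_10 : zG * ((((yG ^ 3 * xG * yG * xG * yG)⁻¹ * zG * (yG ^ 3 * xG * yG * xG * yG)) * xG) ^ 3) = 1 := by
  have h : z * (((((y ^ 3) * x * y * x * y)⁻¹ * z * ((y ^ 3) * x * y * x * y)) * x) ^ 3) ∈ RG :=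
    Or.inr (by show _ ∈ extra; decide +kernel)
  have := PresentedGroup.one_of_mem h
  simpa only [map_mul, map_pow, map_inv] using this

theorem hgenM (M : Subgroup GG) (hM : M.Normal) (hr : HNF.rr.el (elG HNTT.D HNTT.RR) ∈ M) : M = ⊤ := by
  have h1 := Dv.el_mem (elG HNTT.D HNTT.RR) HNF.rr M hr HNF.dz
  rw [el_eq _ _ HNF.dzOK] at h1
  have hz : zG ∈ M := by
    have h2 := elG_letterOf HNTT.hR HNTT.small HNTT.hgens (Gen.z, true)
    have h3 : letterOf HNTT.D.lets (Gen.z, true) = 4 := by decide +kernel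
    rw [h3] at h2
    have h4 : PE.el (elG HNTT.D HNTT.RR) (.lt 4) = zG := h2
    rwa [h4] at h1
  let π : GG →* GG ⧸ M := QuotientGroup.mk' M
  have hπ : ∀ g, π g = 1 ↔ g ∈ M := fun g => QuotientGroup.eq_one_iff g
  have hk := kill (π xG) (π yG) (π zG) (π tG) ((hπ _).2 hz)
    (by rw [← map_pow, r_y6, map_one]) (by rw [← map_mul, ← map_pow, r_xy8, map_one])
    (by simpa only [map_mul, map_pow, map_inv, map_one] using congrArg π r_3)
    (by rw [← map_mul, ← map_pow, r_zx, map_one])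
    (by simpa only [map_mul, map_pow, map_inv, map_one] using congrArg π r_10)
    (by rw [← map_pow, r_t5, map_one])
    (by rw [← map_mul, ← map_pow, r_zt, map_one])
  rw [eq_top_iff, ← PresentedGroup.closure_range_of RG, Subgroup.closure_le]
  rintro _ ⟨b, rfl⟩
  cases b with
  | x => exact (hπ _).1 hk.1
  | y => exact (hπ _).1 hk.2.1
  | z => exact hz
  | t => exact (hπ _).1 hk.2.2

/-! ### The orbits -/

theorem orbit_eq (q : GG ⧸ BB) : MulAction.orbit BB q = Set.range (fun h : PP => eG h • q) := by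
  ext u
  constructor
  · rintro ⟨⟨b, hb⟩, rfl⟩
    rw [← eG_range] at hb
    obtain ⟨h, rfl⟩ := hb
    exact ⟨h, rfl⟩
  · rintro ⟨h, rfl⟩
    exact ⟨⟨eG h, by rw [← eG_range]; exact ⟨h, rfl⟩⟩, rfl⟩

/-- the sizes of the orbits -/
def szL : List ℕ := [1, 1408, 35200, 2200, 123200, 354816, 739200, 277200, 5775]

/-- the size of an orbit -/
def sz (d : ℕ) : ℕ := szL.getD d 0

/-- a point of an orbit -/
noncomputable def qq (d : ℕ) : GG ⧸ BB := W HNDC.d xx p0 (HNDC.Lv.getD d 0)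

theorem hsz : ∀ d, d < 9 → nat_lit 177408000 / ((HNDC.kls (HNDC.Lv.getD d 0)).map (·.n)).prod = sz d := by
  decide +kernel

theorem hLv : ∀ d, d < 9 → HNDC.Lv.getD d 0 ∈ HNDC.Lv := by decide +kernel

theorem hLv' : ∀ s ∈ HNDC.Lv, ∃ d, d < 9 ∧ HNDC.Lv.getD d 0 = s := by decide +kernel

theorem orbit_le (d : ℕ) (hd : d < 9) : (MulAction.orbit BB (qq d)).ncard ≤ sz d := by
  haveI := HNBound.finP
  rw [orbit_eq, ← hsz d hd]
  have hs := hLv d hd
  have h1 := ncard_range_le_div eG (qq d)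
    (c := ((HNDC.kls (HNDC.Lv.getD d 0)).map (·.n)).prod)
    (Nat.le_of_ble_eq_true (List.all_eq_true.1 HNDC.posAll _ hs))
    (ok.chain_bound hN (List.all_eq_true.1 HNDC.keAll _ hs) (List.all_eq_true.1 HNDC.chAll _ hs))
  rw [main.2.1] at h1
  exact h1

theorem orbit_cov (q : GG ⧸ BB) : ∃ d, d < 9 ∧ q ∈ MulAction.orbit BB (qq d) := by
  obtain ⟨g, rfl⟩ := htrans q
  obtain ⟨s, hs, h, h3⟩ := ok.all_in_orb hN (Lv := HNDC.Lv) (Tr := HNDC.Tr) (fuel := HNDC.fuel)
    (fun r hr c hc => allFrom_spec (List.all_eq_true.1 HNDC.covAll r hr) c (Nat.zero_le _) (by simpa using hc))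
    (by decide +kernel) (by decide +kernel) hgen g
  obtain ⟨d, hd, rfl⟩ := hLv' s hs
  refine ⟨d, hd, ?_⟩
  rw [orbit_eq]
  exact ⟨h, h3.symm⟩

theorem sum_sz : ∑ d ∈ Finset.range 9, sz d = 1539000 := by decide +kernel

theorem orbits_ok : (∀ d, d < 9 → (MulAction.orbit BB (qq d)).ncard = sz d) ∧
    (∀ d d', d < 9 → d' < 9 → d ≠ d' → MulAction.orbit BB (qq d) ≠ MulAction.orbit BB (qq d')) := by
  haveI := card_le.1
  refine cover_exact (fun d => MulAction.orbit BB (qq d)) sz orbit_le orbit_cov ?_ ?_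
  · rw [sum_sz]
    exact index_eq.symm
  · decide +kernel

/-- The presented group is simple of the expected order. -/
theorem simple : IsSimpleGroup GG := by
  haveI := finG
  refine simple_crit BB (N := 1539000) (k := 9) (p := 19) (a := 1) (b := 1) index_eq hcore qq sz orbits_ok.1 orbits_ok.2
    sum_sz (by norm_num) rfl (by intro d h h'; interval_cases d <;> decide) (by decide +kernel) (by norm_num)
    (by norm_num) ?_ (HNF.rr.el (elG HNTT.D HNTT.RR)) ?_ ?_ hgenM
  · rw [card_G]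
    norm_num
  · have h1 := el_eq _ _ HNF.rPow
    rw [PE.el_pw] at h1
    exact h1
  · intro h1
    apply HNF.rNe
    have hev := ev0_okP HNTT.hR HNTT.small HNTT.big HNTT.hgens
    have hx0 : HNF.x0 < HNTT.cfg.N := by decide +kernel
    have h2 := (PE.ev_spec hev HNF.rr ⟨HNF.x0, hx0⟩).1
    rw [← PE.el_map, h1, map_one] at h2
    exact h2

end Cfsg.Agent.Lib.Compute.HNTop
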