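import Cfsg.Agent.Lib.Compute.M24CenT8

/-!
# The centralizer of an involution of `M24` and the centralizer of a transvection in `SL(5, 2)`

The sixteen points moved by `t8P` form an affine space of dimension 4 on which the centralizer acts by affine maps.
These maps are given by the matrices of the centralizer of a transvection.
-/

set_option autoImplicit false

namespace Cfsg.Agent.Lib.Compute.M24

open Cfsg Cfsg.Agent.Lib.Compute.Golay Cfsg.Agent.Lib.Compute.GolayFast
open Matrix

/-- Vectors over the field with two elements. -/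
abbrev V5 := Fin 5 → ZMod 2

/-- Matrices over the field with two elements. -/
abbrev M5 := Matrix (Fin 5) (Fin 5) (ZMod 2)

/-- A bit as an element of the field. -/
def b2z (b : Bool) : ZMod 2 := if b = true then 1 else 0

theorem b2z_xor (a b : Bool) : b2z (xor a b) = b2z a + b2z b := by
  cases a <;> cases b <;> decide

theorem b2z_and (a b : Bool) : b2z (a && b) = b2z a * b2z b := by
  cases a <;> cases b <;> decide

theorem b2z_inj {a b : Bool} (h : b2z a = b2z b) : a = b := by
  revert h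
  cases a <;> cases b <;> decide

/-- The vector with given bits. -/
def bitsV (n : ℕ) : V5 := fun j => b2z (n.testBit j.val)

/-- The matrix with columns given by their bits. -/
def matOf (cs : List ℕ) : M5 := Matrix.of fun j k => b2z ((cs.getD k.val 0).testBit j.val)

/-- The sum of the columns selected by the bits of `n`. -/
def xorC (cs : List ℕ) (n : ℕ) : ℕ :=
  (if n.testBit 0 then cs.getD 0 0 else 0) ^^^ (if n.testBit 1 then cs.getD 1 0 else 0) ^^^
    (if n.testBit 2 then cs.getD 2 0 else 0) ^^^ (if n.testBit 3 then cs.getD 3 0 else 0) ^^^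
      (if n.testBit 4 then cs.getD 4 0 else 0)

theorem testBit_ite (b : Bool) (c j : ℕ) : (if b = true then c else 0).testBit j = (b && c.testBit j) := by
  cases b <;> simp

theorem matOf_mulVec (cs : List ℕ) (n : ℕ) : matOf cs *ᵥ bitsV n = bitsV (xorC cs n) := by
  funext j
  simp only [Matrix.mulVec, dotProduct, Fin.sum_univ_five, matOf, Matrix.of_apply, bitsV, xorC, Nat.testBit_xor,
    testBit_ite, b2z_xor, b2z_and]
  simp only [Fin.val_zero, Fin.val_one, Fin.val_two]
  have h3 : ((3 : Fin 5) : ℕ) = 3 := rfl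
  have h4 : ((4 : Fin 5) : ℕ) = 4 := rfl
  rw [h3, h4]
  ring

/-- The coordinates of the sixteen points. -/
def Btab : List ℕ := [0,0,0,0,2,0,3,18,27,15,30,31,14,6,0,11,23,0,10,7,26,22,19,0]

/-- The sixteen points. -/
def C0L : List ℕ := [4,6,7,8,9,10,11,12,13,15,16,18,19,20,21,22]

/-- The coordinates of a point. -/
def beta (p : GolayPt) : V5 := bitsV (Btab.getD (ptIdx p) 0)

/-- The columns of the affine map of a coded permutation. -/
def colsOf (L : List ℕ) : List ℕ :=
  [Btab.getD (L.getD 6 0) 0 ^^^ Btab.getD (L.getD 4 0) 0, Btab.getD (L.getD 4 0) 0,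
    Btab.getD (L.getD 13 0) 0 ^^^ Btab.getD (L.getD 4 0) 0, Btab.getD (L.getD 18 0) 0 ^^^ Btab.getD (L.getD 4 0) 0,
    Btab.getD (L.getD 7 0) 0 ^^^ Btab.getD (L.getD 4 0) 0]

/-- The check that a coded permutation is affine on the sixteen points. -/
def affL (L : List ℕ) : Bool := C0L.all (fun p => Btab.getD (L.getD p 0) 0 == xorC (colsOf L) (Btab.getD p 0))

/-- `g` acts on the sixteen points by the matrix `M`. -/
def AffBy (g : P) (M : M5) : Prop := ∀ p, t8P p ≠ p → beta (g p) = M *ᵥ beta p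

theorem C0L_complete : ∀ i : Fin 24, O8.testBit i.val = false → i.val ∈ C0L := by decide +kernel

theorem mem_C0L {p : GolayPt} (h : t8P p ≠ p) : ptIdx p ∈ C0L := by
  refine C0L_complete ⟨ptIdx p, ptIdx_lt p⟩ ?_
  rw [← Bool.not_eq_true, mem_O8_iff]
  exact h

theorem affBy_of_affL {g : P} (h : affL (toL (g : GolayPt → GolayPt)) = true) :
    AffBy g (matOf (colsOf (toL (g : GolayPt → GolayPt)))) := by
  intro p hp
  have h1 := List.all_eq_true.1 h _ (mem_C0L hp)
  simp only [beq_iff_eq] at h1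
  rw [getD_toL g (ptIdx_lt p), idxPt_ptIdx] at h1
  rw [beta, beta, matOf_mulVec, h1]

theorem comm_t8 {g : P} (hg : g ∈ Cen t8P) (p : GolayPt) : t8P (g p) = g (t8P p) := by
  have hc := (mem_Cen.1 hg).2
  have := congrArg (fun f : P => f p) hc
  simpa using this.symm

theorem moved_of_cen {g : P} (hg : g ∈ Cen t8P) {p : GolayPt} (hp : t8P p ≠ p) : t8P (g p) ≠ g p := by
  rw [comm_t8 hg]
  exact fun h => hp (g.injective h)

theorem affBy_mul {g h : P} {M M' : M5} (hg : AffBy g M) (hh : AffBy h M') (hc : h ∈ Cen t8P) :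
    AffBy (g * h) (M * M') := by
  intro p hp
  rw [Equiv.Perm.mul_apply, hg _ (moved_of_cen hc hp), hh p hp, Matrix.mulVec_mulVec]

theorem affBy_one : AffBy 1 1 := by
  intro p _
  simp

theorem gens_aff : lvlC8.all (fun lv => lv.T.all (fun L => affL L && memCen t8L L)) = true := by decide +kernel

theorem closure_aff {g : P} (hcl : g ∈ Subgroup.closure (chainGens lvlC8)) : g ∈ Cen t8P ∧ ∃ M, AffBy g M := by
  induction hcl using Subgroup.closure_induction with
  | mem x hx =>
    obtain ⟨lv, hlv, L, hL, hc⟩ := hx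
    have h1 := List.all_eq_true.1 (List.all_eq_true.1 gens_aff lv hlv) L hL
    simp only [Bool.and_eq_true] at h1
    have hv : validL L = true := memCen_valid h1.2
    have hLt : L = toL x := toL_eq_of_codes hv hc
    refine ⟨memCen_mem (by rw [t8P_toL]; exact h1.2) hc, _, affBy_of_affL (by rw [← hLt]; exact h1.1)⟩
  | one => exact ⟨Subgroup.one_mem _, 1, affBy_one⟩
  | mul x y _ _ hx hy =>
    obtain ⟨h1, M, hM⟩ := hx
    obtain ⟨h2, M', hM'⟩ := hy
    exact ⟨Subgroup.mul_mem _ h1 h2, M * M', affBy_mul hM hM' h2⟩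
  | inv x _ hx =>
    obtain ⟨h1, M, hM⟩ := hx
    have hpow : ∀ n : ℕ, ∃ M', AffBy (x ^ n) M' := by
      intro n
      induction n with
      | zero => exact ⟨1, by simpa using affBy_one⟩
      | succ n ih =>
        obtain ⟨M', hM'⟩ := ih
        exact ⟨M' * M, by rw [pow_succ]; exact affBy_mul hM' hM h1⟩
    refine ⟨Subgroup.inv_mem _ h1, ?_⟩
    have hpos : 0 < orderOf x := orderOf_pos x
    have h3 : x⁻¹ = x ^ (orderOf x - 1) := by
      apply inv_eq_of_mul_eq_one_right
      rw [← pow_succ', Nat.sub_add_cancel hpos, pow_orderOf_eq_one]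
    rw [h3]
    exact hpow _

/-- Every element of the centralizer acts by a matrix. -/
theorem exists_aff {g : P} (hg : g ∈ Cen t8P) : ∃ M, AffBy g M := by
  have hg' : g ∈ fixIn (Cen t8P) [] := by rwa [fixIn_nil]
  exact (closure_aff (chain_genB ctxC8 FallC fixC8_trivial [] lvlC8 lvlC8_ok g hg')).2

/-! ### The matrices -/

/-- The frame of the affine space. -/
theorem frame_pts : t8P (idxPt 6) ≠ idxPt 6 ∧ t8P (idxPt 4) ≠ idxPt 4 ∧ t8P (idxPt 13) ≠ idxPt 13 ∧
    t8P (idxPt 18) ≠ idxPt 18 ∧ t8P (idxPt 7) ≠ idxPt 7 := by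
  have key : ∀ i : ℕ, i < 24 → O8.testBit i = false → t8P (idxPt i) ≠ idxPt i := by
    intro i hi h he
    have := (mem_O8_iff (idxPt i)).2 he
    rw [ptIdx_idxPt hi, h] at this
    exact absurd this (by decide)
  exact ⟨key 6 (by norm_num) (by decide +kernel), key 4 (by norm_num) (by decide +kernel),
    key 13 (by norm_num) (by decide +kernel), key 18 (by norm_num) (by decide +kernel),
    key 7 (by norm_num) (by decide +kernel)⟩

theorem beta_idx {i : ℕ} (hi : i < 24) : beta (idxPt i) = bitsV (Btab.getD i 0) := by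
  rw [beta, ptIdx_idxPt hi]

theorem bits_frame : bitsV (Btab.getD 4 0) = ![0, 1, 0, 0, 0] ∧ bitsV (Btab.getD 6 0) = ![1, 1, 0, 0, 0] ∧
    bitsV (Btab.getD 13 0) = ![0, 1, 1, 0, 0] ∧ bitsV (Btab.getD 18 0) = ![0, 1, 0, 1, 0] ∧
    bitsV (Btab.getD 7 0) = ![0, 1, 0, 0, 1] := by
  refine ⟨?_, ?_, ?_, ?_, ?_⟩ <;> decide +kernel

theorem mulVec_five (M : M5) (a b c d e : ZMod 2) (j : Fin 5) :
    (M *ᵥ ![a, b, c, d, e]) j = M j 0 * a + M j 1 * b + M j 2 * c + M j 3 * d + M j 4 * e := by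
  simp [Matrix.mulVec, dotProduct, Fin.sum_univ_five]

/-- A matrix is determined by its action on the frame. -/
theorem mat_ext_frame {M M' : M5} (h : ∀ p, t8P p ≠ p → M *ᵥ beta p = M' *ᵥ beta p) : M = M' := by
  obtain ⟨h6, h4, h13, h18, h7⟩ := frame_pts
  obtain ⟨b4, b6, b13, b18, b7⟩ := bits_frame
  have e4 := h _ h4
  have e6 := h _ h6
  have e13 := h _ h13
  have e18 := h _ h18
  have e7 := h _ h7
  rw [beta_idx (by norm_num), b4] at e4
  rw [beta_idx (by norm_num), b6] at e6
  rw [beta_idx (by norm_num), b13] at e13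
  rw [beta_idx (by norm_num), b18] at e18
  rw [beta_idx (by norm_num), b7] at e7
  ext j k
  have f4 := congrFun e4 j
  have f6 := congrFun e6 j
  have f13 := congrFun e13 j
  have f18 := congrFun e18 j
  have f7 := congrFun e7 j
  simp only [mulVec_five, mul_zero, mul_one, zero_add, add_zero] at f4 f6 f13 f18 f7
  rw [f4] at f6 f13 f18 f7
  have c0 : M j 0 = M' j 0 := add_right_cancel f6
  have c2 : M j 2 = M' j 2 := add_left_cancel f13
  have c3 : M j 3 = M' j 3 := add_left_cancel f18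
  have c4 : M j 4 = M' j 4 := add_left_cancel f7
  fin_cases k
  · exact c0
  · exact f4
  · exact c2
  · exact c3
  · exact c4

/-- The matrix of an element of the centralizer. -/
noncomputable def thetaM (g : P) (hg : g ∈ Cen t8P) : M5 := (exists_aff hg).choose

theorem thetaM_spec (g : P) (hg : g ∈ Cen t8P) : AffBy g (thetaM g hg) := (exists_aff hg).choose_spec

theorem thetaM_eq {g : P} (hg : g ∈ Cen t8P) {M : M5} (h : AffBy g M) : thetaM g hg = M := by
  apply mat_ext_frame
  intro p hp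
  rw [← thetaM_spec g hg p hp, h p hp]

theorem thetaM_mul {g h : P} (hg : g ∈ Cen t8P) (hh : h ∈ Cen t8P) :
    thetaM (g * h) ((Cen t8P).mul_mem hg hh) = thetaM g hg * thetaM h hh :=
  thetaM_eq _ (affBy_mul (thetaM_spec g hg) (thetaM_spec h hh) hh)

theorem thetaM_one : thetaM 1 (Cen t8P).one_mem = 1 := thetaM_eq _ affBy_one

theorem det_thetaM {g : P} (hg : g ∈ Cen t8P) : (thetaM g hg).det = 1 := by
  have h1 : thetaM g hg * thetaM g⁻¹ ((Cen t8P).inv_mem hg) = 1 := by
    rw [← thetaM_mul]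
    exact thetaM_eq _ (by rw [mul_inv_cancel]; exact affBy_one)
  have h2 := congrArg Matrix.det h1
  rw [Matrix.det_mul, Matrix.det_one] at h2
  have key : ∀ x y : ZMod 2, x * y = 1 → x = 1 := by decide
  exact key _ _ h2

/-- The transvection as a matrix with given columns. -/
theorem t8_mat : matOf (colsOf t8L) = Matrix.transvection (0 : Fin 5) (1 : Fin 5) (1 : ZMod 2) := by
  decide +kernel

theorem t8_cen : t8P ∈ Cen t8P := mem_Cen.2 ⟨t8P_mem, rfl⟩

theorem t8_affL : affL t8L = true := by decide +kernel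

theorem thetaM_t8 : thetaM t8P t8_cen = Matrix.transvection (0 : Fin 5) (1 : Fin 5) (1 : ZMod 2) := by
  apply thetaM_eq
  rw [← t8_mat, ← t8P_toL]
  exact affBy_of_affL (by rw [t8P_toL]; exact t8_affL)

/-- The levels showing that the sixteen points form a base. -/
def lvC0 : List Level := [
  ⟨0, [[0,1,2,3,4,5,6,7,8,9,10,11,12,13,14,15,16,17,18,19,20,21,22,23]], [8654232,525274,1050548,9440193]⟩,
  ⟨1, [[0,1,2,3,4,5,6,7,8,9,10,11,12,13,14,15,16,17,18,19,20,21,22,23]], [8391797,262637,525274]⟩,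
  ⟨2, [[0,1,2,3,4,5,6,7,8,9,10,11,12,13,14,15,16,17,18,19,20,21,22,23]], [8391797,262637,2101096]⟩,
  ⟨3, [[0,1,2,3,4,5,6,7,8,9,10,11,12,13,14,15,16,17,18,19,20,21,22,23]], [8391797,262637]⟩,
  ⟨5, [[0,1,2,3,4,5,6,7,8,9,10,11,12,13,14,15,16,17,18,19,20,21,22,23]], [8391797,262637]⟩,
  ⟨14, [[0,1,2,3,4,5,6,7,8,9,10,11,12,13,14,15,16,17,18,19,20,21,22,23]], [8391797,133817]⟩,
  ⟨17, [[0,1,2,3,4,5,6,7,8,9,10,11,12,13,14,15,16,17,18,19,20,21,22,23]], [8391797]⟩,
  ⟨23, [[0,1,2,3,4,5,6,7,8,9,10,11,12,13,14,15,16,17,18,19,20,21,22,23]], []⟩]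

theorem lvC0_ok : chainCheck inM24 [] C0L lvC0 = true := by decide +kernel

theorem fixC0_trivial {g : P} (hg : g ∈ M24) (h : ∀ p, t8P p ≠ p → g p = p) : g = 1 := by
  have h1 := chain_card ctxM24 C0L lvC0 lvC0_ok
  have h2 : chainOrder lvC0 = 1 := by decide +kernel
  rw [h2] at h1
  have hmem : g ∈ fixIn M24 C0L := by
    refine ⟨hg, fun i hi => ?_⟩
    have hi' := (show ∀ i ∈ C0L, i < 24 ∧ O8.testBit i = false by decide +kernel) i hi
    apply h
    intro he
    have := (mem_O8_iff (idxPt i)).2 he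
    rw [ptIdx_idxPt hi'.1, hi'.2] at this
    exact absurd this (by decide)
  have h3 : Subsingleton (fixIn M24 C0L) := (Nat.card_eq_one_iff_unique.1 h1).1
  have := h3.elim ⟨g, hmem⟩ 1
  exact congrArg Subtype.val this

theorem bitsV_inj {n m : ℕ} (hn : n < 32) (hm : m < 32) (h : bitsV n = bitsV m) : n = m := by
  apply Nat.eq_of_testBit_eq
  intro i
  by_cases hi : i < 5
  · have := congrFun h ⟨i, hi⟩
    exact b2z_inj this
  · have h1 : (32 : ℕ) ≤ 2 ^ i := by
      calc 32 = 2 ^ 5 := by norm_num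
        _ ≤ 2 ^ i := Nat.pow_le_pow_right (by norm_num) (by omega)
    rw [Nat.testBit_lt_two_pow (by omega), Nat.testBit_lt_two_pow (by omega)]

theorem Btab_inj : ∀ i ∈ C0L, ∀ j ∈ C0L, Btab.getD i 0 = Btab.getD j 0 → i = j := by decide +kernel

theorem Btab_lt : ∀ i ∈ C0L, Btab.getD i 0 < 32 := by decide +kernel

theorem beta_inj {p q : GolayPt} (hp : t8P p ≠ p) (hq : t8P q ≠ q) (h : beta p = beta q) : p = q := by
  have h1 := bitsV_inj (Btab_lt _ (mem_C0L hp)) (Btab_lt _ (mem_C0L hq)) h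
  exact ptIdx_injective (Btab_inj _ (mem_C0L hp) _ (mem_C0L hq) h1)

/-! ### The structure of the centralizer of the transvection -/

/-- The transvection in the statement. -/
abbrev tv : M5 := Matrix.transvection (0 : Fin 5) (1 : Fin 5) (1 : ZMod 2)

theorem tv_mul_apply (A : M5) (i j : Fin 5) : (A * tv) i j = A i j + if j = 1 then A i 0 else 0 := by
  simp only [tv, Matrix.transvection, mul_add, mul_one, Matrix.add_apply, add_right_inj]
  by_cases hj : j = 1
  · subst hj
    simp [Matrix.mul_single_apply_same]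
  · simp [Matrix.mul_single_apply_of_ne, hj]

theorem mul_tv_apply (A : M5) (i j : Fin 5) : (tv * A) i j = A i j + if i = 0 then A 1 j else 0 := by
  simp only [tv, Matrix.transvection, add_mul, one_mul, Matrix.add_apply, add_right_inj]
  by_cases hi : i = 0
  · subst hi
    simp [Matrix.single_mul_apply_same]
  · simp [Matrix.single_mul_apply_of_ne, hi]

/-- The entries of a matrix commuting with the transvection. -/
theorem entries_of_comm {A : M5} (hdet : A.det = 1) (hc : A * tv = tv * A) :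
    (∀ i, i ≠ 0 → A i 0 = 0) ∧ A 0 0 = 1 ∧ A 1 1 = 1 ∧ (∀ j, j ≠ 1 → A 1 j = 0) := by
  have h := fun i j => congrFun (congrFun hc i) j
  simp only [tv_mul_apply, mul_tv_apply, add_right_inj] at h
  have h1 : ∀ i, i ≠ 0 → A i 0 = 0 := by
    intro i hi
    have := h i 1
    simpa [hi] using this
  have h2 : ∀ j, j ≠ 1 → A 1 j = 0 := by
    intro j hj
    have := h 0 j
    simpa [hj, eq_comm] using this
  have h3 : A 0 0 = A 1 1 := by
    have := h 0 1
    simpa using this
  have h4 : A 0 0 ≠ 0 := by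
    intro h0
    have : A.det = 0 := by
      apply Matrix.det_eq_zero_of_column_eq_zero 0
      intro i
      by_cases hi : i = 0
      · rw [hi]
        exact h0
      · exact h1 i hi
    rw [this] at hdet
    exact absurd hdet (by decide)
  have h5 : ∀ x : ZMod 2, x ≠ 0 → x = 1 := by decide
  exact ⟨h1, h5 _ h4, h3 ▸ h5 _ h4, h2⟩

/-- The centralizer of the transvection. -/
abbrev CS (s : Matrix.SpecialLinearGroup (Fin 5) (ZMod 2)) : Subgroup (Matrix.SpecialLinearGroup (Fin 5) (ZMod 2)) :=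
  Subgroup.centralizer ({s} : Set (Matrix.SpecialLinearGroup (Fin 5) (ZMod 2)))

theorem mem_CS_comm {s A : Matrix.SpecialLinearGroup (Fin 5) (ZMod 2)} (hs : (s : M5) = tv) (hA : A ∈ CS s) :
    (A : M5) * tv = tv * (A : M5) := by
  have h1 := Subgroup.mem_centralizer_iff.1 hA s rfl
  have h2 := congrArg (fun X : Matrix.SpecialLinearGroup (Fin 5) (ZMod 2) => (X : M5)) h1
  simp only [Matrix.SpecialLinearGroup.coe_mul, hs] at h2
  exact h2.symm

/-- The index map into the lower right block. -/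
def ι3 : Fin 3 → Fin 5 := ![2, 3, 4]

/-- The lower right block of a matrix. -/
def blockD (A : M5) : Matrix (Fin 3) (Fin 3) (ZMod 2) := Matrix.of fun i j => A (ι3 i) (ι3 j)

theorem blockD_mul {A B : M5} (hA : ∀ i, i ≠ 0 → A i 0 = 0) (hB : ∀ j, j ≠ 1 → B 1 j = 0) :
    blockD (A * B) = blockD A * blockD B := by
  ext i j
  have hi : ι3 i ≠ 0 := by
    fin_cases i <;> decide
  have hj : ι3 j ≠ 1 := by
    fin_cases j <;> decide
  simp only [blockD, Matrix.of_apply, Matrix.mul_apply, Fin.sum_univ_five, Fin.sum_univ_three, hA _ hi, hB _ hj,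
    zero_mul, mul_zero, zero_add]
  rfl

theorem blockD_one : blockD (1 : M5) = 1 := by
  ext i j
  fin_cases i <;> fin_cases j <;> decide

/-- The matrix of an element of the centralizer of the transvection. -/
abbrev matCS {s : Matrix.SpecialLinearGroup (Fin 5) (ZMod 2)} (A : ↥(CS s)) : M5 :=
  ((A : Matrix.SpecialLinearGroup (Fin 5) (ZMod 2)) : M5)

theorem matCS_mul {s : Matrix.SpecialLinearGroup (Fin 5) (ZMod 2)} (A B : ↥(CS s)) : matCS (A * B) = matCS A * matCS B := rfl

theorem matCS_one {s : Matrix.SpecialLinearGroup (Fin 5) (ZMod 2)} : matCS (1 : ↥(CS s)) = 1 := rfl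

theorem entries_CS {s : Matrix.SpecialLinearGroup (Fin 5) (ZMod 2)} (hs : (s : M5) = tv) (A : ↥(CS s)) :
    (∀ i, i ≠ 0 → matCS A i 0 = 0) ∧ matCS A 0 0 = 1 ∧ matCS A 1 1 = 1 ∧ (∀ j, j ≠ 1 → matCS A 1 j = 0) :=
  entries_of_comm (A : Matrix.SpecialLinearGroup (Fin 5) (ZMod 2)).2 (mem_CS_comm hs A.2)

/-- The block as an invertible matrix. -/
noncomputable def blockU {s : Matrix.SpecialLinearGroup (Fin 5) (ZMod 2)} (hs : (s : M5) = tv) (A : ↥(CS s)) :
    (Matrix (Fin 3) (Fin 3) (ZMod 2))ˣ where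
  val := blockD (matCS A)
  inv := blockD (matCS A⁻¹)
  val_inv := by
    rw [← blockD_mul (entries_CS hs A).1 (entries_CS hs A⁻¹).2.2.2, ← matCS_mul, mul_inv_cancel, matCS_one, blockD_one]
  inv_val := by
    rw [← blockD_mul (entries_CS hs A⁻¹).1 (entries_CS hs A).2.2.2, ← matCS_mul, inv_mul_cancel, matCS_one, blockD_one]

/-- The parameters of an element of the centralizer of the transvection. -/
noncomputable def paramCS {s : Matrix.SpecialLinearGroup (Fin 5) (ZMod 2)} (hs : (s : M5) = tv) (A : ↥(CS s)) :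
    (Fin 4 → ZMod 2) × (Fin 3 → ZMod 2) × (Matrix (Fin 3) (Fin 3) (ZMod 2))ˣ :=
  (![matCS A 0 1, matCS A 0 2, matCS A 0 3, matCS A 0 4], ![matCS A 2 1, matCS A 3 1, matCS A 4 1], blockU hs A)

theorem paramCS_inj {s : Matrix.SpecialLinearGroup (Fin 5) (ZMod 2)} (hs : (s : M5) = tv) :
    Function.Injective (paramCS hs) := by
  intro A B h
  simp only [paramCS, Prod.mk.injEq] at h
  obtain ⟨h1, h2, h3⟩ := h
  obtain ⟨a1, a2, a3, a4⟩ := entries_CS hs A
  obtain ⟨b1, b2, b3, b4⟩ := entries_CS hs B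
  have e01 : matCS A 0 1 = matCS B 0 1 := congrFun h1 0
  have e02 : matCS A 0 2 = matCS B 0 2 := congrFun h1 1
  have e03 : matCS A 0 3 = matCS B 0 3 := congrFun h1 2
  have e04 : matCS A 0 4 = matCS B 0 4 := congrFun h1 3
  have e21 : matCS A 2 1 = matCS B 2 1 := congrFun h2 0
  have e31 : matCS A 3 1 = matCS B 3 1 := congrFun h2 1
  have e41 : matCS A 4 1 = matCS B 4 1 := congrFun h2 2
  have h4 : blockD (matCS A) = blockD (matCS B) := congrArg Units.val h3
  have d : ∀ i j, matCS A (ι3 i) (ι3 j) = matCS B (ι3 i) (ι3 j) := fun i j => congrFun (congrFun h4 i) j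
  have e22 : matCS A 2 2 = matCS B 2 2 := d 0 0
  have e23 : matCS A 2 3 = matCS B 2 3 := d 0 1
  have e24 : matCS A 2 4 = matCS B 2 4 := d 0 2
  have e32 : matCS A 3 2 = matCS B 3 2 := d 1 0
  have e33 : matCS A 3 3 = matCS B 3 3 := d 1 1
  have e34 : matCS A 3 4 = matCS B 3 4 := d 1 2
  have e42 : matCS A 4 2 = matCS B 4 2 := d 2 0
  have e43 : matCS A 4 3 = matCS B 4 3 := d 2 1
  have e44 : matCS A 4 4 = matCS B 4 4 := d 2 2
  have e00 : matCS A 0 0 = matCS B 0 0 := by rw [a2, b2]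
  have e11 : matCS A 1 1 = matCS B 1 1 := by rw [a3, b3]
  have col0 : ∀ i, i ≠ 0 → matCS A i 0 = matCS B i 0 := fun i hi => by rw [a1 i hi, b1 i hi]
  have row1 : ∀ j, j ≠ 1 → matCS A 1 j = matCS B 1 j := fun j hj => by rw [a4 j hj, b4 j hj]
  have e10 := col0 1 (by decide)
  have e20 := col0 2 (by decide)
  have e30 := col0 3 (by decide)
  have e40 := col0 4 (by decide)
  have e12 := row1 2 (by decide)
  have e13 := row1 3 (by decide)
  have e14 := row1 4 (by decide)
  have hall : ∀ i j, matCS A i j = matCS B i j := by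
    intro i j
    fin_cases i <;> fin_cases j
    exacts [e00, e01, e02, e03, e04, e10, e11, e12, e13, e14, e20, e21, e22, e23, e24, e30, e31, e32, e33, e34, e40,
      e41, e42, e43, e44]
  apply Subtype.ext
  apply Subtype.ext
  ext i j
  exact hall i j

theorem card_param : Nat.card ((Fin 4 → ZMod 2) × (Fin 3 → ZMod 2) × (Matrix (Fin 3) (Fin 3) (ZMod 2))ˣ) = 21504 := by
  have h1 : Nat.card (Matrix (Fin 3) (Fin 3) (ZMod 2))ˣ = 168 := by
    have := Matrix.card_GL_field (𝔽 := ZMod 2) 3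
    rw [this]
    simp [Fin.prod_univ_three, ZMod.card]
  rw [Nat.card_prod, Nat.card_prod, h1]
  simp [Nat.card_eq_fintype_card, ZMod.card]

theorem card_CS_le {s : Matrix.SpecialLinearGroup (Fin 5) (ZMod 2)} (hs : (s : M5) = tv) : Nat.card ↥(CS s) ≤ 21504 := by
  rw [← card_param]
  exact Nat.card_le_card_of_injective _ (paramCS_inj hs)

theorem thetaM_congr {g g' : P} (h : g = g') (hg : g ∈ Cen t8P) (hg' : g' ∈ Cen t8P) : thetaM g hg = thetaM g' hg' := by
  subst h
  rfl

/-- The map from the centralizer in `M24` to the centralizer of the transvection. -/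
noncomputable def thetaF {s : Matrix.SpecialLinearGroup (Fin 5) (ZMod 2)} (hs : (s : M5) = tv) (g : ↥(Cen t8P)) : ↥(CS s) :=
  ⟨(⟨thetaM g g.2, det_thetaM g.2⟩ : Matrix.SpecialLinearGroup (Fin 5) (ZMod 2)), Subgroup.mem_centralizer_iff.2 (by
    intro y hy
    obtain rfl : y = s := hy
    apply Subtype.ext
    show (y : M5) * thetaM g g.2 = thetaM g g.2 * (y : M5)
    have ht : tv = thetaM t8P t8_cen := thetaM_t8.symm
    rw [hs, ht, ← thetaM_mul, ← thetaM_mul]
    exact thetaM_congr (mem_Cen.1 g.2).2.symm _ _)⟩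

/-- The homomorphism from the centralizer in `M24` to the centralizer of the transvection. -/
noncomputable def thetaHom {s : Matrix.SpecialLinearGroup (Fin 5) (ZMod 2)} (hs : (s : M5) = tv) :
    ↥(Cen t8P) →* ↥(CS s) :=
  MonoidHom.mk' (thetaF hs) (by
    intro a b
    apply Subtype.ext
    apply Subtype.ext
    exact thetaM_mul a.2 b.2)

theorem thetaHom_inj {s : Matrix.SpecialLinearGroup (Fin 5) (ZMod 2)} (hs : (s : M5) = tv) :
    Function.Injective (thetaHom hs) := by
  rw [injective_iff_map_eq_one]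
  intro g hg
  have h1 : thetaM g g.2 = 1 := congrArg (fun X : ↥(CS s) => ((X : Matrix.SpecialLinearGroup (Fin 5) (ZMod 2)) : M5)) hg
  apply Subtype.ext
  refine fixC0_trivial (mem_Cen.1 g.2).1 ?_
  intro p hp
  have h2 := thetaM_spec g g.2 p hp
  rw [h1, Matrix.one_mulVec] at h2
  exact beta_inj (moved_of_cen g.2 hp) hp h2

theorem thetaHom_bij {s : Matrix.SpecialLinearGroup (Fin 5) (ZMod 2)} (hs : (s : M5) = tv) :
    Function.Bijective (thetaHom hs) :=
  (thetaHom_inj hs).bijective_of_nat_card_le (by rw [card_C8]; exact card_CS_le hs)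

/-- The element of `M24`. -/
noncomputable def z8 : ↥Cfsg.M24 := ⟨t8P, t8P_mem⟩

theorem z8_order : orderOf z8 = 2 := by
  rw [← Subgroup.orderOf_coe]
  exact orderOf_eq_two_of t8_sq t8_ne

/-- The map between the two forms of the centralizer in `M24`. -/
noncomputable def cenEquiv : ↥(Subgroup.centralizer ({z8} : Set ↥Cfsg.M24)) ≃* ↥(Cen t8P) where
  toFun g := ⟨((g : ↥Cfsg.M24) : P), mem_Cen.2 ⟨(g : ↥Cfsg.M24).2, by
    have h1 := Subgroup.mem_centralizer_iff.1 g.2 z8 rfl
    exact (congrArg Subtype.val h1).symm⟩⟩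
  invFun g := ⟨⟨(g : P), (mem_Cen.1 g.2).1⟩, by
    rw [Subgroup.mem_centralizer_iff]
    intro y hy
    obtain rfl : y = z8 := hy
    apply Subtype.ext
    exact (mem_Cen.1 g.2).2.symm⟩
  left_inv g := rfl
  right_inv g := rfl
  map_mul' a b := rfl

/-- The statement. -/
theorem cen_t8_iso (s : Matrix.SpecialLinearGroup (Fin 5) (ZMod 2))
    (hs : (s : Matrix (Fin 5) (Fin 5) (ZMod 2)) = Matrix.transvection 0 1 1) :
    ∃ z : ↥Cfsg.M24, orderOf z = 2 ∧ Nonempty (↥(Subgroup.centralizer ({z} : Set ↥Cfsg.M24)) ≃*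
      ↥(Subgroup.centralizer ({s} : Set (Matrix.SpecialLinearGroup (Fin 5) (ZMod 2))))) :=
  ⟨z8, z8_order, ⟨cenEquiv.trans (MulEquiv.ofBijective (thetaHom hs) (thetaHom_bij hs))⟩⟩

end Cfsg.Agent.Lib.Compute.M24
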