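/-
Small matrices over a prime field, applied to vectors coded as natural numbers, with an evaluation of
words in the matrices fast enough for the kernel.
-/
import Mathlib
import Cfsg.Agent.Lib.Compute.ToddCoxeterCore

set_option autoImplicit false

namespace Cfsg.Agent.Lib.Compute.PMat

open Matrix
open Cfsg.Agent.Lib.Compute.ToddCoxeterCore

/-- The first `d` digits in base 16. -/
def digs : ℕ → ℕ → List ℕ
  | 0, _ => []
  | d + 1, n => (n % 16) :: digs d (n / 16)

/-- The code of a list of digits. -/
def cod : List ℕ → ℕ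
  | [] => 0
  | a :: l => a + 16 * cod l

theorem digs_length (d n : ℕ) : (digs d n).length = d := by
  induction d generalizing n with
  | zero => rfl
  | succ d ih => simp [digs, ih]

theorem digs_cod : ∀ l : List ℕ, (∀ a ∈ l, a < 16) → digs l.length (cod l) = l
  | [], _ => rfl
  | a :: l, h => by
    have h1 : a < 16 := h a (by simp)
    have h2 := digs_cod l (fun b hb => h b (by simp [hb]))
    simp only [List.length_cons, digs, cod]
    have e1 : (a + 16 * cod l) % 16 = a := by omega
    have e2 : (a + 16 * cod l) / 16 = cod l := by omega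
    rw [e1, e2, h2]

/-- The dot product of two lists. -/
def dot : List ℕ → List ℕ → ℕ
  | a :: r, b :: v => a * b + dot r v
  | _, _ => 0

/-- The vector of a code. -/
def toV (p d n : ℕ) : Fin d → ZMod p := fun i => (((digs d n).getD i 0 : ℕ) : ZMod p)

/-- The matrix of a list of rows. -/
def toM (p d : ℕ) (A : List (List ℕ)) : Matrix (Fin d) (Fin d) (ZMod p) :=
  fun i j => (((A.getD i []).getD j 0 : ℕ) : ZMod p)

theorem dot_cast (p : ℕ) : ∀ (d : ℕ) (r w : List ℕ), r.length = d → w.length = d →
    ((dot r w : ℕ) : ZMod p) = ∑ j : Fin d, ((r.getD j 0 : ℕ) : ZMod p) * ((w.getD j 0 : ℕ) : ZMod p)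
  | 0, [], [], _, _ => by simp [dot]
  | d + 1, a :: r, b :: w, hr, hw => by
    have hr' : r.length = d := by simpa using hr
    have hw' : w.length = d := by simpa using hw
    rw [Fin.sum_univ_succ]
    simp only [dot, Nat.cast_add, Nat.cast_mul]
    rw [dot_cast p d r w hr' hw']
    simp

/-- The action of a list of rows on a code. -/
def app (p d : ℕ) (A : List (List ℕ)) (n : ℕ) : ℕ :=
  cod (A.map fun r => dot r (digs d n) % p)

theorem toV_app (p d : ℕ) [NeZero p] (hp : p ≤ 16) (A : List (List ℕ)) (hA : A.length = d)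
    (hr : ∀ r ∈ A, r.length = d) (n : ℕ) :
    toV p d (app p d A n) = toM p d A *ᵥ toV p d n := by
  have hlt : ∀ a ∈ A.map (fun r => dot r (digs d n) % p), a < 16 := by
    intro a ha
    obtain ⟨r, -, rfl⟩ := List.mem_map.1 ha
    exact lt_of_lt_of_le (Nat.mod_lt _ (NeZero.pos p)) hp
  have hlen : (A.map fun r => dot r (digs d n) % p).length = d := by simp [hA]
  funext i
  have h1 := digs_cod _ hlt
  rw [hlen] at h1
  have hi : i.val < A.length := by rw [hA]; exact i.2
  have h2 : toV p d (app p d A n) i = ((dot (A.getD i []) (digs d n) % p : ℕ) : ZMod p) := by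
    unfold toV app
    rw [h1, List.getD_eq_getElem _ _ (by simp [hA]), List.getElem_map,
      List.getD_eq_getElem _ _ hi]
  rw [h2, ZMod.natCast_mod,
    dot_cast p d _ _ (hr _ (by rw [List.getD_eq_getElem _ _ hi]; exact List.getElem_mem _))
      (digs_length d n)]
  rfl

/-- The action of a word. -/
noncomputable def evW {α : Type*} (p d : ℕ) (ltr : α → List (List ℕ)) (L : List α) (n : ℕ) : ℕ :=
  L.foldr (fun l acc => frc acc (app p d (ltr l))) n

theorem toV_evW {α : Type*} (p d : ℕ) [NeZero p] (hp : p ≤ 16) (ltr : α → List (List ℕ))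
    (hl : ∀ a, (ltr a).length = d) (hr : ∀ a, ∀ r ∈ ltr a, r.length = d) (L : List α) (n : ℕ) :
    toV p d (evW p d ltr L n) = (L.map fun a => toM p d (ltr a)).prod *ᵥ toV p d n := by
  induction L with
  | nil => simp [evW]
  | cons a L ih =>
    have : evW p d ltr (a :: L) n = app p d (ltr a) (evW p d ltr L n) := by
      simp [evW]
    rw [this, toV_app p d hp _ (hl a) (hr a), ih, List.map_cons, List.prod_cons,
      Matrix.mulVec_mulVec]

/-- A matrix fixing the `16 ^ j` is the identity. -/
theorem eq_one_of_fix (p d : ℕ) (hb : ∀ j : Fin d, toV p d (16 ^ j.val) = Pi.single j 1)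
    (M : Matrix (Fin d) (Fin d) (ZMod p))
    (h : ∀ j : Fin d, M *ᵥ toV p d (16 ^ j.val) = toV p d (16 ^ j.val)) : M = 1 := by
  ext i j
  have := congrFun (h j) i
  rw [hb j, Matrix.mulVec_single_one, Matrix.col_apply] at this
  rw [this, Matrix.one_apply, Pi.single_apply]

/-- Two matrices agreeing on the `16 ^ j` are equal. -/
theorem eq_of_fix (p d : ℕ) (hb : ∀ j : Fin d, toV p d (16 ^ j.val) = Pi.single j 1)
    (M N : Matrix (Fin d) (Fin d) (ZMod p))
    (h : ∀ j : Fin d, M *ᵥ toV p d (16 ^ j.val) = N *ᵥ toV p d (16 ^ j.val)) : M = N := by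
  ext i j
  have := congrFun (h j) i
  rw [hb j, Matrix.mulVec_single_one, Matrix.mulVec_single_one, Matrix.col_apply,
    Matrix.col_apply] at this
  exact this

end Cfsg.Agent.Lib.Compute.PMat
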