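import Cfsg.Agent.Lib.Blocks.Principal

/-!
# A criterion for a group to have a single `2`-block

Let `τ` be a function on the group whose fibres are the unions of a class and the inverse class.  The sums `K` of these
fibres are central, and the map `K ↦ K²` is additive modulo `2`.  If the coefficients of `K²` modulo `2` are triangular
for a rank function, then all the central characters agree modulo a maximal ideal over `2` on these sums.  The block
elements of the union of a block and its inverse lie in the span of the sums, which gives one block.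

The parity of the coefficient of `z` in `K²` is found by an action: the map `x ↦ x⁻¹ z` on the solutions has order a power
of `2` up to an odd power, and the fixed points are square roots of the `2`-part of `z`.
-/

set_option autoImplicit false

namespace Cfsg.Agent.Lib.Compute.SingleBlock

open Cfsg Cfsg.Agent.Lib.Blocks.Local Cfsg.Agent.Lib.Blocks.Central Cfsg.Agent.Lib.Blocks.Osima
open Cfsg.Agent.Lib.Blocks.Principal

universe u v

variable {G : Type u} [Group G] [Fintype G] {ι : Type v} [DecidableEq ι]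

/-- The conditions on the function of types. -/
structure IsTypeFun (τ : G → ι) : Prop where
  conj : ∀ g h, τ (h * g * h⁻¹) = τ g
  inv : ∀ g, τ g⁻¹ = τ g
  sep : ∀ g h, τ g = τ h → IsConj g h ∨ IsConj g h⁻¹

/-- The sum of a type. -/
noncomputable def typeSum (τ : G → ι) (t : ι) : MonoidAlgebra ℂ G := ofFun (fun x => if τ x = t then 1 else 0)

/-- The number of solutions of the equation for the square of a type sum. -/
def tpc [DecidableEq G] (τ : G → ι) (s : ι) (z : G) : ℕ :=
  (Finset.univ.filter (fun x : G => τ x = s ∧ τ (x⁻¹ * z) = s)).card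

theorem coeff_typeSum_mul_self [DecidableEq G] (τ : G → ι) (s : ι) (z : G) :
    (typeSum τ s * typeSum τ s).coeff z = (tpc τ s z : ℂ) := by
  rw [coeff_mul_eq_sum]
  simp only [typeSum, coeff_ofFun]
  rw [tpc, Finset.card_filter]
  push_cast
  refine Finset.sum_congr rfl fun x _ => ?_
  by_cases h1 : τ x = s <;> by_cases h2 : τ (x⁻¹ * z) = s <;> simp [h1, h2]

section

variable {τ : G → ι} (hτ : IsTypeFun τ)
include hτ

theorem isClassFunction_typeSum (t : ι) : IsClassFunction G (typeSum τ t).coeff := by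
  intro g h
  simp only [typeSum, coeff_ofFun, hτ.conj]

theorem typeSum_mem_localCenter (M : Ideal AlgInt) [M.IsPrime] (t : ι) : typeSum τ t ∈ localCenter G M := by
  refine ⟨isClassFunction_typeSum hτ t, fun g => ?_⟩
  simp only [typeSum, coeff_ofFun]
  split_ifs
  · exact memLocalRing_one
  · exact memLocalRing_zero

/-- A class function which takes equal values at inverses is constant on the types. -/
theorem const_of_types {a : MonoidAlgebra ℂ G} (h1 : IsClassFunction G a.coeff)
    (h2 : ∀ g, a.coeff g⁻¹ = a.coeff g) {x y : G} (hxy : τ x = τ y) : a.coeff x = a.coeff y := by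
  rcases hτ.sep x y hxy with h | h
  · obtain ⟨c, rfl⟩ := isConj_iff.1 h
    exact (h1 x c).symm
  · obtain ⟨c, hc⟩ := isConj_iff.1 h
    rw [← h2 y, ← hc]
    exact (h1 x c).symm

/-- The expansion of `omega` in the type sums. -/
theorem omega_eq_sum_typeSum (χ : G → ℂ) {a : MonoidAlgebra ℂ G} (h1 : IsClassFunction G a.coeff)
    (h2 : ∀ g, a.coeff g⁻¹ = a.coeff g) :
    ∃ c : ι → ℂ, (∀ g, c (τ g) = a.coeff g) ∧ ∀ χ : G → ℂ,
      omega χ a = ∑ t ∈ Finset.univ.image τ, c t * omega χ (typeSum τ t) := by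
  classical
  let c : ι → ℂ := fun t => if h : ∃ g, τ g = t then a.coeff h.choose else 0
  have hc : ∀ g, c (τ g) = a.coeff g := by
    intro g
    have h3 : ∃ x, τ x = τ g := ⟨g, rfl⟩
    simp only [c, dif_pos h3]
    exact const_of_types hτ h1 h2 h3.choose_spec
  refine ⟨c, hc, fun χ => ?_⟩
  simp only [omega, coeff_ofFun, typeSum]
  simp only [mul_div_assoc', ← Finset.sum_div]
  congr 1
  rw [← Finset.sum_fiberwise_of_maps_to (s := Finset.univ) (t := Finset.univ.image τ) (g := τ)
    (fun x _ => Finset.mem_image_of_mem τ (Finset.mem_univ x))]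
  refine Finset.sum_congr rfl fun t _ => ?_
  have h4 : ∑ i, (if τ i = t then (1 : ℂ) else 0) * χ i = ∑ i ∈ Finset.univ.filter (fun i => τ i = t), χ i := by
    rw [Finset.sum_filter]
    refine Finset.sum_congr rfl fun x _ => ?_
    split_ifs <;> simp
  rw [h4, Finset.mul_sum]
  refine Finset.sum_congr rfl fun x hx => ?_
  have h5 := (Finset.mem_filter.1 hx).2
  rw [← h5, hc]

theorem tpc_conj [DecidableEq G] (s : ι) (z h : G) : tpc τ s (h * z * h⁻¹) = tpc τ s z := by
  unfold tpc
  symm
  refine Finset.card_bij (fun x _ => h * x * h⁻¹) ?_ ?_ ?_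
  · intro x hx
    simp only [Finset.mem_filter, Finset.mem_univ, true_and] at hx ⊢
    refine ⟨by rw [hτ.conj]; exact hx.1, ?_⟩
    have : (h * x * h⁻¹)⁻¹ * (h * z * h⁻¹) = h * (x⁻¹ * z) * h⁻¹ := by group
    rw [this, hτ.conj]
    exact hx.2
  · intro a _ b _ hab
    simpa using hab
  · intro y hy
    refine ⟨h⁻¹ * y * h, ?_, by group⟩
    simp only [Finset.mem_filter, Finset.mem_univ, true_and] at hy ⊢
    have e1 : h⁻¹ * y * h = h⁻¹ * y * h⁻¹⁻¹ := by group
    refine ⟨by rw [e1, hτ.conj]; exact hy.1, ?_⟩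
    have : (h⁻¹ * y * h)⁻¹ * z = h⁻¹ * (y⁻¹ * (h * z * h⁻¹)) * h⁻¹⁻¹ := by group
    rw [this, hτ.conj]
    exact hy.2

theorem tpc_inv [DecidableEq G] (s : ι) (z : G) : tpc τ s z⁻¹ = tpc τ s z := by
  unfold tpc
  symm
  refine Finset.card_bij (fun x _ => z⁻¹ * x) ?_ ?_ ?_
  · intro x hx
    simp only [Finset.mem_filter, Finset.mem_univ, true_and] at hx ⊢
    constructor
    · have : z⁻¹ * x = (x⁻¹ * z)⁻¹ := by group
      rw [this, hτ.inv]
      exact hx.2
    · have : (z⁻¹ * x)⁻¹ * z⁻¹ = x⁻¹ := by group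
      rw [this, hτ.inv]
      exact hx.1
  · intro a _ b _ hab
    simpa using hab
  · intro y hy
    refine ⟨z * y, ?_, by group⟩
    simp only [Finset.mem_filter, Finset.mem_univ, true_and] at hy ⊢
    constructor
    · have : z * y = (y⁻¹ * z⁻¹)⁻¹ := by group
      rw [this, hτ.inv]
      exact hy.2
    · have : (z * y)⁻¹ * z = y⁻¹ * (z⁻¹ * z) := by group
      rw [this, inv_mul_cancel, mul_one, hτ.inv]
      exact hy.1

end

/-! ### The congruence on the type sums -/

section Cong

variable {M : Ideal AlgInt} (hM : IsPModular 2 M)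
variable {τ : G → ι} (hτ : IsTypeFun τ)
include hM hτ

/-- Central characters agree on all the type sums, under the triangularity condition. -/
theorem memLocalIdeal_typeSum [DecidableEq G] (rk : ι → ℕ)
    (hrk : ∀ (s : ι) (z : G), z ≠ 1 → Odd (tpc τ s z) → rk (τ z) < rk s) (χ : IrrCharacter G) (t : ι) :
    haveI := isPrime_of_isPModular hM
    MemLocalIdeal M (omega (χ : G → ℂ) (typeSum τ t) - omega (fun _ => (1 : ℂ)) (typeSum τ t)) := by
  haveI := isPrime_of_isPModular hM
  haveI : Fact (Nat.Prime 2) := ⟨Nat.prime_two⟩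
  have h2 : MemLocalIdeal M ((2 : ℕ) : ℂ) := memLocalIdeal_natCast_self hM
  have htriv : IsIrrCharacter G (fun _ : G => (1 : ℂ)) := (trivChar G).2
  induction hn : rk t using Nat.strong_induction_on generalizing t with
  | _ n ih =>
    -- the square
    set A := typeSum τ t * typeSum τ t with hA
    have hcl := isClassFunction_typeSum hτ t
    have hAcl : IsClassFunction G A.coeff := isClassFunction_mul hcl hcl
    have hAinv : ∀ g, A.coeff g⁻¹ = A.coeff g := by
      intro g
      rw [hA, coeff_typeSum_mul_self, coeff_typeSum_mul_self, tpc_inv hτ]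
    obtain ⟨c, hc, hsum⟩ := omega_eq_sum_typeSum hτ (χ : G → ℂ) hAcl hAinv
    have hdiff : MemLocalIdeal M (omega (χ : G → ℂ) A - omega (fun _ => (1 : ℂ)) A) := by
      rw [hsum, hsum, ← Finset.sum_sub_distrib]
      refine memLocalIdeal_sum _ _ fun t' ht' => ?_
      obtain ⟨z, -, rfl⟩ := Finset.mem_image.1 ht'
      rw [← mul_sub, hc z, hA, coeff_typeSum_mul_self]
      have hloc : MemLocalRing M (omega (χ : G → ℂ) (typeSum τ (τ z)) -
          omega (fun _ => (1 : ℂ)) (typeSum τ (τ z))) :=
        memLocalRing_sub (memLocalRing_omega χ.2 (typeSum_mem_localCenter hτ M _))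
          (memLocalRing_omega htriv (typeSum_mem_localCenter hτ M _))
      rcases Nat.even_or_odd (tpc τ t z) with he | ho
      · obtain ⟨k, hk⟩ := he
        have h3 : ((tpc τ t z : ℕ) : ℂ) = ((k : ℕ) : ℂ) * ((2 : ℕ) : ℂ) := by
          rw [hk]
          push_cast
          ring
        rw [h3, mul_assoc]
        exact memLocalIdeal_mul_left (memLocalRing_natCast k) (memLocalIdeal_mul_right h2 hloc)
      · refine memLocalIdeal_mul_left (memLocalRing_natCast _) ?_
        by_cases hz : z = 1
        · -- the identity type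
          subst hz
          have h4 : typeSum τ (τ (1 : G)) = 1 := by
            apply ext_coeff
            intro x
            rw [coeff_one_apply]
            simp only [typeSum, coeff_ofFun]
            by_cases hx : x = 1
            · simp [hx]
            · rw [if_neg hx, if_neg]
              intro h5
              rcases hτ.sep _ _ h5 with h6 | h6
              · exact hx (isConj_one_right.1 h6.symm)
              · rw [inv_one] at h6
                exact hx (isConj_one_right.1 h6.symm)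
          rw [h4, omega_one χ.2, omega_one htriv, sub_self]
          exact memLocalIdeal_zero
        · exact ih _ (by rw [← hn]; exact hrk t z hz ho) (τ z) rfl
    -- the square of the difference
    have hmulχ : omega (χ : G → ℂ) A = omega (χ : G → ℂ) (typeSum τ t) * omega (χ : G → ℂ) (typeSum τ t) :=
      omega_mul χ.2 hcl _
    have hmulT : omega (fun _ : G => (1 : ℂ)) A =
        omega (fun _ : G => (1 : ℂ)) (typeSum τ t) * omega (fun _ : G => (1 : ℂ)) (typeSum τ t) :=
      omega_mul htriv hcl _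
    rw [hmulχ, hmulT] at hdiff
    set a := omega (χ : G → ℂ) (typeSum τ t)
    set b := omega (fun _ : G => (1 : ℂ)) (typeSum τ t)
    have hla : MemLocalRing M a := memLocalRing_omega χ.2 (typeSum_mem_localCenter hτ M _)
    have hlb : MemLocalRing M b := memLocalRing_omega htriv (typeSum_mem_localCenter hτ M _)
    have h5 : (a - b) * (a - b) = (a * a - b * b) - ((2 : ℕ) : ℂ) * (b * (a - b)) := by
      push_cast
      ring
    have h6 : MemLocalIdeal M ((a - b) * (a - b)) := by
      rw [h5]
      exact memLocalIdeal_sub hdiff (memLocalIdeal_mul_right h2 (memLocalRing_mul hlb (memLocalRing_sub hla hlb)))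
    by_contra hcon
    exact not_memLocalIdeal_mul (memLocalRing_sub hla hlb) (memLocalRing_sub hla hlb) hcon hcon h6

end Cong

/-! ### The inverse of an element of the group algebra -/

/-- The inverse map of the group algebra. -/
noncomputable def iotaA (a : MonoidAlgebra ℂ G) : MonoidAlgebra ℂ G := ofFun (fun g => a.coeff g⁻¹)

theorem coeff_iotaA (a : MonoidAlgebra ℂ G) (g : G) : (iotaA a).coeff g = a.coeff g⁻¹ := by
  simp [iotaA]

theorem isClassFunction_iotaA {a : MonoidAlgebra ℂ G} (h : IsClassFunction G a.coeff) :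
    IsClassFunction G (iotaA a).coeff := by
  intro g c
  rw [coeff_iotaA, coeff_iotaA]
  have : (c * g * c⁻¹)⁻¹ = c * g⁻¹ * c⁻¹ := by group
  rw [this]
  exact h _ _

theorem omega_one_eq_sum (a : MonoidAlgebra ℂ G) : omega (fun _ : G => (1 : ℂ)) a = ∑ g, a.coeff g := by
  simp [omega]

theorem omega_triv_iotaA (a : MonoidAlgebra ℂ G) :
    omega (fun _ : G => (1 : ℂ)) (iotaA a) = omega (fun _ : G => (1 : ℂ)) a := by
  rw [omega_one_eq_sum, omega_one_eq_sum]
  simp only [coeff_iotaA]
  exact Equiv.sum_comp (Equiv.inv G) _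

theorem coeff_mul_iotaA_inv (a : MonoidAlgebra ℂ G) (g : G) :
    (a * iotaA a).coeff g⁻¹ = (a * iotaA a).coeff g := by
  rw [coeff_mul_eq_sum, coeff_mul_eq_sum]
  simp only [coeff_iotaA]
  rw [← Equiv.sum_comp (Equiv.mulLeft g⁻¹)]
  refine Finset.sum_congr rfl fun x _ => ?_
  simp only [Equiv.coe_mulLeft]
  rw [mul_comm]
  congr 2 <;> group

/-! ### One block -/

/-- The criterion. -/
theorem sameBlock_of_triangular [DecidableEq G] {M : Ideal AlgInt} (hM : IsPModular 2 M) {τ : G → ι}
    (hτ : IsTypeFun τ) (rk : ι → ℕ)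
    (hrk : ∀ (s : ι) (z : G), z ≠ 1 → Odd (tpc τ s z) → rk (τ z) < rk s) (χ ψ : IrrCharacter G) :
    SameBlock M (χ : G → ℂ) (ψ : G → ℂ) := by
  haveI := isPrime_of_isPModular hM
  haveI : Fact (Nat.Prime 2) := ⟨Nat.prime_two⟩
  have h2 : MemLocalIdeal M ((2 : ℕ) : ℂ) := memLocalIdeal_natCast_self hM
  have htriv : IsIrrCharacter G (fun _ : G => (1 : ℂ)) := (trivChar G).2
  have key : ∀ χ : IrrCharacter G, SameBlock M (χ : G → ℂ) (fun _ => (1 : ℂ)) := by
    intro χ
    by_contra hno
    set e := blockElt (blockOf M (χ : G → ℂ)) with he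
    have heL : e ∈ localCenter G M := blockElt_mem_localCenter ⟨χ, rfl⟩
    have heL' : iotaA e ∈ localCenter G M := by
      refine ⟨isClassFunction_iotaA heL.1, fun g => ?_⟩
      rw [coeff_iotaA]
      exact heL.2 _
    set y := e + iotaA e + e * iotaA e with hy
    have hyL : y ∈ localCenter G M :=
      (localCenter G M).add_mem ((localCenter G M).add_mem heL heL') ((localCenter G M).mul_mem heL heL')
    have hyinv : ∀ g, y.coeff g⁻¹ = y.coeff g := by
      intro g
      rw [hy]
      simp only [MonoidAlgebra.coeff_add, Finsupp.add_apply, coeff_mul_iotaA_inv]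
      simp only [coeff_iotaA, inv_inv]
      ring
    obtain ⟨c, hc, hsum⟩ := omega_eq_sum_typeSum hτ (χ : G → ℂ) hyL.1 hyinv
    have hdiff : MemLocalIdeal M (omega (χ : G → ℂ) y - omega (fun _ => (1 : ℂ)) y) := by
      rw [hsum, hsum, ← Finset.sum_sub_distrib]
      refine memLocalIdeal_sum _ _ fun t' ht' => ?_
      obtain ⟨z, -, rfl⟩ := Finset.mem_image.1 ht'
      rw [← mul_sub, hc z]
      exact memLocalIdeal_mul_left (hyL.2 z) (memLocalIdeal_typeSum hM hτ rk hrk χ _)
    -- the values of `omega`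
    have hχe : omega (χ : G → ℂ) e = 1 := omega_blockElt_of_mem (mem_blockOf_self χ)
    have hte : omega (fun _ : G => (1 : ℂ)) e = 0 := by
      have h3 := omega_blockElt_of_notMem (A := blockOf M (χ : G → ℂ)) (χ := trivChar G) hno
      exact h3
    have hχy : omega (χ : G → ℂ) y = 1 + ((2 : ℕ) : ℂ) * omega (χ : G → ℂ) (iotaA e) := by
      rw [hy, omega_add, omega_add, omega_mul χ.2 heL.1, hχe]
      push_cast
      ring
    have hty : omega (fun _ : G => (1 : ℂ)) y = 0 := by
      rw [hy, omega_add, omega_add, omega_mul htriv heL.1, hte, omega_triv_iotaA, hte]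
      simp
    rw [hχy, hty, sub_zero] at hdiff
    have h3 : MemLocalIdeal M (((2 : ℕ) : ℂ) * omega (χ : G → ℂ) (iotaA e)) :=
      memLocalIdeal_mul_right h2 (memLocalRing_omega χ.2 heL')
    have h4 := memLocalIdeal_sub hdiff h3
    rw [add_sub_cancel_right] at h4
    exact not_memLocalIdeal_one h4
  exact sameBlock_trans (key χ) (sameBlock_symm (key ψ))

/-! ### The parity of the number of solutions -/

section Parity

variable [DecidableEq G] (τ : G → ι) (hτ : ∀ g h, τ (h * g * h⁻¹) = τ g) (s : ι) (z : G) (e a : ℕ)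

/-- The solutions. -/
abbrev Sol : Type u := {x : G // τ x = s ∧ τ (x⁻¹ * z) = s}

variable {τ s z}

include hτ in
theorem sol_map_mem {x : G} (hx : τ x = s ∧ τ (x⁻¹ * z) = s) :
    τ ((z ^ e)⁻¹ * x⁻¹ * z ^ (e + 1)) = s ∧
      τ (((z ^ e)⁻¹ * x⁻¹ * z ^ (e + 1))⁻¹ * z) = s := by
  constructor
  · have : (z ^ e)⁻¹ * x⁻¹ * z ^ (e + 1) = (z ^ e)⁻¹ * (x⁻¹ * z) * (z ^ e)⁻¹⁻¹ := by
      rw [pow_succ]
      group
    rw [this, hτ]
    exact hx.2
  · have : ((z ^ e)⁻¹ * x⁻¹ * z ^ (e + 1))⁻¹ * z = (z ^ (e + 1))⁻¹ * x * (z ^ (e + 1))⁻¹⁻¹ := by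
      rw [pow_succ]
      group
    rw [this, hτ]
    exact hx.1

/-- The map on the solutions: an odd power of `x ↦ x⁻¹ z`. -/
def solMap : Sol τ s z → Sol τ s z := fun x =>
  ⟨(z ^ e)⁻¹ * (x : G)⁻¹ * z ^ (e + 1), sol_map_mem hτ e x.2⟩

theorem solMap_iterate (k : ℕ) (x : Sol τ s z) :
    (((solMap hτ e)^[2 * k] x : Sol τ s z) : G) =
      ((z ^ (2 * e + 1)) ^ k)⁻¹ * (x : G) * (z ^ (2 * e + 1)) ^ k := by
  induction k with
  | zero => simp
  | succ k ih =>
    have h1 : 2 * (k + 1) = 2 + 2 * k := by ring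
    rw [h1, Function.iterate_add_apply]
    show (z ^ e)⁻¹ * ((z ^ e)⁻¹ * (((solMap hτ e)^[2 * k] x : Sol τ s z) : G)⁻¹ * z ^ (e + 1))⁻¹ * z ^ (e + 1) = _
    rw [ih]
    have h2 : z ^ (2 * e + 1) = z ^ e * z * z ^ e := by
      rw [show 2 * e + 1 = e + 1 + e by ring, pow_add, pow_succ]
    rw [h2, pow_succ (z ^ e * z * z ^ e) k, pow_succ z e]
    group

/-- The map as an endomorphism. -/
def solEnd : Function.End (Sol τ s z) := solMap hτ e

theorem solMap_pow (hz : (z ^ (2 * e + 1)) ^ (2 ^ a) = 1) :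
    (solEnd hτ e : Function.End (Sol τ s z)) ^ (2 ^ (a + 1)) = 1 := by
  funext x
  apply Subtype.ext
  have h1 : 2 ^ (a + 1) = 2 * 2 ^ a := by ring
  show (((solMap hτ e)^[2 ^ (a + 1)] x : Sol τ s z) : G) = x
  rw [h1, solMap_iterate, hz]
  simp

omit [Group G] [Fintype G] [DecidableEq ι] [DecidableEq G] in
theorem card_aux {α β : Type*} (f : Set α) {i : Fintype f} [Fintype β] (e : f ≃ β) :
    @Fintype.card f i = Fintype.card β := Fintype.card_congr e

include hτ in
/-- The parity of the number of solutions. -/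
theorem tpc_modEq (hz : (z ^ (2 * e + 1)) ^ (2 ^ a) = 1) :
    tpc τ s z ≡ (Finset.univ.filter (fun v : G => v * v = z ^ (2 * e + 1) ∧ τ (v * (z ^ e)⁻¹) = s)).card [MOD 2] := by
  haveI : Fact (Nat.Prime 2) := ⟨Nat.prime_two⟩
  have h1 := Equiv.Perm.card_fixedPoints_modEq (p := 2) (n := a + 1) (solMap_pow (s := s) hτ e a hz)
  have h2 : Fintype.card (Sol τ s z) = tpc τ s z := Fintype.card_subtype _
  rw [h2] at h1
  refine h1.trans ?_
  rw [← Fintype.card_subtype]
  unfold Nat.ModEq
  congr 1
  refine card_aux _ ⟨fun x => ⟨(x : Sol τ s z).1 * z ^ e, ?_⟩, fun v => ⟨⟨v.1 * (z ^ e)⁻¹, ?_⟩, ?_⟩, ?_, ?_⟩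
  · -- a fixed point gives a square root
    have hx : (z ^ e)⁻¹ * ((x : Sol τ s z).1)⁻¹ * z ^ (e + 1) = (x : Sol τ s z).1 :=
      congrArg Subtype.val (x.2 : solMap hτ e x.1 = x.1)
    set y := (x : Sol τ s z).1 with hy
    have hy2 : τ y = s := x.1.2.1
    constructor
    · have h3 : y * z ^ e * y = z ^ (e + 1) := by
        have h4 : z ^ (e + 1) = y * (z ^ e * y) := by
          have : z ^ e * y = y⁻¹ * z ^ (e + 1) := by
            conv_lhs => rw [← hx]
            group
          rw [this]
          group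
        rw [h4]
        group
      rw [show 2 * e + 1 = e + 1 + e by ring, pow_add, ← h3]
      group
    · have : y * z ^ e * (z ^ e)⁻¹ = y := by group
      rw [this]
      exact hy2
  · -- a square root gives a solution
    obtain ⟨v0, hv1, hv2⟩ := v
    refine ⟨hv2, ?_⟩
    have h3 : (v0 * (z ^ e)⁻¹)⁻¹ * z = z ^ e * (v0 * (z ^ e)⁻¹) * (z ^ e)⁻¹ := by
      have h4 : v0⁻¹ = v0 * (z ^ (2 * e + 1))⁻¹ := by
        rw [← hv1]
        group
      have h5 : z ^ (2 * e + 1) = z ^ e * z * z ^ e := by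
        rw [show 2 * e + 1 = e + 1 + e by ring, pow_add, pow_succ]
      rw [mul_inv_rev, inv_inv, h4, h5]
      group
    rw [h3, hτ]
    exact hv2
  · -- and it is fixed
    obtain ⟨v0, hv1, hv2⟩ := v
    apply Subtype.ext
    show (z ^ e)⁻¹ * (v0 * (z ^ e)⁻¹)⁻¹ * z ^ (e + 1) = v0 * (z ^ e)⁻¹
    have h4 : v0⁻¹ = v0 * (z ^ (2 * e + 1))⁻¹ := by
      rw [← hv1]
      group
    have h5 : z ^ (2 * e + 1) = z ^ e * z * z ^ e := by
      rw [show 2 * e + 1 = e + 1 + e by ring, pow_add, pow_succ]
    rw [mul_inv_rev, inv_inv, h4, h5, pow_succ z e]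
    group
  · intro x
    apply Subtype.ext
    apply Subtype.ext
    simp
  · intro v
    apply Subtype.ext
    simp

end Parity

end Cfsg.Agent.Lib.Compute.SingleBlock
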