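import Cfsg.Agent.Lib.Compute.ToddCoxeterPresented
import Cfsg.Prelude.Def_SporadicB
import Mathlib

/-!
# Classes of 3-transpositions from double cosets

If an involution `z` is centralised by a subgroup `H` with double coset representatives `r i` such that the conjugates
of `z` by the representatives differ from `z` and have products of order at most 3 with `z`, then the conjugates of
`z` form a class of 3-transpositions with one member for each coset of `H`, and `H` is the centraliser of `z`.
The double cosets come from an orbit certificate of a coset enumeration. Non-split double covers transfer along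
isomorphisms.
-/

set_option autoImplicit false

namespace Cfsg.Agent.Lib.Compute.TransClass

open Cfsg.Agent.Lib.Compute.ToddCoxeterCore Cfsg.Agent.Lib.Compute.ToddCoxeterPresented

section Abstract

variable {G : Type*} [Group G]

/-- The centraliser of the involution. -/
theorem centralizer_eq (H : Subgroup G) (z : G) (hzc : ∀ y ∈ H, z * y = y * z) (k : ℕ) (r : ℕ → G) (hr0 : r 0 = 1)
    (hdc : ∀ g : G, ∃ i, i < k ∧ ∃ h ∈ H, ∃ h' ∈ H, g = h * r i * h')
    (hne : ∀ i, i < k → i ≠ 0 → r i * z * (r i)⁻¹ ≠ z) :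
    Subgroup.centralizer ({z} : Set G) = H := by
  apply le_antisymm
  · intro g hg
    rw [Subgroup.mem_centralizer_singleton_iff] at hg
    obtain ⟨i, hi, h, hh, h', hh', rfl⟩ := hdc g
    by_cases hi0 : i = 0
    · subst hi0
      rw [hr0, mul_one]
      exact mul_mem hh hh'
    · exfalso
      apply hne i hi hi0
      have c1 := hzc h' hh'
      have c2 := hzc h hh
      have h1 : h * (r i * (h' * z * h'⁻¹) * (r i)⁻¹) * h⁻¹ = z := by
        have h2 : h * r i * h' * z = z * (h * r i * h') := hg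
        calc h * (r i * (h' * z * h'⁻¹) * (r i)⁻¹) * h⁻¹
            = (h * r i * h' * z) * (h * r i * h')⁻¹ := by group
          _ = z := by rw [h2]; group
      have h3 : h' * z * h'⁻¹ = z := by rw [← c1]; group
      rw [h3] at h1
      calc r i * z * (r i)⁻¹ = h⁻¹ * (h * (r i * z * (r i)⁻¹) * h⁻¹) * h := by group
        _ = h⁻¹ * z * h := by rw [h1]
        _ = z := by rw [mul_assoc, c2]; group
  · intro y hy
    rw [Subgroup.mem_centralizer_singleton_iff]
    exact (hzc y hy).symm

/-- Products of two conjugates, from double cosets. -/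
theorem conj_order (H : Subgroup G) (z : G) (hzc : ∀ y ∈ H, z * y = y * z) (k : ℕ) (r : ℕ → G)
    (hdc : ∀ g : G, ∃ i, i < k ∧ ∃ h ∈ H, ∃ h' ∈ H, g = h * r i * h')
    (hord : ∀ i, i < k → (z * (r i * z * (r i)⁻¹)) ^ 2 = 1 ∨ (z * (r i * z * (r i)⁻¹)) ^ 3 = 1)
    (a b : G) : ((a * z * a⁻¹) * (b * z * b⁻¹)) ^ 2 = 1 ∨ ((a * z * a⁻¹) * (b * z * b⁻¹)) ^ 3 = 1 := by
  obtain ⟨i, hi, h, hh, h', hh', hab⟩ := hdc (a⁻¹ * b)
  have hb : b = a * (h * r i * h') := by rw [← hab]; group
  have c1 := hzc h' hh'
  have c2 := hzc h hh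
  have h3 : h' * z * h'⁻¹ = z := by rw [← c1]; group
  have h4 : h * z * h⁻¹ = z := by rw [← c2]; group
  have key : (a * z * a⁻¹) * (b * z * b⁻¹) =
      (a * h) * (z * (r i * z * (r i)⁻¹)) * (a * h)⁻¹ := by
    rw [hb]
    calc (a * z * a⁻¹) * (a * (h * r i * h') * z * (a * (h * r i * h'))⁻¹)
        = a * z * (h * (r i * (h' * z * h'⁻¹) * (r i)⁻¹) * h⁻¹) * a⁻¹ := by group
      _ = a * z * (h * (r i * z * (r i)⁻¹) * h⁻¹) * a⁻¹ := by rw [h3]
      _ = a * (h * z * h⁻¹) * (h * (r i * z * (r i)⁻¹) * h⁻¹) * a⁻¹ := by rw [h4]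
      _ = (a * h) * (z * (r i * z * (r i)⁻¹)) * (a * h)⁻¹ := by group
  rw [key, conj_pow, conj_pow]
  rcases hord i hi with h5 | h5
  · left
    rw [h5]
    group
  · right
    rw [h5]
    group

/-- The number of conjugates. -/
theorem card_conj (z : G) : Nat.card (conjugatesOf z) = (Subgroup.centralizer ({z} : Set G)).index := by
  let C := Subgroup.centralizer ({z} : Set G)
  have hmem : ∀ a b : G, a⁻¹ * b ∈ C ↔ a * z * a⁻¹ = b * z * b⁻¹ := by
    intro a b
    rw [Subgroup.mem_centralizer_singleton_iff]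
    constructor
    · intro h
      have h1 : b = a * (a⁻¹ * b) := by group
      calc a * z * a⁻¹ = a * (z * (a⁻¹ * b)) * (a⁻¹ * b)⁻¹ * a⁻¹ := by group
        _ = a * ((a⁻¹ * b) * z) * (a⁻¹ * b)⁻¹ * a⁻¹ := by rw [← h]
        _ = b * z * b⁻¹ := by group
    · intro h
      calc a⁻¹ * b * z = a⁻¹ * (b * z * b⁻¹) * b := by group
        _ = a⁻¹ * (a * z * a⁻¹) * b := by rw [h]
        _ = z * (a⁻¹ * b) := by group
  let f : G ⧸ C → conjugatesOf z := Quotient.lift
    (fun g => (⟨g * z * g⁻¹, isConj_iff.2 ⟨g, rfl⟩⟩ : conjugatesOf z))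
    (fun a b hab => Subtype.ext ((hmem a b).1 (QuotientGroup.leftRel_apply.1 hab)))
  have hf : Function.Bijective f := by
    constructor
    · intro x y
      induction x using QuotientGroup.induction_on with
      | H a =>
        induction y using QuotientGroup.induction_on with
        | H b =>
          intro h
          rw [QuotientGroup.eq]
          exact (hmem a b).2 (congrArg Subtype.val h)
    · rintro ⟨d, hd⟩
      obtain ⟨c, hc⟩ := isConj_iff.1 hd
      exact ⟨(c : G ⧸ C), Subtype.ext hc⟩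
  rw [Subgroup.index]
  exact (Nat.card_congr (Equiv.ofBijective f hf)).symm

/-- The class of 3-transpositions. -/
theorem class_of_double_cosets [IsSimpleGroup G] (H : Subgroup G) (z : G) (hz2 : z ^ 2 = 1) (hz1 : z ≠ 1)
    (hzc : ∀ y ∈ H, z * y = y * z) (k : ℕ) (r : ℕ → G) (hr0 : r 0 = 1)
    (hdc : ∀ g : G, ∃ i, i < k ∧ ∃ h ∈ H, ∃ h' ∈ H, g = h * r i * h')
    (hne : ∀ i, i < k → i ≠ 0 → r i * z * (r i)⁻¹ ≠ z)
    (hord : ∀ i, i < k → (z * (r i * z * (r i)⁻¹)) ^ 2 = 1 ∨ (z * (r i * z * (r i)⁻¹)) ^ 3 = 1) :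
    Cfsg.IsThreeTranspositionClass (conjugatesOf z) ∧ Nat.card (conjugatesOf z) = H.index := by
  refine ⟨⟨⟨?_, ?_⟩, ⟨z, mem_conjugatesOf_self, rfl⟩, ?_⟩, ?_⟩
  · intro d hd
    obtain ⟨c, rfl⟩ := isConj_iff.1 hd
    apply orderOf_eq_prime
    · rw [conj_pow, hz2]
      group
    · intro h
      apply hz1
      have h1 : z = c⁻¹ * (c * z * c⁻¹) * c := by group
      rw [h1, h]
      group
  · intro d hd e he
    obtain ⟨a, rfl⟩ := isConj_iff.1 hd
    obtain ⟨b, rfl⟩ := isConj_iff.1 he
    exact conj_order H z hzc k r hdc hord a b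
  · have h1 : Subgroup.normalClosure ({z} : Set G) = Subgroup.closure (conjugatesOf z) := by
      rw [Subgroup.normalClosure, Group.conjugatesOfSet]
      simp
    rw [← h1]
    rcases IsSimpleGroup.eq_bot_or_eq_top_of_normal (Subgroup.normalClosure ({z} : Set G))
      inferInstance with h | h
    · exfalso
      apply hz1
      have h2 : z ∈ Subgroup.normalClosure ({z} : Set G) :=
        Subgroup.subset_normalClosure (Set.mem_singleton z)
      rw [h] at h2
      exact Subgroup.mem_bot.1 h2
    · exact h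
  · rw [card_conj, centralizer_eq H z hzc k r hr0 hdc hne]

end Abstract

/-! ### Transfer of non-split double covers -/

/-- Non-split double covers transfer along isomorphisms. -/
theorem nonsplit_congr {A B K : Type*} [Group A] [Group B] [Group K] (e : A ≃* B)
    (h : Cfsg.IsNonsplitDoubleCover A K) : Cfsg.IsNonsplitDoubleCover B K := by
  obtain ⟨h1, ⟨h2⟩, h3⟩ := h
  have hmap : (Subgroup.center A).map e.toMonoidHom = Subgroup.center B := by
    ext y
    constructor
    · rintro ⟨x, hx, rfl⟩
      rw [Subgroup.mem_center_iff]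
      intro b
      obtain ⟨a, rfl⟩ := e.surjective b
      show e a * e x = e x * e a
      rw [← map_mul, ← map_mul, (Subgroup.mem_center_iff.1 hx) a]
    · intro hy
      refine ⟨e.symm y, ?_, e.apply_symm_apply y⟩
      rw [SetLike.mem_coe, Subgroup.mem_center_iff]
      intro a
      apply e.injective
      rw [map_mul, map_mul, e.apply_symm_apply]
      exact (Subgroup.mem_center_iff.1 hy) (e a)
  refine ⟨?_, ⟨?_⟩, ?_⟩
  · rw [← h1]
    exact (Nat.card_congr (Subgroup.centerCongr e).toEquiv).symm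
  · exact (QuotientGroup.congr _ _ e hmap).symm.trans h2
  · intro L hL
    apply h3 (L.comap e.toMonoidHom)
    apply Subgroup.isComplement'_of_disjoint_and_mul_eq_univ
    · rw [Subgroup.disjoint_def]
      intro x hx hxL
      have h4 : e x ∈ Subgroup.center B := by rw [← hmap]; exact ⟨x, hx, rfl⟩
      have h5 := Subgroup.disjoint_def.1 hL.disjoint h4 hxL
      exact e.injective (h5.trans (map_one e).symm)
    · ext x
      simp only [Set.mem_univ, iff_true]
      obtain ⟨⟨z, l⟩, hzl⟩ := hL.2 (e x)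
      have hz : e.symm z.1 ∈ Subgroup.center A := by
        have h6 : z.1 ∈ (Subgroup.center A).map e.toMonoidHom := by rw [hmap]; exact z.2
        obtain ⟨w, hw, hw2⟩ := h6
        have h7 : e.symm z.1 = w := by
          rw [← hw2]
          exact e.symm_apply_apply w
        rw [h7]
        exact hw
      refine Set.mem_mul.2 ⟨e.symm z.1, hz, e.symm l.1, ?_, ?_⟩
      · show e (e.symm l.1) ∈ L
        rw [e.apply_symm_apply]
        exact l.2
      · apply e.injective
        rw [map_mul, e.apply_symm_apply, e.apply_symm_apply]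
        exact hzl

/-- The centraliser of a conjugate. -/
noncomputable def centralizerConj {G : Type*} [Group G] (z g : G) :
    Subgroup.centralizer ({z} : Set G) ≃* Subgroup.centralizer ({g * z * g⁻¹} : Set G) :=
  ((Subgroup.centralizer ({z} : Set G)).equivMapOfInjective (MulAut.conj g).toMonoidHom
    (MulAut.conj g).injective).trans
  (MulEquiv.subgroupCongr (by
    ext y
    rw [Subgroup.mem_centralizer_singleton_iff]
    constructor
    · rintro ⟨x, hx, rfl⟩
      rw [SetLike.mem_coe, Subgroup.mem_centralizer_singleton_iff] at hx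
      show g * x * g⁻¹ * (g * z * g⁻¹) = g * z * g⁻¹ * (g * x * g⁻¹)
      calc g * x * g⁻¹ * (g * z * g⁻¹) = g * (x * z) * g⁻¹ := by group
        _ = g * (z * x) * g⁻¹ := by rw [hx]
        _ = g * z * g⁻¹ * (g * x * g⁻¹) := by group
    · intro hy
      refine ⟨g⁻¹ * y * g, ?_, ?_⟩
      · rw [SetLike.mem_coe, Subgroup.mem_centralizer_singleton_iff]
        calc g⁻¹ * y * g * z = g⁻¹ * (y * (g * z * g⁻¹)) * g := by group
          _ = g⁻¹ * ((g * z * g⁻¹) * y) * g := by rw [hy]
          _ = z * (g⁻¹ * y * g) := by group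
      · show g * (g⁻¹ * y * g) * g⁻¹ = y
        group))

/-! ### Double cosets from an orbit certificate -/

section Cert

variable {α : Type*} [DecidableEq α] {D : Data α} {c : Cfg} {R : Set (FreeGroup α)}
  (hs : Small D c) (O : OCert) (hTr : ∀ j, j < c.N → O.chkT c D.hw j = true)
  (e : (PresentedGroup R ⧸ HOf R D.Hs) ≃ Fin c.N)
  (he : ∀ (w : FreeGroup α) q, ((e (PresentedGroup.mk R w • q) : Fin c.N) : ℕ) =
      c.walkEnd (toLetters D.lets w) (e q))

include hs hTr he

/-- Each coset is in the orbit of the root of its orbit. -/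
theorem reach : ∀ (n : ℕ) (j : ℕ) (hj : j < c.N), O.rk j ≤ n → ∀ hr : O.rep (O.oid j) < c.N,
    ∃ g ∈ HOf R D.Hs, g • e.symm ⟨O.rep (O.oid j), hr⟩ = e.symm ⟨j, hj⟩ := by
  have hact : ∀ (w : FreeGroup α), ∀ j : Fin c.N, ((e (PresentedGroup.mk R w • e.symm j) : Fin c.N) : ℕ) =
      c.walkEnd (toLetters D.lets w) j := by
    intro w j
    rw [he]
    simp
  intro n
  induction n with
  | zero =>
    intro j hj hk hr
    have h1 := hTr j hj
    unfold OCert.chkT at h1
    have h0 : Nat.beq (O.rk j) 0 = true := by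
      rw [Nat.le_zero.1 hk]; rfl
    rw [h0] at h1
    have h2 : j = O.rep (O.oid j) := beq_iff.1 h1
    refine ⟨1, one_mem _, ?_⟩
    rw [one_smul]
    congr 2
    exact h2.symm
  | succ n ih =>
    intro j hj hk hr
    have h1 := hTr j hj
    unfold OCert.chkT at h1
    cases h0 : Nat.beq (O.rk j) 0 with
    | true =>
      rw [h0] at h1
      have h2 : j = O.rep (O.oid j) := beq_iff.1 h1
      refine ⟨1, one_mem _, ?_⟩
      rw [one_smul]
      congr 2
      exact h2.symm
    | false =>
    rw [h0] at h1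
    simp only [] at h1
    cases h3 : blt (O.prnt j) c.N with
    | false => rw [h3] at h1; cases h1
    | true =>
    rw [h3] at h1
    simp only [] at h1
    cases h4 : blt (O.rk (O.prnt j)) (O.rk j) with
    | false => rw [h4] at h1; cases h1
    | true =>
    rw [h4] at h1
    simp only [] at h1
    cases h5 : Nat.beq (O.oid (O.prnt j)) (O.oid j) with
    | false => rw [h5] at h1; cases h1
    | true =>
    rw [h5] at h1
    simp only [] at h1
    have hpj := blt_iff.1 h3
    have hrk := blt_iff.1 h4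
    have hoid := beq_iff.1 h5
    have hwalk := beq_iff.1 (Cfg.walk_read h1)
    have hr' : O.rep (O.oid (O.prnt j)) < c.N := by rw [hoid]; exact hr
    obtain ⟨g, hg, hgg⟩ := ih (O.prnt j) hpj (by omega) hr'
    -- the word step
    have hstep : ∃ g' ∈ HOf R D.Hs, g' • e.symm ⟨O.prnt j, hpj⟩ = e.symm ⟨j, hj⟩ := by
      by_cases hw : O.pw j < D.hw.length
      · rw [List.getD_eq_getElem _ _ hw] at hwalk
        have hw' : O.pw j < D.Hs.length := by rw [hs.hhw] at hw; simpa using hw
        have hget : D.hw[O.pw j] = toLetters D.lets D.Hs[O.pw j] := by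
          simp [hs.hhw]
        rw [hget] at hwalk
        refine ⟨PresentedGroup.mk R D.Hs[O.pw j],
          Subgroup.mem_map_of_mem _ (Subgroup.subset_closure (List.getElem_mem _)), ?_⟩
        apply e.injective
        rw [Equiv.apply_symm_apply]
        apply Fin.ext
        rw [hact]
        exact hwalk.symm
      · rw [List.getD_eq_default _ _ (by omega)] at hwalk
        refine ⟨1, one_mem _, ?_⟩
        rw [one_smul]
        congr 2
        exact hwalk.symm
    obtain ⟨g', hg', hgg'⟩ := hstep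
    refine ⟨g' * g, mul_mem hg' hg, ?_⟩
    rw [mul_smul]
    have heq : e.symm ⟨O.rep (O.oid j), hr⟩ = e.symm ⟨O.rep (O.oid (O.prnt j)), hr'⟩ := by
      congr 2
      rw [hoid]
    rw [heq, hgg, hgg']

/-- Double cosets from roots of the orbits. -/
theorem exists_double_coset {k : ℕ} (r : ℕ → FreeGroup α)
    (hO : ∀ j, j < c.N → O.oid j < k)
    (hrep : ∀ i, i < k → O.rep i < c.N ∧ ((e (PresentedGroup.mk R (r i) •
      ((1 : PresentedGroup R) : PresentedGroup R ⧸ HOf R D.Hs)) : Fin c.N) : ℕ) = O.rep i)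
    (g : PresentedGroup R) :
    ∃ i, i < k ∧ ∃ h ∈ HOf R D.Hs, ∃ h' ∈ HOf R D.Hs, g = h * PresentedGroup.mk R (r i) * h' := by
  obtain ⟨j, hj⟩ : ∃ j : Fin c.N, j = e (g : PresentedGroup R ⧸ HOf R D.Hs) := ⟨_, rfl⟩
  have hi := hO j j.2
  obtain ⟨hr, hval⟩ := hrep _ hi
  obtain ⟨h, hh, hgg⟩ := reach hs O hTr e he _ j j.2 (le_refl _) hr
  have h1 : e.symm ⟨O.rep (O.oid j), hr⟩ =
      PresentedGroup.mk R (r (O.oid j)) • ((1 : PresentedGroup R) : PresentedGroup R ⧸ HOf R D.Hs) := by
    apply e.injective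
    rw [Equiv.apply_symm_apply]
    exact Fin.ext hval.symm
  have h2 : e.symm ⟨j, j.2⟩ = (g : PresentedGroup R ⧸ HOf R D.Hs) := by
    apply e.injective
    rw [Equiv.apply_symm_apply]
    exact hj
  rw [h1, h2, MulAction.Quotient.smul_coe, MulAction.Quotient.smul_coe, smul_eq_mul, smul_eq_mul, mul_one,
    QuotientGroup.eq] at hgg
  refine ⟨_, hi, h, hh, _, hgg, ?_⟩
  group

end Cert

end Cfsg.Agent.Lib.Compute.TransClass
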