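/-
`U₃(4)` has a `12`-dimensional representation over `ZMod 5` on which elements of order `13` have no
fixed vectors: through a presentation of `SU₃(4)` certified by coset enumeration.
-/
import Mathlib
import Cfsg.Agent.Lib.Compute.GFModel
import Cfsg.Agent.Lib.Compute.MatCode
import Cfsg.Agent.Lib.Compute.PMat
import Cfsg.Agent.Lib.Compute.PrimeGraphExt
import Cfsg.Agent.Lib.Compute.TCChain
import Cfsg.Agent.Lib.Compute.TC.U34.Final
import Cfsg.Agent.Lib.Compute.U34Data
import Cfsg.Agent.Lib.Classical.Herm.Comm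

set_option autoImplicit false
set_option maxRecDepth 100000

namespace Cfsg.Agent.Lib.Compute.U34Main

open Matrix Cfsg
open Cfsg.Agent.Lib.Compute.GFModel Cfsg.Agent.Lib.Compute.MatCode Cfsg.Agent.Lib.Compute.PMat
open Cfsg.Agent.Lib.Compute.PrimeGraphExt Cfsg.Agent.Lib.Compute.U34Data
open Cfsg.Agent.Lib.Compute.ToddCoxeterCore Cfsg.Agent.Lib.Compute.ToddCoxeterPresented
open Cfsg.Agent.Lib.Classical.Herm

/-- `SU₃(4)`. -/
abbrev L3 : Type := ↥(SU 3 GF16 4)

theorem hF16 : Fintype.card GF16 = 4 ^ 2 := card_GF16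

/-- The code of an element. -/
def eS (g : L3) : ℕ := enc3 gf16 ((g : Matrix.SpecialLinearGroup (Fin 3) GF16) : Matrix (Fin 3) (Fin 3) GF16)

theorem eS_mul (g h : L3) : eS (g * h) = mul3N gf16 (eS g) (eS h) := enc3_mul _ _

theorem eS_inj : Function.Injective eS := fun _ _ h =>
  Subtype.ext (Subtype.ext (enc3_injective h))

/-- The code of the identity. -/
def oneC : ℕ := 4295032833

theorem eS_one : eS 1 = oneC := by
  change enc3 gf16 (1 : Matrix (Fin 3) (Fin 3) GF16) = oneC
  decide +kernel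

/-- An element from a code. -/
def mkS (c : ℕ) (hv : valid3 gf16 1 c = true)
    (hf : ∀ a b : Fin 3, hermForm 3 GF16 4 (fun k => dec3 gf16 c k a) (fun k => dec3 gf16 c k b) =
      if a = b then 1 else 0) : L3 :=
  ⟨⟨dec3 gf16 c, det_dec3 rfl hv⟩, (GU.preserves_iff_frame hF16 _).2 hf⟩

theorem eS_mkS (c : ℕ) (hv : valid3 gf16 1 c = true)
    (hf : ∀ a b : Fin 3, hermForm 3 GF16 4 (fun k => dec3 gf16 c k a) (fun k => dec3 gf16 c k b) =
      if a = b then 1 else 0) : eS (mkS c hv hf) = c := enc3_dec3 hv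

/-- The first generator. -/
def xS : L3 := mkS xc (by decide +kernel) (by decide +kernel)
/-- The second generator. -/
def yS : L3 := mkS yc (by decide +kernel) (by decide +kernel)
/-- An element of order `10`. -/
def g10 : L3 := mkS g10c (by decide +kernel) (by decide +kernel)
/-- An element of order `15`. -/
def g15 : L3 := mkS g15c (by decide +kernel) (by decide +kernel)

theorem eS_x : eS xS = xc := eS_mkS _ _ _
theorem eS_y : eS yS = yc := eS_mkS _ _ _
theorem eS_g10 : eS g10 = g10c := eS_mkS _ _ _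
theorem eS_g15 : eS g15 = g15c := eS_mkS _ _ _

theorem x_inv : xS⁻¹ = xS := by
  apply inv_eq_of_mul_eq_one_left
  apply eS_inj
  rw [eS_mul, eS_x, eS_one]
  decide +kernel

theorem y_inv : yS⁻¹ = yS * yS := by
  apply inv_eq_of_mul_eq_one_left
  apply eS_inj
  rw [eS_mul, eS_mul, eS_y, eS_one]
  decide +kernel

theorem eS_yinv : eS yS⁻¹ = Yc := by
  rw [y_inv, eS_mul, eS_y]
  decide +kernel

/-- The generators. -/
def fS : Fin 2 → L3 := ![xS, yS]

/-- The code of a letter. -/
def lcode (l : Fin 2 × Bool) : ℕ :=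
  cond (l.1.val == 0) xc (cond l.2 yc Yc)

theorem eS_letter (l : Fin 2 × Bool) : eS (cond l.2 (fS l.1) (fS l.1)⁻¹) = lcode l := by
  obtain ⟨a, b⟩ := l
  fin_cases a <;> cases b
  · change eS xS⁻¹ = xc
    rw [x_inv, eS_x]
  · exact eS_x
  · exact eS_yinv
  · exact eS_y

/-- The code of a word. -/
noncomputable def wcS (L : List (Fin 2 × Bool)) : ℕ :=
  L.foldr (fun l acc => frc acc (mul3N gf16 (lcode l))) oneC

theorem eS_word (L : List (Fin 2 × Bool)) :
    eS (L.map fun x => cond x.2 (fS x.1) (fS x.1)⁻¹).prod = wcS L := by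
  induction L with
  | nil => exact eS_one
  | cons a L ih =>
    rw [List.map_cons, List.prod_cons, eS_mul, eS_letter, ih]
    simp [wcS]

theorem rels_S : ∀ L ∈ rsW, wcS L = oneC := by decide +kernel

theorem rs_eq : TC.U34.rsL = rsW.map FreeGroup.mk := rfl

theorem lift_S : ∀ r ∈ TC.U34.RR, FreeGroup.lift fS r = 1 := by
  intro r hr
  have hr' : r ∈ TC.U34.rsL := hr
  rw [rs_eq] at hr'
  obtain ⟨L, hL, rfl⟩ := List.mem_map.1 hr'
  rw [FreeGroup.lift_mk]
  apply eS_inj
  rw [eS_word, eS_one, rels_S L hL]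

/-- The map from the presented group to `SU₃(4)`. -/
noncomputable def ev0 : PresentedGroup TC.U34.RR →* L3 := PresentedGroup.toGroup lift_S

/-! ### The order of the presented group -/

theorem P_card : Finite (PresentedGroup TC.U34.RR) ∧ Nat.card (PresentedGroup TC.U34.RR) ≤ 62400 := by
  set c : PresentedGroup TC.U34.RR := PresentedGroup.mk _ (FreeGroup.mk [(0, true), (1, true)]) with hc
  have hrel : (FreeGroup.mk [((0 : Fin 2), true), (1, true)]) ^ 13 ∈ TC.U34.RR := by
    change _ ∈ TC.U34.rsL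
    decide +kernel
  have h13 : c ^ 13 = 1 := by
    rw [hc, ← map_pow]
    exact PresentedGroup.one_of_mem hrel
  have hB : HOf TC.U34.RR TC.U34.D.Hs = Subgroup.zpowers c := by
    have : {h | h ∈ TC.U34.D.Hs} = ({FreeGroup.mk [((0 : Fin 2), true), (1, true)]} : Set _) := by
      ext x
      simp [TC.U34.D]
    rw [HOf, this, MonoidHom.map_closure, Set.image_singleton, Subgroup.zpowers_eq_closure]
  have hfo : IsOfFinOrder c := isOfFinOrder_iff_pow_eq_one.2 ⟨13, by norm_num, h13⟩
  have hcard : Nat.card (Subgroup.zpowers c) ≤ 13 := by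
    rw [Nat.card_zpowers]
    exact Nat.le_of_dvd (by norm_num) (orderOf_dvd_of_pow_eq_one h13)
  have : Finite (Subgroup.zpowers c) :=
    Nat.finite_of_card_ne_zero (by rw [Nat.card_zpowers]; exact hfo.orderOf_pos.ne')
  have hidx : (Subgroup.zpowers c).index = 4800 := by
    rw [← hB]; exact TC.U34.index
  obtain ⟨h1, h2⟩ := TCChain.card_le_step (Subgroup.zpowers c).subtype (Subgroup.range_subtype _) hidx
    (by norm_num)
  refine ⟨h1, h2.trans ?_⟩
  have := Nat.mul_le_mul_left 4800 hcard
  omega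

/-! ### Generation -/

/-- The subgroup generated by the generators. -/
def KK : Subgroup L3 := Subgroup.closure {xS, yS}

theorem x_mem : xS ∈ KK := Subgroup.subset_closure (by simp)
theorem y_mem : yS ∈ KK := Subgroup.subset_closure (by simp)

/-- The code of the `s`-th conjugating element. -/
def sc (s : ℕ) : ℕ := List.getD [xc, yc, Yc] s 0

/-- The code of the inverse of the `s`-th conjugating element. -/
def sic (s : ℕ) : ℕ := List.getD [xc, Yc, yc] s 0

theorem sc_mem (s : ℕ) (hs : s < 3) : ∃ g ∈ KK, eS g = sc s ∧ eS g⁻¹ = sic s := by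
  interval_cases s
  · exact ⟨xS, x_mem, eS_x, by rw [x_inv, eS_x]; rfl⟩
  · exact ⟨yS, y_mem, eS_y, eS_yinv⟩
  · refine ⟨yS⁻¹, inv_mem y_mem, eS_yinv, ?_⟩
    rw [inv_inv, eS_y]
    rfl

theorem Tl_step : ∀ i, i < 194 →
    (parL.getD i (0, 0)).1 < i + 1 ∧ (parL.getD i (0, 0)).2 < 3 ∧
      Tl.getD (i + 1) 0 = mul3N gf16 (mul3N gf16 (sc (parL.getD i (0, 0)).2)
        (Tl.getD (parL.getD i (0, 0)).1 0)) (sic (parL.getD i (0, 0)).2) := by
  decide +kernel

theorem Tl_zero : Tl.getD 0 0 = xc := by decide +kernel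

theorem Tl_mem (i : ℕ) : i < 195 → ∃ g ∈ KK, eS g = Tl.getD i 0 := by
  induction i using Nat.strong_induction_on with
  | _ i ih =>
    intro hi
    rcases i with _ | i
    · exact ⟨xS, x_mem, by rw [eS_x, Tl_zero]⟩
    · obtain ⟨h1, h2, h3⟩ := Tl_step i (by omega)
      obtain ⟨t, ht, et⟩ := ih _ h1 (by omega)
      obtain ⟨g, hg, eg, eg'⟩ := sc_mem _ h2
      refine ⟨g * t * g⁻¹, mul_mem (mul_mem hg ht) (inv_mem hg), ?_⟩
      rw [h3, eS_mul, eS_mul, eg, et, eg']

/-- Fourth powers on codes. -/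
def p4N (a : ℕ) : ℕ := gf16.mulN (gf16.mulN (gf16.mulN a a) a) a

theorem enc_p4 (x : GF16) : gf16.enc (x ^ 4) = p4N (gf16.enc x) := by
  have : x ^ 4 = x * x * x * x := by ring
  rw [this, gf16.enc_mul, gf16.enc_mul, gf16.enc_mul]
  rfl

/-- The norm of a vector, on codes. -/
def isoN (a b e : ℕ) : ℕ :=
  gf16.addN (gf16.addN (gf16.mulN a (p4N a)) (gf16.mulN b (p4N b))) (gf16.mulN e (p4N e))

theorem enc_herm (v : Fin 3 → GF16) :
    gf16.enc (hermForm 3 GF16 4 v v) = isoN (gf16.enc (v 0)) (gf16.enc (v 1)) (gf16.enc (v 2)) := by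
  simp only [hermForm, Fin.sum_univ_three, gf16.enc_add, gf16.enc_mul, enc_p4, isoN]

/-- The entry of a transvection, on codes. -/
def tvE (d c a b : ℕ) : ℕ := gf16.addN d (gf16.mulN c (gf16.mulN a (p4N b)))

/-- The code of a transvection. -/
def tvCode (a b e c : ℕ) : ℕ :=
  tvE 1 c a a + 16 * (tvE 0 c a b + 16 * (tvE 0 c a e + 16 * (tvE 0 c b a + 16 * (tvE 1 c b b +
    16 * (tvE 0 c b e + 16 * (tvE 0 c e a + 16 * (tvE 0 c e b + 16 * tvE 1 c e e)))))))

theorem enc_tv (v : Fin 3 → GF16) (c : GF16) :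
    enc3 gf16 (unitaryTransvection 3 4 v c) =
      tvCode (gf16.enc (v 0)) (gf16.enc (v 1)) (gf16.enc (v 2)) (gf16.enc c) := by
  have h : ∀ i j : Fin 3, gf16.enc (unitaryTransvection 3 4 v c i j) =
      tvE (gf16.enc ((1 : Matrix (Fin 3) (Fin 3) GF16) i j)) (gf16.enc c) (gf16.enc (v i)) (gf16.enc (v j)) := by
    intro i j
    have : unitaryTransvection 3 4 v c i j =
        (1 : Matrix (Fin 3) (Fin 3) GF16) i j + c * (v i * v j ^ 4) := by
      simp [unitaryTransvection, Matrix.vecMulVec_apply]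
    rw [this, gf16.enc_add, gf16.enc_mul, gf16.enc_mul, enc_p4]
    rfl
  have e00 : gf16.enc ((1 : Matrix (Fin 3) (Fin 3) GF16) 0 0) = 1 := by decide +kernel
  have e01 : gf16.enc ((1 : Matrix (Fin 3) (Fin 3) GF16) 0 1) = 0 := by decide +kernel
  have e02 : gf16.enc ((1 : Matrix (Fin 3) (Fin 3) GF16) 0 2) = 0 := by decide +kernel
  have e10 : gf16.enc ((1 : Matrix (Fin 3) (Fin 3) GF16) 1 0) = 0 := by decide +kernel
  have e11 : gf16.enc ((1 : Matrix (Fin 3) (Fin 3) GF16) 1 1) = 1 := by decide +kernel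
  have e12 : gf16.enc ((1 : Matrix (Fin 3) (Fin 3) GF16) 1 2) = 0 := by decide +kernel
  have e20 : gf16.enc ((1 : Matrix (Fin 3) (Fin 3) GF16) 2 0) = 0 := by decide +kernel
  have e21 : gf16.enc ((1 : Matrix (Fin 3) (Fin 3) GF16) 2 1) = 0 := by decide +kernel
  have e22 : gf16.enc ((1 : Matrix (Fin 3) (Fin 3) GF16) 2 2) = 1 := by decide +kernel
  have hq : gf16.q = 16 := rfl
  unfold enc3
  rw [hq]
  simp only [h, e00, e01, e02, e10, e11, e12, e20, e21, e22]
  rfl

/-- The check that all transvections are among the conjugates of the first generator. -/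
def chkT : Bool :=
  (List.range 16).all fun a => (List.range 16).all fun b => (List.range 16).all fun e =>
    !(Nat.beq (isoN a b e) 0) || (List.range 16).all fun c =>
      !(Nat.beq (gf16.addN c (p4N c)) 0) ||
        (Nat.beq (tvCode a b e c) oneC || Tl.elem (tvCode a b e c))

theorem chkT_true : chkT = true := by decide +kernel

theorem tv_mem (A : L3) (hA : A ∈ Tv.tvSet 3 GF16 4) : A ∈ KK := by
  obtain ⟨v, c, hv, hm⟩ := hA
  by_cases hv0 : v = 0
  · have : A = 1 := by
      apply Subtype.ext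
      apply Subtype.ext
      rw [Tv.mat] at hm
      rw [hm, hv0]
      apply Matrix.ext
      intro i j
      simp [unitaryTransvection, Matrix.vecMulVec_apply]
    rw [this]
    exact one_mem _
  · have hc : c + c ^ 4 = 0 := Comm.trace_zero_of_preserves hF16 hv hv0 (by
      rw [← hm]
      exact SU.preserves_su A)
    have h1 : isoN (gf16.enc (v 0)) (gf16.enc (v 1)) (gf16.enc (v 2)) = 0 := by
      rw [← enc_herm, hv]
      rfl
    have h2 : gf16.addN (gf16.enc c) (p4N (gf16.enc c)) = 0 := by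
      rw [← enc_p4, ← gf16.enc_add, hc]
      rfl
    have hlt : ∀ x : GF16, gf16.enc x ∈ List.range 16 := fun x =>
      List.mem_range.2 (gf16.enc_lt x)
    have h3 := chkT_true
    simp only [chkT, List.all_eq_true] at h3
    have h4 := h3 _ (hlt (v 0)) _ (hlt (v 1)) _ (hlt (v 2))
    rw [h1] at h4
    have h4' := ((Bool.or_eq_true_iff).1 h4).resolve_left (by decide)
    rw [List.all_eq_true] at h4'
    have h5 := h4' _ (hlt c)
    rw [h2] at h5
    have h5' := ((Bool.or_eq_true_iff).1 h5).resolve_left (by decide)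
    have h6 := (Bool.or_eq_true_iff).1 h5'
    have hcode : eS A = tvCode (gf16.enc (v 0)) (gf16.enc (v 1)) (gf16.enc (v 2)) (gf16.enc c) := by
      rw [← enc_tv, ← hm]
      rfl
    rcases h6 with h5 | h5
    · have : A = 1 := by
        apply eS_inj
        rw [hcode, eS_one]
        exact Nat.eq_of_beq_eq_true h5
      rw [this]
      exact one_mem _
    · rw [List.elem_eq_mem, decide_eq_true_eq] at h5
      obtain ⟨i, hi, hi'⟩ := List.getElem_of_mem h5
      have hi2 : i < 195 := hi
      obtain ⟨g, hg, eg⟩ := Tl_mem i hi2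
      have : g = A := by
        apply eS_inj
        rw [eg, hcode, List.getD_eq_getElem _ _ hi, hi']
      rw [← this]
      exact hg

theorem KK_top : KK = ⊤ := by
  rw [eq_top_iff, ← Gen.T_eq_top hF16 (n := 3) le_rfl (by omega)]
  exact (Subgroup.closure_le _).2 tv_mem

/-! ### The isomorphism with the presented group -/

theorem card_L3 : Nat.card L3 = 62400 := by
  change Nat.card (SU 3 GF16 4) = 62400
  have h := SU.card_SU hF16 (n := 3) (by norm_num)
  have h2 : (∏ i ∈ Finset.range 3, (if Even i then 4 ^ (i + 1) + 1 else 4 ^ (i + 1) - 1)) = 4875 := by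
    decide
  rw [h2] at h
  norm_num at h
  omega

theorem ev0_surj : Function.Surjective ev0 := by
  rw [← MonoidHom.range_eq_top, eq_top_iff, ← KK_top]
  refine (Subgroup.closure_le _).2 ?_
  rintro g (rfl | hg)
  · exact ⟨PresentedGroup.of 0, PresentedGroup.toGroup.of lift_S⟩
  · rw [Set.mem_singleton_iff] at hg
    subst hg
    exact ⟨PresentedGroup.of 1, PresentedGroup.toGroup.of lift_S⟩

theorem ev0_bij : Function.Bijective ev0 := by
  obtain ⟨h1, h2⟩ := P_card
  have : Finite L3 := Nat.finite_of_card_ne_zero (by rw [card_L3]; norm_num)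
  exact (Function.Surjective.bijective_of_nat_card_le ev0_surj (by rw [card_L3]; exact h2))

/-- `SU₃(4)` is the presented group. -/
noncomputable def eP : PresentedGroup TC.U34.RR ≃* L3 := MulEquiv.ofBijective ev0 ev0_bij

/-! ### The representation -/

/-- The rows of a letter. -/
def ltr (l : Fin 2 × Bool) : List (List ℕ) :=
  cond (l.1.val == 0) mX (cond l.2 mY mYi)

theorem ltr_len : ∀ a, (ltr a).length = 12 := by decide +kernel

theorem ltr_row : ∀ a, ∀ r ∈ ltr a, r.length = 12 := by decide +kernel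

theorem basis12 : ∀ j : Fin 12, toV 5 12 (16 ^ j.val) = Pi.single j 1 := by
  intro j
  funext i
  revert i j
  decide +kernel

/-- The matrix of a letter. -/
abbrev MM (A : List (List ℕ)) : Matrix (Fin 12) (Fin 12) (ZMod 5) := toM 5 12 A

/-- Words in the letters fix the `16 ^ j`. -/
theorem word_check : ∀ L ∈ rsW, ∀ j : Fin 12, evW 5 12 ltr L (16 ^ j.val) = 16 ^ j.val := by
  decide +kernel

theorem word_prod (L : List (Fin 2 × Bool)) (hL : L ∈ rsW) :
    (L.map fun a => MM (ltr a)).prod = 1 := by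
  refine eq_one_of_fix 5 12 basis12 _ fun j => ?_
  rw [← toV_evW 5 12 (by norm_num) ltr ltr_len ltr_row, word_check L hL]

/-- Two-letter words, to see the inverses. -/
def ltr2 (n : ℕ) : List (List ℕ) := List.getD [mX, mY, mYi, mD, mD1] n mX

theorem ltr2_len : ∀ n, (ltr2 n).length = 12 := by
  intro n
  by_cases h : n < 5
  · interval_cases n <;> decide +kernel
  · have : ltr2 n = mX := by
      unfold ltr2
      rw [List.getD_eq_default _ _ (by simpa using h)]
    rw [this]
    decide +kernel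

theorem ltr2_row : ∀ n, ∀ r ∈ ltr2 n, r.length = 12 := by
  intro n
  by_cases h : n < 5
  · interval_cases n <;> decide +kernel
  · have : ltr2 n = mX := by
      unfold ltr2
      rw [List.getD_eq_default _ _ (by simpa using h)]
    rw [this]
    decide +kernel

theorem mm_eq (L : List ℕ) (n : ℕ) :
    (L.map fun a => MM (ltr2 a)).prod *ᵥ toV 5 12 n = toV 5 12 (evW 5 12 ltr2 L n) :=
  (toV_evW 5 12 (by norm_num) ltr2 ltr2_len ltr2_row L n).symm

theorem XX : MM mX * MM mX = 1 := by
  refine eq_one_of_fix 5 12 basis12 _ fun j => ?_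
  have h := mm_eq [0, 0] (16 ^ j.val)
  have e : evW 5 12 ltr2 [0, 0] (16 ^ j.val) = 16 ^ j.val := by
    revert j
    decide +kernel
  rw [e] at h
  simpa [ltr2] using h

theorem YYi : MM mY * MM mYi = 1 := by
  refine eq_one_of_fix 5 12 basis12 _ fun j => ?_
  have h := mm_eq [1, 2] (16 ^ j.val)
  have e : evW 5 12 ltr2 [1, 2] (16 ^ j.val) = 16 ^ j.val := by
    revert j
    decide +kernel
  rw [e] at h
  simpa [ltr2] using h

theorem YiY : MM mYi * MM mY = 1 := by
  refine eq_one_of_fix 5 12 basis12 _ fun j => ?_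
  have h := mm_eq [2, 1] (16 ^ j.val)
  have e : evW 5 12 ltr2 [2, 1] (16 ^ j.val) = 16 ^ j.val := by
    revert j
    decide +kernel
  rw [e] at h
  simpa [ltr2] using h

/-- `D X Y = D + 1` as matrices. -/
theorem DXY : MM mD * (MM mX * MM mY) = MM mD1 := by
  refine eq_of_fix 5 12 basis12 _ _ fun j => ?_
  have h := mm_eq [3, 0, 1] (16 ^ j.val)
  have h' := mm_eq [4] (16 ^ j.val)
  have e : evW 5 12 ltr2 [3, 0, 1] (16 ^ j.val) = evW 5 12 ltr2 [4] (16 ^ j.val) := by
    revert j
    decide +kernel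
  rw [e, ← h'] at h
  simpa [ltr2] using h

theorem D1_nat : ∀ i j : Fin 12, ((mD1.getD i.val []).getD j.val 0) % 5 =
    (((mD.getD i.val []).getD j.val 0) + (if i.val = j.val then 1 else 0)) % 5 := by
  decide +kernel

theorem D1_eq : MM mD1 = MM mD + 1 := by
  apply Matrix.ext
  intro i j
  rw [Matrix.add_apply, Matrix.one_apply]
  have h := (ZMod.natCast_eq_natCast_iff' _ _ 5).2 (D1_nat i j)
  change (((mD1.getD i.val []).getD j.val 0 : ℕ) : ZMod 5) = (((mD.getD i.val []).getD j.val 0 : ℕ) : ZMod 5) + _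
  rw [h]
  by_cases hij : i = j
  · subst hij
    simp
  · have : i.val ≠ j.val := fun h => hij (Fin.ext h)
    simp [hij, this]

/-- The images of the generators. -/
def fV : Fin 2 → Matrix.GeneralLinearGroup (Fin 12) (ZMod 5) :=
  ![⟨MM mX, MM mX, XX, XX⟩, ⟨MM mY, MM mYi, YYi, YiY⟩]

theorem fV_letter (l : Fin 2 × Bool) :
    ((cond l.2 (fV l.1) (fV l.1)⁻¹ : Matrix.GeneralLinearGroup (Fin 12) (ZMod 5)) :
      Matrix (Fin 12) (Fin 12) (ZMod 5)) = MM (ltr l) := by
  obtain ⟨a, b⟩ := l
  fin_cases a <;> cases b <;> rfl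

theorem lift_V : ∀ r ∈ TC.U34.RR, FreeGroup.lift fV r = 1 := by
  intro r hr
  have hr' : r ∈ TC.U34.rsL := hr
  rw [rs_eq] at hr'
  obtain ⟨L, hL, rfl⟩ := List.mem_map.1 hr'
  rw [FreeGroup.lift_mk]
  apply Units.ext
  rw [Units.val_one, ← word_prod L hL]
  clear hL hr hr'
  induction L with
  | nil => rfl
  | cons a L ih =>
    rw [List.map_cons, List.prod_cons, Units.val_mul, ih, fV_letter, List.map_cons, List.prod_cons]

/-- The map from the presented group to the general linear group. -/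
noncomputable def ev1 : PresentedGroup TC.U34.RR →* Matrix.GeneralLinearGroup (Fin 12) (ZMod 5) :=
  PresentedGroup.toGroup lift_V

/-- The representation of `SU₃(4)`. -/
noncomputable def rho : L3 →* Matrix.GeneralLinearGroup (Fin 12) (ZMod 5) :=
  ev1.comp eP.symm.toMonoidHom

theorem eP_of0 : eP (PresentedGroup.of 0) = xS := PresentedGroup.toGroup.of lift_S
theorem eP_of1 : eP (PresentedGroup.of 1) = yS := PresentedGroup.toGroup.of lift_S

theorem rho_x : rho xS = fV 0 := by
  change ev1 (eP.symm xS) = _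
  rw [← eP_of0, MulEquiv.symm_apply_apply]
  exact PresentedGroup.toGroup.of lift_V

theorem rho_y : rho yS = fV 1 := by
  change ev1 (eP.symm yS) = _
  rw [← eP_of1, MulEquiv.symm_apply_apply]
  exact PresentedGroup.toGroup.of lift_V

/-- The action on vectors. -/
noncomputable def act5 : L3 →* MulAut (Multiplicative (Fin 12 → ZMod 5)) :=
  (vecAct (ZMod 5) 12).comp rho

/-- The element of order `13`. -/
def c13 : L3 := xS * yS

theorem c13_fpf (v : Multiplicative (Fin 12 → ZMod 5)) (h : act5 c13 v = v) : v = 1 := by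
  have h1 : (MM mX * MM mY) *ᵥ (Multiplicative.toAdd v) = Multiplicative.toAdd v := by
    have h2 : act5 c13 v = Multiplicative.ofAdd ((((rho xS * rho yS : Matrix.GeneralLinearGroup (Fin 12) (ZMod 5))) : Matrix (Fin 12) (Fin 12) (ZMod 5)) *ᵥ (Multiplicative.toAdd v)) := by
      change vecAct (ZMod 5) 12 (rho (xS * yS)) v = _
      rw [map_mul]
      rfl
    rw [h2, rho_x, rho_y] at h
    exact congrArg Multiplicative.toAdd h
  have h3 : MM mD1 *ᵥ (Multiplicative.toAdd v) = MM mD *ᵥ (Multiplicative.toAdd v) := by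
    rw [← DXY, ← Matrix.mulVec_mulVec, h1]
  rw [D1_eq, Matrix.add_mulVec, Matrix.one_mulVec] at h3
  have h4 : Multiplicative.toAdd v = 0 := by
    simpa using h3
  exact Multiplicative.toAdd.injective h4

theorem pow_code (g : L3) (n : ℕ) : eS (g ^ (n + 1)) = (List.replicate n (eS g)).foldr (mul3N gf16) (eS g) := by
  induction n with
  | zero => simp
  | succ n ih =>
    rw [pow_succ', eS_mul, ih, List.replicate_succ, List.foldr_cons]

theorem eq_one_iff (g : L3) : g = 1 ↔ eS g = oneC :=
  ⟨fun h => by rw [h, eS_one], fun h => eS_inj (by rw [h, eS_one])⟩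

theorem c13_code : eS c13 = mul3N gf16 xc yc := by
  unfold c13
  rw [eS_mul, eS_x, eS_y]

theorem order_c13 : orderOf c13 = 13 := by
  have : Fact (Nat.Prime 13) := ⟨by norm_num⟩
  apply orderOf_eq_prime
  · rw [eq_one_iff, pow_code c13 12, c13_code]
    decide +kernel
  · rw [Ne, eq_one_iff, c13_code]
    decide +kernel

theorem order_g10 : orderOf g10 = 10 := by
  apply orderOf_eq_of_pow_and_pow_div_prime (by norm_num)
  · rw [eq_one_iff, pow_code g10 9, eS_g10]
    decide +kernel
  · intro p hp hd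
    have hle : p ≤ 10 := Nat.le_of_dvd (by norm_num) hd
    have : p = 2 ∨ p = 5 := by
      interval_cases p <;> first | omega | (exfalso; revert hp hd; decide)
    rcases this with rfl | rfl
    · rw [show 10 / 2 = 4 + 1 by norm_num, Ne, eq_one_iff, pow_code g10 4, eS_g10]
      decide +kernel
    · rw [show 10 / 5 = 1 + 1 by norm_num, Ne, eq_one_iff, pow_code g10 1, eS_g10]
      decide +kernel

theorem order_g15 : orderOf g15 = 15 := by
  apply orderOf_eq_of_pow_and_pow_div_prime (by norm_num)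
  · rw [eq_one_iff, pow_code g15 14, eS_g15]
    decide +kernel
  · intro p hp hd
    have hle : p ≤ 15 := Nat.le_of_dvd (by norm_num) hd
    have : p = 3 ∨ p = 5 := by
      interval_cases p <;> first | omega | (exfalso; revert hp hd; decide)
    rcases this with rfl | rfl
    · rw [show 15 / 3 = 4 + 1 by norm_num, Ne, eq_one_iff, pow_code g15 4, eS_g15]
      decide +kernel
    · rw [show 15 / 5 = 2 + 1 by norm_num, Ne, eq_one_iff, pow_code g15 2, eS_g15]
      decide +kernel

/-- Primes dividing the order. -/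
theorem prime_cases {p : ℕ} (hp : p.Prime) (h : p ∣ 62400) : p = 2 ∨ p = 3 ∨ p = 5 ∨ p = 13 := by
  have h' : p ∣ 2 ^ 6 * 3 * 5 ^ 2 * 13 := by simpa using h
  rcases (Nat.Prime.dvd_mul hp).1 h' with h | h
  · rcases (Nat.Prime.dvd_mul hp).1 h with h | h
    · rcases (Nat.Prime.dvd_mul hp).1 h with h | h
      · left
        exact (Nat.prime_dvd_prime_iff_eq hp (by norm_num)).1 (hp.dvd_of_dvd_pow h)
      · right; left
        exact (Nat.prime_dvd_prime_iff_eq hp (by norm_num)).1 h
    · right; right; left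
      exact (Nat.prime_dvd_prime_iff_eq hp (by norm_num)).1 (hp.dvd_of_dvd_pow h)
  · right; right; right
    exact (Nat.prime_dvd_prime_iff_eq hp (by norm_num)).1 h

/-- The main result on `SU₃(4)`. -/
theorem main (K : ℕ) :
    ∃ (H : Type) (_ : Group H) (_ : Finite H), K < Nat.card H ∧ SameGraph L3 H := by
  have hfin : Finite L3 := Nat.finite_of_card_ne_zero (by rw [card_L3]; norm_num)
  refine exists_large act5 (r := 5) (by norm_num) (by rw [card_L3]; norm_num) ?_ ?_ K
  · intro v
    apply Multiplicative.toAdd.injective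
    funext i
    change 5 • (Multiplicative.toAdd v i) = 0
    have : (5 : ZMod 5) = 0 := by decide
    rw [nsmul_eq_mul]
    push_cast
    rw [this, zero_mul]
  · intro p hp hp5 l hl v hv hfix
    have hd : p ∣ 62400 := by
      rw [← hl, ← card_L3]
      exact orderOf_dvd_natCard l
    rcases prime_cases hp hd with rfl | rfl | rfl | rfl
    · exact ⟨g10, order_g10⟩
    · exact ⟨g15, order_g15⟩
    · exact absurd rfl hp5
    · exfalso
      apply hv
      refine fixed_free_of_sylow act5 (p := 13) (by norm_num) ?_ c13 order_c13 c13_fpf l hl v hfix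
      rw [card_L3]
      norm_num

end Cfsg.Agent.Lib.Compute.U34Main
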